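import Mathlib
import Cfsg.Agent.H802.FusAlp
import Cfsg.Agent.H802.FusEss

/-!
# Subsets invariant under a saturated fusion system

`mem_iff_of_hom`: a set `X` is preserved by all maps of a saturated system as soon as it is
preserved by the groups `Aut_F(Q)`, `Q` fully normalized and centric (Alperin's fusion theorem).
-/

set_option autoImplicit false

namespace Cfsg.Agent.H617.FusInv

open Cfsg Cfsg.FusionSystem Cfsg.Agent.H802

variable {Ω : Type*} [Group Ω] {S : Subgroup Ω}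

/-- The maps of `F` preserving `X`. -/
def subSys (F : FusionSystem S) (X : Set Ω)
    (hX : ∀ g ∈ S, ∀ x ∈ S, x ∈ X ↔ g * x * g⁻¹ ∈ X) : FusionSystem S where
  Hom P := {φ | φ ∈ F.Hom P ∧ ∀ x : P, (x : Ω) ∈ X ↔ φ x ∈ X}
  le_of_mem h := F.le_of_mem h.1
  injective_of_mem h := F.injective_of_mem h.1
  conj_mem := fun {P g} hP hg => ⟨F.conj_mem hP hg, fun x => hX g hg x (hP x.2)⟩
  comp_mem := fun {P Q φ ψ} hφ hψ h => ⟨F.comp_mem hφ.1 hψ.1 h, fun x =>
    (hφ.2 x).trans (hψ.2 ⟨φ x, h x⟩)⟩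
  inv_mem := by
    rintro P φ ⟨hφ, hφX⟩
    obtain ⟨ψ, hψ, he⟩ := F.inv_mem hφ
    refine ⟨ψ, ⟨hψ, ?_⟩, he⟩
    rintro ⟨_, x, rfl⟩
    change φ x ∈ X ↔ _
    rw [he x]
    exact (hφX x).symm

theorem isFullyNormalized_self [Finite S] (F : FusionSystem S) : F.IsFullyNormalized S := by
  refine ⟨le_rfl, fun Q hQ => ?_⟩
  have h1 : Q = S := by
    have := isConj_card_eq hQ
    exact Subgroup.eq_of_le_of_card_ge (isConj_le_right hQ) this.le
  rw [h1]

theorem isCentric_self [Finite S] (F : FusionSystem S) : F.IsCentric S := by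
  refine ⟨le_rfl, fun Q hQ => ?_⟩
  have h1 : Q = S := by
    have := isConj_card_eq hQ
    exact Subgroup.eq_of_le_of_card_ge (isConj_le_right hQ) this.le
  rw [h1]
  exact inf_le_left

/-- **Alperin's fusion theorem for invariant sets.** -/
theorem mem_iff_of_hom {p : ℕ} [Fact p.Prime] [Finite S] (hS : IsPGroup p S)
    {F : FusionSystem S} (hF : F.IsSaturated p) (X : Set Ω)
    (h : ∀ Q : Subgroup Ω, F.IsFullyNormalized Q → F.IsCentric Q → ∀ α ∈ F.autGroup Q,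
      ∀ x : Q, (x : Ω) ∈ X ↔ ((α x : Q) : Ω) ∈ X)
    {P : Subgroup Ω} {φ : P →* Ω} (hφ : φ ∈ F.Hom P) (x : P) : (x : Ω) ∈ X ↔ φ x ∈ X := by
  have hX : ∀ g ∈ S, ∀ x ∈ S, x ∈ X ↔ g * x * g⁻¹ ∈ X := by
    intro g hg x hx
    have hgn : g ∈ Subgroup.normalizer (S : Set Ω) := Subgroup.le_normalizer hg
    obtain ⟨α, hα⟩ := exists_conjAut hgn
    have hαF : α ∈ F.autGroup S := autInducedBy_le_autGroup F le_rfl
      ((mem_autInducedBy_iff S S α).2 ⟨g, hg, hα⟩)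
    have h1 := h S (isFullyNormalized_self F) (isCentric_self F) α hαF ⟨x, hx⟩
    rwa [hα] at h1
  have key : F.Hom P ⊆ (subSys F X hX).Hom P := by
    refine le_of_centric hS hF (subSys F X hX) (fun Q hQ hQc _ α hα => ?_) P
    rw [mem_autGroup_iff _ hQ.1]
    exact ⟨(mem_autGroup_iff F hQ.1 α).1 hα, fun x => h Q hQ hQc α hα x⟩
  exact (key hφ).2 x

/-- Conjugate elements: `F.IsConjElt` preserves invariant sets. -/
theorem mem_iff_of_isConjElt {p : ℕ} [Fact p.Prime] [Finite S] (hS : IsPGroup p S)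
    {F : FusionSystem S} (hF : F.IsSaturated p) (X : Set Ω)
    (h : ∀ Q : Subgroup Ω, F.IsFullyNormalized Q → F.IsCentric Q → ∀ α ∈ F.autGroup Q,
      ∀ x : Q, (x : Ω) ∈ X ↔ ((α x : Q) : Ω) ∈ X)
    {x y : Ω} (hxy : F.IsConjElt x y) : x ∈ X ↔ y ∈ X := by
  obtain ⟨φ, hφ, rfl⟩ := hxy
  exact mem_iff_of_hom hS hF X h hφ ⟨x, Subgroup.mem_zpowers x⟩


/-- **Alperin's fusion theorem for invariant sets**, with the automorphisms which extend left out. -/
theorem mem_iff_of_hom_of_not_extends {p : ℕ} [Fact p.Prime] [Finite S] (hS : IsPGroup p S)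
    {F : FusionSystem S} (hF : F.IsSaturated p) (X : Set Ω)
    (h : ∀ Q : Subgroup Ω, F.IsFullyNormalized Q → F.IsCentric Q → ∀ α ∈ F.autGroup Q,
      ¬ Extends F Q α → ∀ x : Q, (x : Ω) ∈ X ↔ ((α x : Q) : Ω) ∈ X)
    {P : Subgroup Ω} {φ : P →* Ω} (hφ : φ ∈ F.Hom P) (x : P) : (x : Ω) ∈ X ↔ φ x ∈ X := by
  have htop : ∀ α ∈ F.autGroup S, ¬ Extends F S α := by
    rintro α hα ⟨R, hR, hcard, ψ, hψ, -⟩
    have h1 := hom_le hψ
    have : R = S := le_antisymm h1 hR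
    rw [this] at hcard
    exact lt_irrefl _ hcard
  have hX : ∀ g ∈ S, ∀ x ∈ S, x ∈ X ↔ g * x * g⁻¹ ∈ X := by
    intro g hg x hx
    have hgn : g ∈ Subgroup.normalizer (S : Set Ω) := Subgroup.le_normalizer hg
    obtain ⟨α, hα⟩ := exists_conjAut hgn
    have hαF : α ∈ F.autGroup S := autInducedBy_le_autGroup F le_rfl
      ((mem_autInducedBy_iff S S α).2 ⟨g, hg, hα⟩)
    have h1 := h S (isFullyNormalized_self F) (isCentric_self F) α hαF (htop α hαF) ⟨x, hx⟩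
    rwa [hα] at h1
  have key : F.Hom P ⊆ (subSys F X hX).Hom P := by
    refine le_of_centric hS hF (subSys F X hX) (fun Q hQ hQc hbig α hα => ?_) P
    rw [mem_autGroup_iff _ hQ.1]
    refine ⟨(mem_autGroup_iff F hQ.1 α).1 hα, fun x => ?_⟩
    by_cases he : Extends F Q α
    · obtain ⟨R, hQR, hcard, ψ, hψ, hψe⟩ := he
      have h1 := (hbig R hcard hψ).2 ⟨x, hQR x.2⟩
      rw [hψe] at h1
      exact h1
    · exact h Q hQ hQc α hα he x
  exact (key hφ).2 x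

theorem mem_iff_of_isConjElt_of_not_extends {p : ℕ} [Fact p.Prime] [Finite S]
    (hS : IsPGroup p S)
    {F : FusionSystem S} (hF : F.IsSaturated p) (X : Set Ω)
    (h : ∀ Q : Subgroup Ω, F.IsFullyNormalized Q → F.IsCentric Q → ∀ α ∈ F.autGroup Q,
      ¬ Extends F Q α → ∀ x : Q, (x : Ω) ∈ X ↔ ((α x : Q) : Ω) ∈ X)
    {x y : Ω} (hxy : F.IsConjElt x y) : x ∈ X ↔ y ∈ X := by
  obtain ⟨φ, hφ, rfl⟩ := hxy
  exact mem_iff_of_hom_of_not_extends hS hF X h hφ ⟨x, Subgroup.mem_zpowers x⟩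

/-- It is enough to map `X` into `X`. -/
theorem mem_iff_of_maps {Q : Subgroup Ω} [Finite Q] {X : Set Ω} {α : MulAut Q}
    (h : ∀ x : Q, (x : Ω) ∈ X → ((α x : Q) : Ω) ∈ X) (x : Q) :
    (x : Ω) ∈ X ↔ ((α x : Q) : Ω) ∈ X := by
  have hfin : Finite (MulAut Q) := inferInstance
  refine ⟨h x, fun hx => ?_⟩
  have h1 : ∀ n : ℕ, ((((α ^ n) (α x) : Q)) : Ω) ∈ X := by
    intro n
    induction n with
    | zero => simpa using hx
    | succ n ih =>
      rw [pow_succ']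
      exact h _ ih
  obtain ⟨n, hn, hn1⟩ := (isOfFinOrder_of_finite α).exists_pow_eq_one
  obtain ⟨m, rfl⟩ : ∃ m, n = m + 1 := ⟨n - 1, by omega⟩
  have h2 := h1 m
  rw [← MulAut.mul_apply, ← pow_succ, hn1] at h2
  exact h2

/-- Two commuting distinct involutions cannot exist when the Sylow `2`-subgroups have order `2`. -/
theorem eq_of_commuting_involutions {H : Type*} [Group H] [Finite H] (R : Sylow 2 H)
    (hR : Nat.card R = 2) {σ τ : H} (hσ : σ ^ 2 = 1) (hτ : τ ^ 2 = 1) (hc : σ * τ = τ * σ)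
    (hσ1 : σ ≠ 1) (hτ1 : τ ≠ 1) : σ = τ := by
  have : Fact (Nat.Prime 2) := ⟨Nat.prime_two⟩
  have hoσ : orderOf σ = 2 := orderOf_eq_prime hσ hσ1
  have hoτ : orderOf τ = 2 := orderOf_eq_prime hτ hτ1
  have hPσ : IsPGroup 2 (Subgroup.zpowers σ) :=
    IsPGroup.of_card (n := 1) (by rw [Nat.card_zpowers, hoσ, pow_one])
  have hPτ : IsPGroup 2 (Subgroup.zpowers τ) :=
    IsPGroup.of_card (n := 1) (by rw [Nat.card_zpowers, hoτ, pow_one])
  obtain ⟨Q, hQ⟩ := hPσ.exists_le_sylow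
  have hQcard : Nat.card Q = 2 := (Nat.card_congr (Sylow.equiv Q R).toEquiv).trans hR
  have hQeq : Subgroup.zpowers σ = Q := Subgroup.eq_of_le_of_card_ge hQ (by
    rw [Nat.card_zpowers, hoσ]; exact hQcard.le)
  have h1 := hPτ.inf_normalizer_sylow Q
  have h2 : τ ∈ Subgroup.normalizer ((Q : Subgroup H) : Set H) := by
    rw [← hQeq, Subgroup.mem_normalizer_iff]
    intro x
    constructor
    · rintro ⟨n, rfl⟩
      refine ⟨n, ?_⟩
      change σ ^ n = τ * σ ^ n * τ⁻¹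
      have h3 : Commute τ (σ ^ n) := (show Commute τ σ from hc.symm).zpow_right n
      rw [h3.eq, mul_inv_cancel_right]
    · rintro ⟨n, hn⟩
      refine ⟨n, ?_⟩
      change σ ^ n = x
      change σ ^ n = τ * x * τ⁻¹ at hn
      have h3 : Commute τ (σ ^ n) := (show Commute τ σ from hc.symm).zpow_right n
      have h4 : x = τ⁻¹ * σ ^ n * τ := by rw [hn]; group
      rw [h4, mul_assoc, ← h3.eq, inv_mul_cancel_left]
  have h3 : τ ∈ (Subgroup.zpowers τ ⊓ Subgroup.normalizer ((Q : Subgroup H) : Set H) :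
      Subgroup H) := ⟨Subgroup.mem_zpowers τ, h2⟩
  have h4 : τ ∈ Subgroup.zpowers σ := by rw [hQeq]; exact (h1.le h3).2
  obtain ⟨n, hn⟩ := h4
  change σ ^ n = τ at hn
  rcases Int.even_or_odd n with ⟨m, hm⟩ | ⟨m, hm⟩
  · exfalso
    apply hτ1
    rw [← hn, hm, ← two_mul, zpow_mul]
    have : σ ^ (2 : ℤ) = 1 := by exact_mod_cast hσ
    rw [this, one_zpow]
  · rw [← hn, hm, zpow_add, zpow_mul, zpow_one]
    have : σ ^ (2 : ℤ) = 1 := by exact_mod_cast hσ
    rw [this, one_zpow, one_mul]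

end Cfsg.Agent.H617.FusInv
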