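import Mathlib
import Cfsg.Agent.H617.FusInv

/-!
# Fusion and centralizers in small `2`-groups

Notation: `C S x = C_S(x)`, `Z S = Z(S)`, both as subgroups of the ambient group.
-/

set_option autoImplicit false

namespace Cfsg.Agent.H617.FusTwo

open Cfsg Cfsg.FusionSystem Cfsg.Agent.H802 Cfsg.Agent.H617.FusInv

variable {Ω : Type*} [Group Ω] {S : Subgroup Ω}

/-- The centralizer of `x` in `S`. -/
abbrev C (S : Subgroup Ω) (x : Ω) : Subgroup Ω := centralizerIn S (Subgroup.zpowers x)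

/-- The centre of `S`. -/
abbrev Z (S : Subgroup Ω) : Subgroup Ω := centralizerIn S S

theorem mem_C {x y : Ω} : y ∈ C S x ↔ y ∈ S ∧ x * y = y * x := by
  constructor
  · rintro ⟨h1, h2⟩
    exact ⟨h1, Subgroup.mem_centralizer_iff.1 h2 x (Subgroup.mem_zpowers x)⟩
  · rintro ⟨h1, h2⟩
    refine ⟨h1, Subgroup.mem_centralizer_iff.2 ?_⟩
    rintro _ ⟨n, rfl⟩
    exact ((show Commute x y from h2).zpow_left n).eq

theorem mem_Z {y : Ω} : y ∈ Z S ↔ y ∈ S ∧ ∀ s ∈ S, s * y = y * s := by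
  constructor
  · rintro ⟨h1, h2⟩
    exact ⟨h1, fun s hs => Subgroup.mem_centralizer_iff.1 h2 s hs⟩
  · rintro ⟨h1, h2⟩
    exact ⟨h1, Subgroup.mem_centralizer_iff.2 fun s hs => h2 s hs⟩

theorem Z_le : Z S ≤ S := inf_le_left

theorem C_le (x : Ω) : C S x ≤ S := inf_le_left

theorem Z_le_C {x : Ω} (hx : x ∈ S) : Z S ≤ C S x := fun y hy =>
  mem_C.2 ⟨hy.1, (mem_Z.1 hy).2 x hx⟩

theorem self_mem_C {x : Ω} (hx : x ∈ S) : x ∈ C S x := mem_C.2 ⟨hx, rfl⟩

theorem C_ne {x : Ω} (hx : x ∈ S) (hxZ : x ∉ Z S) : C S x ≠ S := by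
  intro h
  apply hxZ
  refine mem_Z.2 ⟨hx, fun s hs => ?_⟩
  rw [← h] at hs
  exact ((mem_C.1 hs).2).symm

theorem Z_le_of_isCentric {F : FusionSystem S} {Q : Subgroup Ω} (hQ : F.IsCentric Q) : Z S ≤ Q := by
  have h1 := hQ.2 Q (isConj_refl F hQ.1)
  refine le_trans ?_ h1
  intro y hy
  exact ⟨hy.1, Subgroup.mem_centralizer_iff.2 fun q hq => (mem_Z.1 hy).2 q (hQ.1 hq)⟩

theorem mul_mem_iff_of_relIndex_two {H K : Subgroup Ω} (h : H.relIndex K = 2) {a b : Ω}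
    (ha : a ∈ K) (hb : b ∈ K) : a * b ∈ H ↔ (a ∈ H ↔ b ∈ H) := by
  have := Subgroup.mul_mem_iff_of_index_two (H := H.subgroupOf K) h (a := ⟨a, ha⟩) (b := ⟨b, hb⟩)
  simpa [Subgroup.mem_subgroupOf] using this

theorem inv_mul_mem_of_relIndex_two {H K : Subgroup Ω} (h : H.relIndex K = 2) {a b : Ω}
    (ha : a ∈ K) (hb : b ∈ K) (ha' : a ∉ H) (hb' : b ∉ H) : a⁻¹ * b ∈ H := by
  rw [mul_mem_iff_of_relIndex_two h (K.inv_mem ha) hb, inv_mem_iff]
  tauto

/-- Conjugation by an element of `S` acts on a normal subgroup. -/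
theorem le_normalizer_of_relIndex_two {H : Subgroup Ω} (hH : H ≤ S) (h : H.relIndex S = 2) :
    S ≤ Subgroup.normalizer (H : Set Ω) := by
  have hn : (H.subgroupOf S).Normal := Subgroup.normal_of_index_eq_two h
  intro s hs
  rw [Subgroup.mem_normalizer_iff]
  intro x
  constructor
  · intro hx
    have := hn.conj_mem ⟨x, hH hx⟩ (Subgroup.mem_subgroupOf.2 hx) ⟨s, hs⟩
    exact this
  · intro hx
    have := hn.conj_mem ⟨s * x * s⁻¹, hH hx⟩ (Subgroup.mem_subgroupOf.2 hx) ⟨s⁻¹, S.inv_mem hs⟩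
    have h2 : s⁻¹ * (s * x * s⁻¹) * s⁻¹⁻¹ ∈ H := this
    have h3 : s⁻¹ * (s * x * s⁻¹) * s⁻¹⁻¹ = x := by group
    rwa [h3] at h2

theorem isFullyNormalized_of_le_normalizer [Finite S] (F : FusionSystem S) {H : Subgroup Ω}
    (hH : H ≤ S) (h : S ≤ Subgroup.normalizer (H : Set Ω)) : F.IsFullyNormalized H := by
  refine ⟨hH, fun Q hQ => ?_⟩
  have h1 : normalizerIn S H = S := inf_eq_left.2 h
  rw [h1]
  have : Finite (normalizerIn S Q) := finite_of_le inf_le_left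
  exact Nat.card_le_card_of_injective _ (Subgroup.inclusion_injective
    (inf_le_left : normalizerIn S Q ≤ S))

/-! ### `|S : Z(S)| = 4` -/

section Quarter

variable (h4 : (Z S).relIndex S = 4)
include h4

theorem relIndex_of_between {Q : Subgroup Ω} (hZ : Z S ≤ Q) (hQ : Q ≤ S) {x : Ω} (hx : x ∈ Q)
    (hxZ : x ∉ Z S) (hne : Q ≠ S) : (Z S).relIndex Q = 2 ∧ Q.relIndex S = 2 := by
  have h1 := Subgroup.relIndex_mul_relIndex (Z S) Q S hZ hQ
  rw [h4] at h1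
  have h2 : (Z S).relIndex Q ≠ 1 := fun h => hxZ (Subgroup.relIndex_eq_one.1 h hx)
  have h3 : Q.relIndex S ≠ 1 := fun h => hne (le_antisymm hQ (Subgroup.relIndex_eq_one.1 h))
  have h5 : (Z S).relIndex Q ∣ 4 := ⟨_, h1.symm⟩
  have h6 : (Z S).relIndex Q ≤ 4 := Nat.le_of_dvd (by norm_num) h5
  generalize (Z S).relIndex Q = m at *
  generalize Q.relIndex S = n at *
  interval_cases m <;> omega

theorem relIndex_C {x : Ω} (hx : x ∈ S) (hxZ : x ∉ Z S) :
    (Z S).relIndex (C S x) = 2 ∧ (C S x).relIndex S = 2 :=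
  relIndex_of_between h4 (Z_le_C hx) (C_le x) (self_mem_C hx) hxZ (C_ne hx hxZ)

theorem eq_C_of_between {Q : Subgroup Ω} (hZ : Z S ≤ Q) (hQ : Q ≤ S) {x : Ω} (hx : x ∈ Q)
    (hxZ : x ∉ Z S) (hne : Q ≠ S) : Q = C S x := by
  have h1 := relIndex_of_between h4 hZ hQ hx hxZ hne
  have h2 := relIndex_C h4 (hQ hx) hxZ
  apply le_antisymm
  · intro y hy
    refine mem_C.2 ⟨hQ hy, ?_⟩
    by_cases hyZ : y ∈ Z S
    · exact (mem_Z.1 hyZ).2 x (hQ hx)
    · have h3 := inv_mul_mem_of_relIndex_two h1.1 hx hy hxZ hyZ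
      have h4' := (mem_Z.1 h3).2 x (hQ hx)
      calc x * y = x * (x * (x⁻¹ * y)) := by group
        _ = x * (x⁻¹ * y * x) := by rw [h4']
        _ = y * x := by group
  · intro y hy
    by_cases hyZ : y ∈ Z S
    · exact hZ hyZ
    · have h3 := inv_mul_mem_of_relIndex_two h2.1 (self_mem_C (hQ hx)) hy hxZ hyZ
      have h5 : y = x * (x⁻¹ * y) := by group
      rw [h5]
      exact Q.mul_mem hx (hZ h3)

theorem C_eq_of_mem {x y : Ω} (hx : x ∈ S) (hxZ : x ∉ Z S) (hy : y ∈ C S x) (hyZ : y ∉ Z S) :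
    C S x = C S y :=
  eq_C_of_between h4 (Z_le_C hx) (C_le x) hy hyZ (C_ne hx hxZ)

theorem comm_of_mem_C {x a b : Ω} (hx : x ∈ S) (hxZ : x ∉ Z S) (ha : a ∈ C S x)
    (hb : b ∈ C S x) : a * b = b * a := by
  by_cases haZ : a ∈ Z S
  · exact ((mem_Z.1 haZ).2 b hb.1).symm
  · rw [C_eq_of_mem h4 hx hxZ ha haZ] at hb
    exact (mem_C.1 hb).2

theorem sq_mem_Z {x a : Ω} (hx : x ∈ S) (hxZ : x ∉ Z S) (ha : a ∈ C S x) : a * a ∈ Z S := by
  rw [mul_mem_iff_of_relIndex_two (relIndex_C h4 hx hxZ).1 ha ha]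

/-- An element of `C_S(x)` commuting with some `s` outside `C_S(x)` is central. -/
theorem mem_Z_of_comm {x a s : Ω} (hx : x ∈ S) (hxZ : x ∉ Z S) (ha : a ∈ C S x) (hs : s ∈ S)
    (hsx : s ∉ C S x) (h : s * a = a * s) : a ∈ Z S := by
  by_contra haZ
  rw [C_eq_of_mem h4 hx hxZ ha haZ] at hsx
  exact hsx (mem_C.2 ⟨hs, h.symm⟩)

end Quarter

/-! ### The bad subgroups -/

/-- Conjugation by `s ∈ S` on a subgroup it normalizes. -/
theorem exists_conjAut_mem {F : FusionSystem S} {Q : Subgroup Ω} (hQ : Q ≤ S) {s : Ω}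
    (hs : s ∈ S) (hn : s ∈ Subgroup.normalizer (Q : Set Ω)) :
    ∃ τ ∈ F.autGroup Q, τ ∈ autInducedBy S Q ∧ ∀ x : Q, ((τ x : Q) : Ω) = s * x * s⁻¹ := by
  obtain ⟨τ, hτ⟩ := exists_conjAut hn
  have h1 : τ ∈ autInducedBy S Q := (mem_autInducedBy_iff S Q τ).2 ⟨s, hs, hτ⟩
  exact ⟨τ, autInducedBy_le_autGroup F hQ h1, h1, hτ⟩

/-- For `|S : Q| = 2` and `Q = C_S(Q)` the group `Aut_S(Q)` has order two. -/
theorem card_autInducedBy_of_relIndex_two {Q : Subgroup Ω} (hQ : Q ≤ S) (h2 : Q.relIndex S = 2)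
    (hab : ∀ a ∈ Q, ∀ b ∈ Q, a * b = b * a) {s : Ω} (hs : s ∈ S) {x : Ω} (hx : x ∈ Q)
    (hsx : s * x ≠ x * s) : Nat.card (autInducedBy S Q) = 2 := by
  have hnorm := le_normalizer_of_relIndex_two hQ h2
  obtain ⟨τ, hτ⟩ := exists_conjAut (P := Q) (hnorm hs)
  have hτm : τ ∈ autInducedBy S Q := (mem_autInducedBy_iff S Q τ).2 ⟨s, hs, hτ⟩
  have hsQ : s ∉ Q := fun h => hsx (hab s h x hx)
  have hτ1 : τ ≠ 1 := by
    intro h
    have h3 := hτ ⟨x, hx⟩
    rw [h] at h3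
    apply hsx
    have h3' : x = s * x * s⁻¹ := h3
    calc s * x = s * x * s⁻¹ * s := by group
      _ = x * s := by rw [← h3']
  have key : ((autInducedBy S Q : Subgroup (MulAut Q)) : Set (MulAut Q)) = {1, τ} := by
    ext σ
    constructor
    · intro hσ
      obtain ⟨g, hg, hσg⟩ := (mem_autInducedBy_iff S Q σ).1 hσ
      by_cases hgQ : g ∈ Q
      · left
        apply MulEquiv.ext
        intro y
        apply Subtype.ext
        rw [hσg, hab g hgQ y y.2, mul_inv_cancel_right]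
        rfl
      · right
        apply MulEquiv.ext
        intro y
        apply Subtype.ext
        rw [hσg, hτ]
        have h3 := inv_mul_mem_of_relIndex_two h2 hs hg hsQ hgQ
        have h5 := hab _ h3 y y.2
        calc g * (y : Ω) * g⁻¹ = s * ((s⁻¹ * g) * y) * g⁻¹ := by group
          _ = s * (y * (s⁻¹ * g)) * g⁻¹ := by rw [h5]
          _ = s * y * s⁻¹ := by group
    · rintro (rfl | rfl)
      · exact Subgroup.one_mem _
      · exact hτm
  have : Nat.card (autInducedBy S Q) =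
      Set.ncard ((autInducedBy S Q : Subgroup (MulAut Q)) : Set (MulAut Q)) := rfl
  rw [this, key, Set.ncard_pair hτ1.symm]

/-- The key lemma: a map of the system not preserving `Z(S)` on an abelian subgroup `Q` of index `2`. -/
theorem exists_involution_of_not_mem [Finite S] (hS : IsPGroup 2 S)
    {F : FusionSystem S} (hF : F.IsSaturated 2) (h4 : (Z S).relIndex S = 4) {z : Ω} (hz : z ∈ Z S)
    (hz2 : z * z = 1) (hcom : ∀ a ∈ S, ∀ b ∈ S, a * b = b * a ∨ a * b = b * a * z)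
    {x : Ω} (hx : x ∈ S) (hxZ : x ∉ Z S) {α : MulAut (C S x)} (hα : α ∈ F.autGroup (C S x))
    {y : C S x} (hy : ¬ ((y : Ω) ∈ Z S ↔ ((α y : C S x) : Ω) ∈ Z S)) :
    (∃ i ∈ C S x, i ∉ Z S ∧ i * i = 1) ∧ ∀ w ∈ Z S, w * w ≠ z := by
  have hp : Fact (Nat.Prime 2) := ⟨Nat.prime_two⟩
  obtain ⟨hr1, hr2⟩ := relIndex_C h4 hx hxZ
  have hCS : C S x ≤ S := C_le x
  have hfin : Finite (C S x) := finite_of_le hCS
  have hfinM : Finite (MulAut (C S x)) := inferInstance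
  have hnorm := le_normalizer_of_relIndex_two hCS hr2
  have hab : ∀ a ∈ C S x, ∀ b ∈ C S x, a * b = b * a := fun a ha b hb =>
    comm_of_mem_C h4 hx hxZ ha hb
  obtain ⟨s, hs, hsC⟩ : ∃ s ∈ S, s ∉ C S x := by
    by_contra hcon
    push Not at hcon
    exact C_ne hx hxZ (le_antisymm hCS hcon)
  have hsx : s * x ≠ x * s := fun h => hsC (mem_C.2 ⟨hs, h.symm⟩)
  have hcard := card_autInducedBy_of_relIndex_two hCS hr2 hab hs (self_mem_C hx) hsx
  obtain ⟨-, R, hR⟩ := isFullyAutomized_of_isFullyNormalized hS hF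
    (isFullyNormalized_of_le_normalizer F hCS hnorm)
  have hRcard : Nat.card R = 2 := by
    have h1 : Nat.card R = Nat.card ((autInducedBy S (C S x)).subgroupOf (F.autGroup (C S x))) := by
      rw [← hR]
    rw [h1, Nat.card_congr (Subgroup.subgroupOfEquivOfLe
      (autInducedBy_le_autGroup F hCS)).toEquiv, hcard]
  obtain ⟨τ, hτF, hτS, hτ⟩ := exists_conjAut_mem (F := F) hCS hs (hnorm hs)
  have hτZ : ∀ a : C S x, (a : Ω) ∈ Z S ↔ τ a = a := by
    intro a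
    constructor
    · intro ha
      apply Subtype.ext
      rw [hτ, (mem_Z.1 ha).2 s hs, mul_inv_cancel_right]
    · intro ha
      have h1 := hτ a
      rw [ha] at h1
      refine mem_Z_of_comm h4 hx hxZ a.2 hs hsC ?_
      calc s * (a : Ω) = s * a * s⁻¹ * s := by group
        _ = a * s := by rw [← h1]
  have hτ2 : τ * τ = 1 := by
    apply MulEquiv.ext
    intro a
    apply Subtype.ext
    rw [MulAut.mul_apply, hτ, hτ]
    have h1 : s * s ∈ C S x := by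
      rw [mul_mem_iff_of_relIndex_two hr2 hs hs]
    have h2 := hab _ h1 a a.2
    calc s * (s * (a : Ω) * s⁻¹) * s⁻¹ = (s * s * a) * (s * s)⁻¹ := by group
      _ = a := by rw [h2]; group
  have hτz : ∀ a : C S x, ((τ a : C S x) : Ω) = a ∨ ((τ a : C S x) : Ω) = a * z := by
    intro a
    rw [hτ]
    rcases hcom s hs a (hCS a.2) with h1 | h1
    · left
      rw [h1, mul_inv_cancel_right]
    · right
      rw [h1, mul_assoc (a : Ω) s z, (mem_Z.1 hz).2 s hs, mul_assoc, mul_assoc,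
        mul_inv_cancel, mul_one]
  let zC : C S x := ⟨z, Z_le_C hx hz⟩
  have hτz' : ∀ a : C S x, τ a = a ∨ τ a = a * zC := by
    intro a
    rcases hτz a with h1 | h1
    · exact Or.inl (Subtype.ext h1)
    · exact Or.inr (Subtype.ext h1)
  obtain ⟨τ₁, hτ₁⟩ : ∃ t : MulAut (C S x), t = α * τ * α⁻¹ := ⟨_, rfl⟩
  have hτ₁a : ∀ a : C S x, τ₁ a = α (τ (α⁻¹ a)) := fun a => by rw [hτ₁]; rfl
  have hne : τ₁ ≠ τ := by
    intro he
    apply hy
    have h1 : ∀ a : C S x, (a : Ω) ∈ Z S ↔ ((α⁻¹ a : C S x) : Ω) ∈ Z S := by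
      intro a
      have h0 : τ a = α (τ (α⁻¹ a)) := by rw [← hτ₁a, he]
      rw [hτZ, hτZ, h0]
      constructor
      · intro h2
        calc τ (α⁻¹ a) = α⁻¹ (α (τ (α⁻¹ a))) := by simp
          _ = α⁻¹ a := by rw [h2]
      · intro h3
        rw [h3]
        simp
    have h2 := h1 (α y)
    simp only [MulAut.inv_apply_self] at h2
    exact h2.symm
  have hnc : ¬ (τ * τ₁ = τ₁ * τ) := by
    intro hc
    have hσ2 : (⟨τ, hτF⟩ : F.autGroup (C S x)) ^ 2 = 1 := by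
      apply Subtype.ext
      rw [pow_two]
      exact hτ2
    have hmem₁ : τ₁ ∈ F.autGroup (C S x) := by
      rw [hτ₁]
      exact Subgroup.mul_mem _ (Subgroup.mul_mem _ hα hτF) (Subgroup.inv_mem _ hα)
    have hσ2' : (⟨τ₁, hmem₁⟩ : F.autGroup (C S x)) ^ 2 = 1 := by
      apply Subtype.ext
      rw [pow_two]
      change τ₁ * τ₁ = 1
      rw [hτ₁]
      calc α * τ * α⁻¹ * (α * τ * α⁻¹) = α * (τ * τ) * α⁻¹ := by group
        _ = 1 := by rw [hτ2]; group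
    have hτ1 : τ ≠ 1 := by
      intro h
      apply hxZ
      rw [show x = ((⟨x, self_mem_C hx⟩ : C S x) : Ω) from rfl, hτZ, h]
      rfl
    have h5 := eq_of_commuting_involutions R hRcard hσ2 hσ2' (Subtype.ext hc)
      (fun h => hτ1 (congrArg Subtype.val h))
      (fun h => hτ1 (by
        have h6 : τ₁ = 1 := congrArg Subtype.val h
        have h7 : τ = α⁻¹ * τ₁ * α := by rw [hτ₁]; group
        rw [h7, h6]
        group))
    exact hne (congrArg Subtype.val h5).symm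
  -- one of `α z`, `α⁻¹ z` is not central
  have hor : ¬ ((α zC : C S x) : Ω) ∈ Z S ∨ ¬ ((α⁻¹ zC : C S x) : Ω) ∈ Z S := by
    by_contra hcon
    push Not at hcon
    obtain ⟨hc1, hc2⟩ := hcon
    apply hnc
    have hτ₁z : ∀ a : C S x, τ₁ a = a ∨ τ₁ a = a * α zC := by
      intro a
      rw [hτ₁a]
      rcases hτz' (α⁻¹ a) with h1 | h1
      · left
        rw [h1]
        simp
      · right
        rw [h1, map_mul]
        simp
    have hf1 : τ (α zC) = α zC := (hτZ _).1 hc1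
    have hf2 : τ₁ zC = zC := by
      rw [hτ₁a, (hτZ _).1 hc2]
      simp
    have hcomm : ∀ a b c : C S x, a * b * c = a * c * b := by
      intro a b c
      apply Subtype.ext
      change (a : Ω) * b * c = a * c * b
      rw [mul_assoc, mul_assoc, hab b b.2 c c.2]
    apply MulEquiv.ext
    intro a
    rw [MulAut.mul_apply, MulAut.mul_apply]
    rcases hτz' a with h1 | h1 <;> rcases hτ₁z a with h2 | h2
    · rw [h1, h2, h1]
    · rw [h1, h2, map_mul, h1, hf1]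
    · rw [h1, h2, map_mul, h2, hf2, h1]
    · rw [h1, h2, map_mul, map_mul, h1, h2, hf1, hf2]
      exact hcomm _ _ _
  -- conclusion
  have main : ∀ β : MulAut (C S x), ¬ ((β zC : C S x) : Ω) ∈ Z S →
      (∃ i ∈ C S x, i ∉ Z S ∧ i * i = 1) ∧ ∀ w ∈ Z S, w * w ≠ z := by
    intro β hβ
    refine ⟨⟨(β zC : C S x), (β zC).2, hβ, ?_⟩, ?_⟩
    · have h1 : zC * zC = 1 := Subtype.ext hz2
      have h2 : β zC * β zC = 1 := by rw [← map_mul, h1, map_one]
      exact congrArg Subtype.val h2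
    · intro w hw hwz
      apply hβ
      have h1 : (⟨w, Z_le_C hx hw⟩ : C S x) * ⟨w, Z_le_C hx hw⟩ = zC := Subtype.ext hwz
      rw [← h1, map_mul]
      exact sq_mem_Z h4 hx hxZ (β _).2
  rcases hor with h | h
  · exact main α h
  · exact main α⁻¹ h

/-- `x` is good: the maps of the system on `C_S(x)` preserve `Z(S)`. -/
def Good (F : FusionSystem S) (x : Ω) : Prop :=
  x ∈ S ∧ x ∉ Z S ∧ ∀ α ∈ F.autGroup (C S x), ∀ y : C S x,
    (y : Ω) ∈ Z S ↔ ((α y : C S x) : Ω) ∈ Z S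

theorem exists_good [Finite S] (hS : IsPGroup 2 S)
    {F : FusionSystem S} (hF : F.IsSaturated 2) (h4 : (Z S).relIndex S = 4) {z : Ω} (hz : z ∈ Z S)
    (hz2 : z * z = 1) (hcom : ∀ a ∈ S, ∀ b ∈ S, a * b = b * a ∨ a * b = b * a * z) :
    ∃ x, Good F x := by
  by_contra hcon
  have hbad : ∀ x ∈ S, x ∉ Z S → (∃ i ∈ C S x, i ∉ Z S ∧ i * i = 1) ∧ ∀ w ∈ Z S, w * w ≠ z := by
    intro x hx hxZ
    by_contra hno
    apply hcon
    refine ⟨x, hx, hxZ, fun α hα y => ?_⟩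
    by_contra hy
    exact hno (exists_involution_of_not_mem hS hF h4 hz hz2 hcom hx hxZ hα hy)
  obtain ⟨x₁, hx₁, hx₁Z⟩ : ∃ x ∈ S, x ∉ Z S := by
    by_contra hno
    push Not at hno
    have h1 : (Z S).relIndex S = 1 := Subgroup.relIndex_eq_one.2 hno
    omega
  obtain ⟨⟨i₁, hi₁, hi₁Z, hi₁2⟩, hsq⟩ := hbad x₁ hx₁ hx₁Z
  have hi₁S : i₁ ∈ S := hi₁.1
  obtain ⟨x₂, hx₂, hx₂C⟩ : ∃ x ∈ S, x ∉ C S i₁ := by
    by_contra hno
    push Not at hno
    exact C_ne hi₁S hi₁Z (le_antisymm (C_le _) hno)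
  have hx₂Z : x₂ ∉ Z S := fun h => hx₂C (Z_le_C hi₁S h)
  obtain ⟨⟨i₂, hi₂, hi₂Z, hi₂2⟩, -⟩ := hbad x₂ hx₂ hx₂Z
  have hi₂S : i₂ ∈ S := hi₂.1
  have hi₂C : i₂ ∉ C S i₁ := by
    intro h
    have h1 := C_eq_of_mem h4 hi₁S hi₁Z h hi₂Z
    have h2 := C_eq_of_mem h4 hx₂ hx₂Z hi₂ hi₂Z
    exact hx₂C (by rw [h1, ← h2]; exact self_mem_C hx₂)
  have hx₃ : i₁ * i₂ ∈ S := S.mul_mem hi₁S hi₂S
  have hx₃Z : i₁ * i₂ ∉ Z S := by
    intro h
    apply hi₂C
    have h1 := (mem_Z.1 h).2 i₁ hi₁S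
    refine mem_C.2 ⟨hi₂S, ?_⟩
    calc i₁ * i₂ = i₁⁻¹ * (i₁ * (i₁ * i₂)) := by group
      _ = i₁⁻¹ * (i₁ * i₂ * i₁) := by rw [h1]
      _ = i₂ * i₁ := by group
  obtain ⟨⟨i₃, hi₃, hi₃Z, hi₃2⟩, -⟩ := hbad _ hx₃ hx₃Z
  have hw := inv_mul_mem_of_relIndex_two (relIndex_C h4 hx₃ hx₃Z).1 (self_mem_C hx₃) hi₃ hx₃Z hi₃Z
  set w := (i₁ * i₂)⁻¹ * i₃ with hwdef
  have hi₃e : i₃ = i₁ * i₂ * w := by rw [hwdef]; group
  have hwc : ∀ s ∈ S, s * w = w * s := (mem_Z.1 hw).2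
  have h12 : i₁ * i₂ * (i₁ * i₂) = z := by
    rcases hcom i₁ hi₁S i₂ hi₂S with h | h
    · exact absurd (mem_C.2 ⟨hi₂S, h⟩) hi₂C
    · calc i₁ * i₂ * (i₁ * i₂) = i₁ * i₂ * (i₂ * i₁ * z) := by rw [← h]
        _ = i₁ * (i₂ * i₂) * i₁ * z := by group
        _ = z := by rw [hi₂2, mul_one, hi₁2, one_mul]
  have h3 : z * (w * w) = 1 := by
    calc z * (w * w) = i₁ * i₂ * (i₁ * i₂ * w) * w := by rw [← h12]; group
      _ = i₁ * i₂ * (w * (i₁ * i₂)) * w := by rw [hwc _ hx₃]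
      _ = (i₁ * i₂ * w) * (i₁ * i₂ * w) := by group
      _ = 1 := by rw [← hi₃e, hi₃2]
  apply hsq w hw
  calc w * w = z * z * (w * w) := by rw [hz2, one_mul]
    _ = z * (z * (w * w)) := by group
    _ = z := by rw [h3, mul_one]

theorem aut_preserves_Z {α : MulAut S} (y : S) :
    (y : Ω) ∈ Z S ↔ ((α y : S) : Ω) ∈ Z S := by
  have key : ∀ (β : MulAut S) (y : S), (y : Ω) ∈ Z S → ((β y : S) : Ω) ∈ Z S := by
    intro β y hy
    refine mem_Z.2 ⟨(β y).2, fun s hs => ?_⟩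
    have h1 := (mem_Z.1 hy).2 (β⁻¹ ⟨s, hs⟩ : S) (β⁻¹ ⟨s, hs⟩ : S).2
    have h2 : (β⁻¹ ⟨s, hs⟩ : S) * y = y * (β⁻¹ ⟨s, hs⟩ : S) := Subtype.ext h1
    have h3 := congrArg β h2
    rw [map_mul, map_mul, MulAut.apply_inv_self] at h3
    exact congrArg Subtype.val h3
  refine ⟨key α y, fun h => ?_⟩
  have := key α⁻¹ _ h
  rwa [MulAut.inv_apply_self] at this

theorem good_aut [Finite S] {F : FusionSystem S} {α : MulAut S} (hα : α ∈ F.autGroup S) (x : S)
    (hx : Good F (x : Ω)) : Good F ((α x : S) : Ω) := by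
  obtain ⟨hxS, hxZ, hg⟩ := hx
  refine ⟨(α x).2, fun h => hxZ ((aut_preserves_Z (α := α) x).2 h), ?_⟩
  have hαF := (mem_autGroup_iff F le_rfl α).1 hα
  -- restriction of `α` to `C_S(x)`
  have hCS : C S (x : Ω) ≤ S := C_le _
  have hφ := restrict_mem hαF hCS
  have hmap : ∀ y : S, (y : Ω) ∈ C S (x : Ω) ↔ ((α y : S) : Ω) ∈ C S ((α x : S) : Ω) := by
    intro y
    rw [mem_C, mem_C]
    constructor
    · rintro ⟨-, h⟩
      have h2 : x * y = y * x := Subtype.ext h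
      have h3 := congrArg α h2
      rw [map_mul, map_mul] at h3
      exact ⟨(α y).2, congrArg Subtype.val h3⟩
    · rintro ⟨-, h⟩
      have h2 : α x * α y = α y * α x := Subtype.ext h
      rw [← map_mul, ← map_mul] at h2
      exact ⟨y.2, congrArg Subtype.val (α.injective h2)⟩
  have hrange : ((S.subtype.comp α.toMonoidHom).comp (Subgroup.inclusion hCS)).range =
      C S ((α x : S) : Ω) := by
    ext w
    constructor
    · rintro ⟨y, rfl⟩
      exact (hmap ⟨y, hCS y.2⟩).1 y.2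
    · intro hw
      have hwS : w ∈ S := hw.1
      have h1 : ((α (α⁻¹ ⟨w, hwS⟩) : S) : Ω) ∈ C S ((α x : S) : Ω) := by
        rw [MulAut.apply_inv_self]
        exact hw
      refine ⟨⟨(α⁻¹ ⟨w, hwS⟩ : S), (hmap _).2 h1⟩, ?_⟩
      change ((α (α⁻¹ ⟨w, hwS⟩) : S) : Ω) = w
      rw [MulAut.apply_inv_self]
  intro β hβ y
  obtain ⟨β', rfl⟩ : ∃ β' : MulAut (C S (x : Ω)),
      MulAut.congr (isoOf _ (F.injective_of_mem hφ) hrange) β' = β :=
    (MulAut.congr (isoOf _ (F.injective_of_mem hφ) hrange)).surjective β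
  rw [congr_mem_autGroup_iff hφ hrange] at hβ
  have h1 := hg β' hβ ((isoOf _ (F.injective_of_mem hφ) hrange).symm y)
  have hiso : ∀ t : C S (x : Ω), (t : Ω) ∈ Z S ↔
      ((isoOf _ (F.injective_of_mem hφ) hrange t : C S ((α x : S) : Ω)) : Ω) ∈ Z S := by
    intro t
    rw [coe_isoOf]
    exact aut_preserves_Z (α := α) ⟨t, hCS t.2⟩
  rw [hiso, MulEquiv.apply_symm_apply, hiso] at h1
  exact h1

/-- The set of good elements is closed under the maps of the system. -/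
theorem good_iff_of_isConjElt [Finite S] (hS : IsPGroup 2 S)
    {F : FusionSystem S} (hF : F.IsSaturated 2) (h4 : (Z S).relIndex S = 4) {x y : Ω}
    (hxy : F.IsConjElt x y) : Good F x ↔ Good F y := by
  have : Fact (Nat.Prime 2) := ⟨Nat.prime_two⟩
  refine mem_iff_of_isConjElt hS hF {x | Good F x} (fun Q hQn hQc α hα => ?_) hxy
  have hfin : Finite Q := finite_of_le hQc.1
  refine mem_iff_of_maps fun x hx => ?_
  by_cases hQS : Q = S
  · subst hQS
    exact good_aut hα x hx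
  · obtain ⟨hxS, hxZ, hg⟩ := hx
    have hQ := eq_C_of_between h4 (Z_le_of_isCentric hQc) hQc.1 x.2 hxZ hQS
    have h1 : ((α x : Q) : Ω) ∉ Z S := by
      have h2 : ∀ (R : Subgroup Ω) (hR : R = C S (x : Ω)) (β : MulAut R), β ∈ F.autGroup R →
          ∀ y : R, (y : Ω) ∈ Z S ↔ ((β y : R) : Ω) ∈ Z S := by
        rintro R rfl β hβ
        exact hg β hβ
      intro h
      exact hxZ ((h2 Q hQ α hα x).2 h)
    have h2 := eq_C_of_between h4 (Z_le_of_isCentric hQc) hQc.1 (α x).2 h1 hQS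
    refine ⟨hQc.1 (α x).2, h1, ?_⟩
    rw [← h2, hQ]
    exact hg

/-- **The case `|S : Z(S)| = 4`, `Z(S)` not elementary abelian.** -/
theorem exists_noncentral_of_quarter [Finite S] (hS : IsPGroup 2 S)
    {F : FusionSystem S} (hF : F.IsSaturated 2) (h4 : (Z S).relIndex S = 4) {z : Ω} (hz : z ∈ Z S)
    (hz2 : z * z = 1) (hcom : ∀ a ∈ S, ∀ b ∈ S, a * b = b * a ∨ a * b = b * a * z)
    (hy : ∃ y ∈ Z S, y * y ≠ 1) :
    ∃ u ∈ S, u * u ≠ 1 ∧ ∀ v, F.IsConjElt u v → v ∈ S ∧ v ∉ Z S := by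
  obtain ⟨x, hx⟩ := exists_good hS hF h4 hz hz2 hcom
  obtain ⟨y, hy, hy2⟩ := hy
  have hyc := (mem_Z.1 hy).2 x hx.1
  have hxy : Good F (x * y) := by
    have h1 : x * y ∉ Z S := fun h => hx.2.1 (by
      have h2 := (Z S).mul_mem h ((Z S).inv_mem hy)
      rwa [mul_inv_cancel_right] at h2)
    have h3 : x * y ∈ C S x := (C S x).mul_mem (self_mem_C hx.1) (Z_le_C hx.1 hy)
    have h2 := C_eq_of_mem h4 hx.1 hx.2.1 h3 h1
    refine ⟨S.mul_mem hx.1 (Z_le hy), h1, ?_⟩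
    rw [← h2]
    exact hx.2.2
  by_cases hx2 : x * x = 1
  · refine ⟨x * y, hxy.1, fun h => hy2 ?_, fun v hv => ?_⟩
    · calc y * y = x * x * (y * y) := by rw [hx2, one_mul]
        _ = x * (x * y) * y := by group
        _ = x * (y * x) * y := by rw [hyc]
        _ = x * y * (x * y) := by group
        _ = 1 := h
    · have := (good_iff_of_isConjElt hS hF h4 hv).1 hxy
      exact ⟨this.1, this.2.1⟩
  · refine ⟨x, hx.1, hx2, fun v hv => ?_⟩
    have := (good_iff_of_isConjElt hS hF h4 hv).1 hx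
    exact ⟨this.1, this.2.1⟩

end Cfsg.Agent.H617.FusTwo
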