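import Mathlib
import Cfsg.Agent.H617.FusTwo

/-!
# Commutators in small `2`-groups

`E S = [S, S]`.
-/

set_option autoImplicit false

namespace Cfsg.Agent.H617.FusFour

open Cfsg Cfsg.FusionSystem Cfsg.Agent.H802 Cfsg.Agent.H617.FusInv Cfsg.Agent.H617.FusTwo

variable {Ω : Type*} [Group Ω] {S : Subgroup Ω}

/-- The commutator subgroup. -/
abbrev E (S : Subgroup Ω) : Subgroup Ω := ⁅S, S⁆

theorem comm_mem {a b : Ω} (ha : a ∈ S) (hb : b ∈ S) : a * b * a⁻¹ * b⁻¹ ∈ E S :=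
  Subgroup.commutator_mem_commutator ha hb

theorem E_le : E S ≤ S := by
  rw [Subgroup.commutator_le]
  intro a ha b hb
  exact S.mul_mem (S.mul_mem (S.mul_mem ha hb) (S.inv_mem ha)) (S.inv_mem hb)

theorem conj_mem_E {s e : Ω} (hs : s ∈ S) (he : e ∈ E S) : s * e * s⁻¹ ∈ E S := by
  have h1 : s * e * s⁻¹ = (s * e * s⁻¹ * e⁻¹) * e := by group
  rw [h1]
  exact (E S).mul_mem (comm_mem hs (E_le he)) he

theorem E_le_of_comm {N : Subgroup Ω} (h : ∀ a ∈ S, ∀ b ∈ S, a * b * a⁻¹ * b⁻¹ ∈ N) : E S ≤ N :=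
  Subgroup.commutator_le.2 h

theorem E_le_of_relIndex_two {A : Subgroup Ω} (h : A.relIndex S = 2) : E S ≤ A := by
  refine E_le_of_comm fun a ha b hb => ?_
  rw [mul_mem_iff_of_relIndex_two h (S.mul_mem (S.mul_mem ha hb) (S.inv_mem ha)) (S.inv_mem hb),
    mul_mem_iff_of_relIndex_two h (S.mul_mem ha hb) (S.inv_mem ha),
    mul_mem_iff_of_relIndex_two h ha hb, inv_mem_iff, inv_mem_iff]
  tauto

theorem card_eq_mul_relIndex {H K : Subgroup Ω} (h : H ≤ K) :
    Nat.card K = Nat.card H * H.relIndex K := by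
  have h1 := (H.subgroupOf K).card_mul_index
  rw [Nat.card_congr (Subgroup.subgroupOfEquivOfLe h).toEquiv] at h1
  exact h1.symm

/-- The class of `x` in `S` has at most `|[S, S]|` elements. -/
theorem relIndex_C_le [Finite S] {x : Ω} (hx : x ∈ S) : (C S x).relIndex S ≤ Nat.card (E S) := by
  have hfin : Finite (E S) := finite_of_le E_le
  let f : S ⧸ (C S x).subgroupOf S → E S :=
    Quotient.lift (fun s : S => (⟨(s : Ω) * x * (s : Ω)⁻¹ * x⁻¹, comm_mem s.2 hx⟩ : E S))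
      (by
        intro a b hab
        have h1 : a⁻¹ * b ∈ (C S x).subgroupOf S := QuotientGroup.leftRel_apply.1 hab
        have h2 : x * ((a : Ω)⁻¹ * b) = (a : Ω)⁻¹ * b * x := (mem_C.1 h1).2
        apply Subtype.ext
        change (a : Ω) * x * (a : Ω)⁻¹ * x⁻¹ = b * x * (b : Ω)⁻¹ * x⁻¹
        have h3 : (b : Ω) * x * (b : Ω)⁻¹ = a * ((a : Ω)⁻¹ * b * x) * (b : Ω)⁻¹ := by group
        rw [h3, ← h2]
        group)
  have hinj : Function.Injective f := by
    intro a b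
    induction a using QuotientGroup.induction_on with
    | H a =>
      induction b using QuotientGroup.induction_on with
      | H b =>
        intro hab
        have h1 : (a : Ω) * x * (a : Ω)⁻¹ * x⁻¹ = b * x * (b : Ω)⁻¹ * x⁻¹ :=
          congrArg Subtype.val hab
        apply QuotientGroup.eq.2
        refine mem_C.2 ⟨(a⁻¹ * b).2, ?_⟩
        change x * ((a : Ω)⁻¹ * b) = (a : Ω)⁻¹ * b * x
        have h2 : (a : Ω) * x * (a : Ω)⁻¹ = b * x * (b : Ω)⁻¹ := mul_right_cancel h1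
        calc x * ((a : Ω)⁻¹ * b) = (a : Ω)⁻¹ * (a * x * (a : Ω)⁻¹) * b := by group
          _ = (a : Ω)⁻¹ * (b * x * (b : Ω)⁻¹) * b := by rw [h2]
          _ = (a : Ω)⁻¹ * b * x := by group
  exact Nat.card_le_card_of_injective f hinj

/-- If the class of `x` has `|[S, S]|` elements then every element of `[S, S]` is a commutator with `x`. -/
theorem exists_comm_of_relIndex [Finite S] {x : Ω} (hx : x ∈ S)
    (h : (C S x).relIndex S = Nat.card (E S)) {e : Ω} (he : e ∈ E S) :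
    ∃ s ∈ S, s * x * s⁻¹ = e * x := by
  have hfin : Finite (E S) := finite_of_le E_le
  let f : S ⧸ (C S x).subgroupOf S → E S :=
    Quotient.lift (fun s : S => (⟨(s : Ω) * x * (s : Ω)⁻¹ * x⁻¹, comm_mem s.2 hx⟩ : E S))
      (by
        intro a b hab
        have h1 : a⁻¹ * b ∈ (C S x).subgroupOf S := QuotientGroup.leftRel_apply.1 hab
        have h2 : x * ((a : Ω)⁻¹ * b) = (a : Ω)⁻¹ * b * x := (mem_C.1 h1).2
        apply Subtype.ext
        change (a : Ω) * x * (a : Ω)⁻¹ * x⁻¹ = b * x * (b : Ω)⁻¹ * x⁻¹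
        have h3 : (b : Ω) * x * (b : Ω)⁻¹ = a * ((a : Ω)⁻¹ * b * x) * (b : Ω)⁻¹ := by group
        rw [h3, ← h2]
        group)
  have hinj : Function.Injective f := by
    intro a b
    induction a using QuotientGroup.induction_on with
    | H a =>
      induction b using QuotientGroup.induction_on with
      | H b =>
        intro hab
        have h1 : (a : Ω) * x * (a : Ω)⁻¹ * x⁻¹ = b * x * (b : Ω)⁻¹ * x⁻¹ :=
          congrArg Subtype.val hab
        apply QuotientGroup.eq.2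
        refine mem_C.2 ⟨(a⁻¹ * b).2, ?_⟩
        change x * ((a : Ω)⁻¹ * b) = (a : Ω)⁻¹ * b * x
        have h2 : (a : Ω) * x * (a : Ω)⁻¹ = b * x * (b : Ω)⁻¹ := mul_right_cancel h1
        calc x * ((a : Ω)⁻¹ * b) = (a : Ω)⁻¹ * (a * x * (a : Ω)⁻¹) * b := by group
          _ = (a : Ω)⁻¹ * (b * x * (b : Ω)⁻¹) * b := by rw [h2]
          _ = (a : Ω)⁻¹ * b * x := by group
  have hbij : Function.Bijective f := (Nat.bijective_iff_injective_and_card f).2 ⟨hinj, h⟩
  obtain ⟨q, hq⟩ := hbij.2 ⟨e, he⟩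
  induction q using QuotientGroup.induction_on with
  | H s =>
    refine ⟨s, s.2, ?_⟩
    have h1 : (s : Ω) * x * (s : Ω)⁻¹ * x⁻¹ = e := congrArg Subtype.val hq
    rw [← h1]
    group

/-! ### An abelian subgroup of index two -/

section AbelianTwo

variable {A : Subgroup Ω} (hA : A ≤ S) (h2 : A.relIndex S = 2)
  (hab : ∀ a ∈ A, ∀ b ∈ A, a * b = b * a)

include hA h2 hab

/-- An element of `A` commuting with an element of `S` outside `A` is central. -/
theorem mem_Z_of_comm_out {a u : Ω} (ha : a ∈ A) (hu : u ∈ S) (huA : u ∉ A)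
    (h : u * a = a * u) : a ∈ Z S := by
  refine mem_Z.2 ⟨hA ha, fun s hs => ?_⟩
  by_cases hsA : s ∈ A
  · exact hab s hsA a ha
  · have h3 := inv_mul_mem_of_relIndex_two h2 hu hs huA hsA
    calc s * a = u * ((u⁻¹ * s) * a) := by group
      _ = u * a * (u⁻¹ * s) := by rw [hab _ h3 a ha]; group
      _ = a * s := by rw [h]; group

theorem Z_le_A (hne : Z S ≠ S) : Z S ≤ A := by
  intro y hy
  by_contra hyA
  apply hne
  refine le_antisymm Z_le fun s hs => ?_
  by_cases hsA : s ∈ A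
  · exact mem_Z_of_comm_out hA h2 hab hsA hy.1 hyA ((mem_Z.1 hy).2 s (hA hsA)).symm
  · have h3 := inv_mul_mem_of_relIndex_two h2 hy.1 hs hyA hsA
    have h4 := mem_Z_of_comm_out hA h2 hab h3 hy.1 hyA ((mem_Z.1 hy).2 _ (hA h3)).symm
    have h5 : s = y * (y⁻¹ * s) := by group
    rw [h5]
    exact (Z S).mul_mem hy h4

theorem sq_mem_Z_of_out {u : Ω} (hu : u ∈ S) (huA : u ∉ A) : u * u ∈ Z S := by
  have h3 : u * u ∈ A := by rw [mul_mem_iff_of_relIndex_two h2 hu hu]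
  exact mem_Z_of_comm_out hA h2 hab h3 hu huA (by group)

/-- `|C_S(u)| = 2 |Z(S)|` for `u` outside `A`. -/
theorem card_C_out [Finite S] (hne : Z S ≠ S) {u : Ω} (hu : u ∈ S) (huA : u ∉ A) :
    (Z S).relIndex (C S u) = 2 := by
  have hZA := Z_le_A hA h2 hab hne
  rw [Subgroup.relIndex_eq_two_iff_exists_notMem_and]
  refine ⟨u, self_mem_C hu, fun h => huA (hZA h), fun b hb => ?_⟩
  by_cases hbA : b ∈ A
  · right
    exact mem_Z_of_comm_out hA h2 hab hbA hu huA (mem_C.1 hb).2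
  · left
    have h3 : b * u ∈ A := by
      rw [mul_mem_iff_of_relIndex_two h2 (C_le u hb) hu]
      tauto
    refine mem_Z_of_comm_out hA h2 hab h3 hu huA ?_
    have h4 := (mem_C.1 hb).2
    calc u * (b * u) = u * b * u := by group
      _ = b * u * u := by rw [h4]

theorem card_C_in [Finite S] {x : Ω} (hx : x ∈ A) (hxZ : x ∉ Z S) : C S x = A := by
  apply le_antisymm
  · intro y hy
    by_contra hyA
    exact hxZ (mem_Z_of_comm_out hA h2 hab hx hy.1 hyA ((mem_C.1 hy).2).symm)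
  · intro y hy
    exact mem_C.2 ⟨hA hy, hab x hx y hy⟩

/-- The commutators with a fixed element outside `A`. -/
theorem exists_comm_out {s : Ω} (hs : s ∈ S) (hsA : s ∉ A) {e : Ω} (he : e ∈ E S) :
    ∃ a ∈ A, e = s * a * s⁻¹ * a⁻¹ := by
  have hnorm := le_normalizer_of_relIndex_two hA h2
  have hconj : ∀ t ∈ S, ∀ a ∈ A, t * a * t⁻¹ ∈ A := fun t ht a ha =>
    (Subgroup.mem_normalizer_iff.1 (hnorm ht) a).1 ha
  have hss : ∀ a ∈ A, s * (s * a * s⁻¹) * s⁻¹ = a := by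
    intro a ha
    have h3 : s * s ∈ A := by rw [mul_mem_iff_of_relIndex_two h2 hs hs]
    calc s * (s * a * s⁻¹) * s⁻¹ = (s * s) * a * (s * s)⁻¹ := by group
      _ = a := by rw [hab _ h3 a ha]; group
  let T : Subgroup Ω :=
    { carrier := {e | ∃ a ∈ A, e = s * a * s⁻¹ * a⁻¹}
      mul_mem' := by
        rintro _ _ ⟨a, ha, rfl⟩ ⟨b, hb, rfl⟩
        refine ⟨a * b, A.mul_mem ha hb, ?_⟩
        have h3 := hab _ (A.inv_mem ha) _ (hconj s hs b hb)
        have h4 := hab _ (A.inv_mem ha) _ (A.inv_mem hb)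
        calc s * a * s⁻¹ * a⁻¹ * (s * b * s⁻¹ * b⁻¹)
            = s * a * s⁻¹ * (a⁻¹ * (s * b * s⁻¹)) * b⁻¹ := by group
          _ = s * a * s⁻¹ * ((s * b * s⁻¹) * a⁻¹) * b⁻¹ := by rw [h3]
          _ = s * (a * b) * s⁻¹ * (a⁻¹ * b⁻¹) := by group
          _ = s * (a * b) * s⁻¹ * (a * b)⁻¹ := by rw [h4]; group
      one_mem' := ⟨1, A.one_mem, by group⟩
      inv_mem' := by
        rintro _ ⟨a, ha, rfl⟩
        refine ⟨a⁻¹, A.inv_mem ha, ?_⟩
        have h3 := hab _ ha _ (hconj s hs _ (A.inv_mem ha))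
        calc (s * a * s⁻¹ * a⁻¹)⁻¹ = a * (s * a⁻¹ * s⁻¹) := by group
          _ = s * a⁻¹ * s⁻¹ * a⁻¹⁻¹ := by rw [h3]; group }
  have key : E S ≤ T := by
    have hA1 : ∀ a ∈ A, ∀ b ∈ A, a * b * a⁻¹ * b⁻¹ ∈ T := by
      intro a ha b hb
      rw [hab a ha b hb]
      have : b * a * a⁻¹ * b⁻¹ = 1 := by group
      rw [this]
      exact T.one_mem
    have hA2 : ∀ a ∈ A, ∀ b ∈ S, b ∉ A → b * a * b⁻¹ * a⁻¹ ∈ T := by
      intro a ha b hb hbA
      have h3 := inv_mul_mem_of_relIndex_two h2 hs hb hsA hbA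
      refine ⟨a, ha, ?_⟩
      have h4 := hab _ h3 a ha
      calc b * a * b⁻¹ * a⁻¹ = s * ((s⁻¹ * b) * a) * b⁻¹ * a⁻¹ := by group
        _ = s * (a * (s⁻¹ * b)) * b⁻¹ * a⁻¹ := by rw [h4]
        _ = s * a * s⁻¹ * a⁻¹ := by group
    refine E_le_of_comm fun a ha b hb => ?_
    by_cases haA : a ∈ A
    · by_cases hbA : b ∈ A
      · exact hA1 a haA b hbA
      · have h3 := T.inv_mem (hA2 a haA b hb hbA)
        have h4 : (b * a * b⁻¹ * a⁻¹)⁻¹ = a * b * a⁻¹ * b⁻¹ := by group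
        rwa [h4] at h3
    · by_cases hbA : b ∈ A
      · exact hA2 b hbA a ha haA
      · -- both outside
        have h3 : a * b ∈ A := by
          rw [mul_mem_iff_of_relIndex_two h2 ha hb]
          tauto
        have h4 := T.inv_mem (hA2 (a * b) h3 b hb hbA)
        have h5 : (b * (a * b) * b⁻¹ * (a * b)⁻¹)⁻¹ = a * b * a⁻¹ * b⁻¹ := by group
        rwa [h5] at h4
  exact key he

/-- An element outside `A` inverts `[S, S]`. -/
theorem conj_E_out {s : Ω} (hs : s ∈ S) (hsA : s ∉ A) {e : Ω} (he : e ∈ E S) :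
    s * e * s⁻¹ = e⁻¹ := by
  obtain ⟨a, ha, rfl⟩ := exists_comm_out hA h2 hab hs hsA he
  have hnorm := le_normalizer_of_relIndex_two hA h2
  have hconj : ∀ t ∈ S, ∀ a ∈ A, t * a * t⁻¹ ∈ A := fun t ht a ha =>
    (Subgroup.mem_normalizer_iff.1 (hnorm ht) a).1 ha
  have h3 : s * s ∈ A := by rw [mul_mem_iff_of_relIndex_two h2 hs hs]
  have h4 := hab _ h3 a ha
  have h5 : s * (s * a * s⁻¹ * a⁻¹) * s⁻¹ = (s * s * a) * (s * s)⁻¹ * (s * a⁻¹ * s⁻¹) := by group
  rw [h5, h4]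
  group

theorem relIndex_Z_A_le [Finite S] {s : Ω} (hs : s ∈ S) (hsA : s ∉ A) (hne : Z S ≠ S) :
    (Z S).relIndex A = Nat.card (E S) := by
  have hfin : Finite (E S) := finite_of_le E_le
  have hZA := Z_le_A hA h2 hab hne
  have hconj : ∀ t ∈ S, ∀ a ∈ A, t * a * t⁻¹ ∈ A := fun t ht a ha =>
    (Subgroup.mem_normalizer_iff.1 (le_normalizer_of_relIndex_two hA h2 ht) a).1 ha
  let f : A ⧸ (Z S).subgroupOf A → E S :=
    Quotient.lift (fun a : A => (⟨s * (a : Ω) * s⁻¹ * (a : Ω)⁻¹, comm_mem hs (hA a.2)⟩ : E S))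
      (by
        intro a b h
        have h1 : a⁻¹ * b ∈ (Z S).subgroupOf A := QuotientGroup.leftRel_apply.1 h
        have h3 : s * ((a : Ω)⁻¹ * b) = (a : Ω)⁻¹ * b * s := (mem_Z.1 h1).2 s hs
        apply Subtype.ext
        change s * (a : Ω) * s⁻¹ * (a : Ω)⁻¹ = s * b * s⁻¹ * (b : Ω)⁻¹
        have h4 := hab _ (hconj s hs a a.2) _ (A.inv_mem a.2)
        calc s * (a : Ω) * s⁻¹ * (a : Ω)⁻¹
            = s * (a : Ω) * s⁻¹ * ((a : Ω)⁻¹ * b * s) * s⁻¹ * (b : Ω)⁻¹ := by group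
          _ = s * (a : Ω) * s⁻¹ * (s * ((a : Ω)⁻¹ * b)) * s⁻¹ * (b : Ω)⁻¹ := by rw [h3]
          _ = s * b * s⁻¹ * (b : Ω)⁻¹ := by group)
  have hbij : Function.Bijective f := by
    constructor
    · intro a b
      induction a using QuotientGroup.induction_on with
      | H a =>
        induction b using QuotientGroup.induction_on with
        | H b =>
          intro h
          have h1 : s * (a : Ω) * s⁻¹ * (a : Ω)⁻¹ = s * b * s⁻¹ * (b : Ω)⁻¹ :=
            congrArg Subtype.val h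
          apply QuotientGroup.eq.2
          refine mem_Z_of_comm_out hA h2 hab (a⁻¹ * b).2 hs hsA ?_
          change s * ((a : Ω)⁻¹ * b) = (a : Ω)⁻¹ * b * s
          have h3 := hab _ (hconj s hs _ (A.inv_mem a.2)) _ b.2
          calc s * ((a : Ω)⁻¹ * b) = (s * (a : Ω)⁻¹ * s⁻¹) * (s * b * s⁻¹ * (b : Ω)⁻¹) * b * s := by
                group
            _ = (s * (a : Ω)⁻¹ * s⁻¹) * (s * (a : Ω) * s⁻¹ * (a : Ω)⁻¹) * b * s := by rw [h1]
            _ = (a : Ω)⁻¹ * b * s := by group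
    · rintro ⟨e, he⟩
      obtain ⟨a, ha, rfl⟩ := exists_comm_out hA h2 hab hs hsA he
      exact ⟨QuotientGroup.mk (⟨a, ha⟩ : A), rfl⟩
  exact Nat.card_congr (Equiv.ofBijective f hbij)

end AbelianTwo

end Cfsg.Agent.H617.FusFour
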