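import Mathlib
import Cfsg.Agent.H617.FusFour

/-!
# Order `32`, `[S, S]` cyclic of order `4`, `|Z(S)| = 2`
-/

set_option autoImplicit false

namespace Cfsg.Agent.H617.FusFour

open Cfsg Cfsg.FusionSystem Cfsg.Agent.H802 Cfsg.Agent.H617.FusInv Cfsg.Agent.H617.FusTwo

variable {Ω : Type*} [Group Ω] {S : Subgroup Ω}

theorem comm_of_relIndex_two {N A : Subgroup Ω} (h : N.relIndex A = 2)
    (hc : ∀ n ∈ N, ∀ a ∈ A, n * a = a * n) : ∀ a ∈ A, ∀ b ∈ A, a * b = b * a := by
  intro a ha b hb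
  by_cases haN : a ∈ N
  · exact hc a haN b hb
  · by_cases hbN : b ∈ N
    · exact (hc b hbN a ha).symm
    · have h3 := hc _ (inv_mul_mem_of_relIndex_two h ha hb haN hbN) a ha
      calc a * b = a * (a * (a⁻¹ * b)) := by group
        _ = a * (a⁻¹ * b * a) := by rw [h3]
        _ = b * a := by group

/-- `M / N` of order four with an element whose square is not in `N`. -/
theorem le_of_relIndex_four {N M : Subgroup Ω} (hN : N ≤ M) (h : N.relIndex M = 4) {a : Ω}
    (ha : a ∈ M) (haa : a * a ∉ N) : M ≤ Subgroup.zpowers a ⊔ N := by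
  have hNK : N ≤ Subgroup.zpowers a ⊔ N := le_sup_right
  have haK : a ∈ Subgroup.zpowers a ⊔ N := Subgroup.mem_sup_left (Subgroup.mem_zpowers a)
  have hKM : Subgroup.zpowers a ⊔ N ≤ M := sup_le (Subgroup.zpowers_le.2 ha) hN
  have h1 := Subgroup.relIndex_mul_relIndex N _ M hNK hKM
  rw [h] at h1
  have h2 : N.relIndex (Subgroup.zpowers a ⊔ N) ≠ 1 := fun h' =>
    haa (Subgroup.relIndex_eq_one.1 h' ((Subgroup.zpowers a ⊔ N).mul_mem haK haK))
  have h3 : N.relIndex (Subgroup.zpowers a ⊔ N) ≠ 2 := fun h' =>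
    haa ((mul_mem_iff_of_relIndex_two h' haK haK).2 Iff.rfl)
  have h4 : N.relIndex (Subgroup.zpowers a ⊔ N) ∣ 4 := ⟨_, h1.symm⟩
  have h5 : N.relIndex (Subgroup.zpowers a ⊔ N) ≤ 4 := Nat.le_of_dvd (by norm_num) h4
  have h6 : (Subgroup.zpowers a ⊔ N).relIndex M = 1 := by
    generalize N.relIndex (Subgroup.zpowers a ⊔ N) = m at *
    generalize (Subgroup.zpowers a ⊔ N).relIndex M = n at *
    interval_cases m <;> omega
  exact Subgroup.relIndex_eq_one.1 h6

/-- A cyclic `[S, S]` of order four. -/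
theorem E_cyclic (hE : Nat.card (E S) = 4) {w : Ω} (hw : w ∈ E S) (hw2 : w * w ≠ 1) :
    (∀ e ∈ E S, e = 1 ∨ e = w ∨ e = w * w ∨ e = w⁻¹) ∧ w * w * (w * w) = 1 ∧
      E S = Subgroup.zpowers w := by
  have hfin : Finite (E S) := Nat.finite_of_card_ne_zero (by omega)
  have h1 : orderOf w ∣ 4 := by
    rw [← hE]
    exact Subgroup.orderOf_dvd_natCard _ hw
  have h2 : orderOf w = 4 := by
    have h3 : orderOf w ≠ 1 := fun h => hw2 (by rw [orderOf_eq_one_iff.1 h, one_mul])
    have h4 : orderOf w ≠ 2 := fun h => hw2 (by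
      have := pow_orderOf_eq_one w
      rwa [h, pow_two] at this)
    have h5 : orderOf w ≤ 4 := Nat.le_of_dvd (by norm_num) h1
    have h6 : orderOf w ≠ 3 := fun h => by rw [h] at h1; revert h1; decide
    have h7 : orderOf w ≠ 0 := fun h => by rw [h] at h1; revert h1; decide
    omega
  have h3 : Subgroup.zpowers w = E S := by
    refine Subgroup.eq_of_le_of_card_ge (Subgroup.zpowers_le.2 hw) ?_
    rw [hE, Nat.card_zpowers, h2]
  have h4 : w * w * (w * w) = 1 := by
    have := pow_orderOf_eq_one w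
    rw [h2] at this
    rw [← this]
    simp [pow_succ, mul_assoc]
  refine ⟨fun e he => ?_, h4, h3.symm⟩
  rw [← h3] at he
  obtain ⟨k, rfl⟩ := he
  change w ^ k = 1 ∨ w ^ k = w ∨ w ^ k = w * w ∨ w ^ k = w⁻¹
  rw [← zpow_mod_orderOf w k, h2]
  have h5 : 0 ≤ k % (4 : ℕ) := Int.emod_nonneg _ (by norm_num)
  have h6 : k % (4 : ℕ) < 4 := Int.emod_lt_of_pos _ (by norm_num)
  generalize k % ((4 : ℕ) : ℤ) = m at *
  interval_cases m
  · left; simp
  · right; left; simp
  · right; right; left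
    rw [show (2 : ℤ) = 1 + 1 by norm_num, zpow_add, zpow_one]
  · right; right; right
    have h7 : w ^ (3 : ℤ) = w * w * (w * w) * w⁻¹ := by
      rw [show (3 : ℤ) = ((3 : ℕ) : ℤ) from rfl, zpow_natCast]
      simp [pow_succ, mul_assoc]
    rw [h7, h4, one_mul]

/-- An element commuting with `M` and with `y` outside `M`, `|S : M| = 2`, is central. -/
theorem mem_Z_of_index_two {M : Subgroup Ω} (h2 : M.relIndex S = 2) {y c : Ω}
    (hy : y ∈ S) (hyM : y ∉ M) (hc : c ∈ S) (hcM : ∀ m ∈ M, m * c = c * m)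
    (hcy : y * c = c * y) : c ∈ Z S := by
  refine mem_Z.2 ⟨hc, fun s hs => ?_⟩
  by_cases hsM : s ∈ M
  · exact hcM s hsM
  · have h3 := hcM _ (inv_mul_mem_of_relIndex_two h2 hy hs hyM hsM)
    calc s * c = y * (y⁻¹ * s * c) := by group
      _ = y * (c * (y⁻¹ * s)) := by rw [h3]
      _ = y * c * (y⁻¹ * s) := by group
      _ = c * s := by rw [hcy]; group

theorem not_mem_Z_of_card {w : Ω} (hZ : Nat.card (Z S) = 2) (hw2 : w * w ≠ 1) : w ∉ Z S := by
  intro h
  have hfin : Finite (Z S) := Nat.finite_of_card_ne_zero (by omega)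
  have h1 : orderOf w ∣ 2 := by
    rw [← hZ]
    exact Subgroup.orderOf_dvd_natCard _ h
  apply hw2
  have := orderOf_dvd_iff_pow_eq_one.1 h1
  rwa [pow_two] at this

/-- For `[S, S] = ⟨w⟩` of order four. -/
theorem conj_w (hE : Nat.card (E S) = 4) {w : Ω} (hw : w ∈ E S) (hw2 : w * w ≠ 1) {s : Ω}
    (hs : s ∈ S) : s * w * s⁻¹ = w ∨ s * w * s⁻¹ = w⁻¹ := by
  obtain ⟨hall, h4, -⟩ := E_cyclic hE hw hw2
  rcases hall _ (conj_mem_E hs hw) with h | h | h | h
  · exfalso
    apply hw2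
    have : w = 1 := by
      calc w = s⁻¹ * (s * w * s⁻¹) * s := by group
        _ = 1 := by rw [h]; group
    rw [this, one_mul]
  · exact Or.inl h
  · exfalso
    apply hw2
    calc w * w = s⁻¹ * ((s * w * s⁻¹) * (s * w * s⁻¹)) * s := by group
      _ = 1 := by rw [h, h4]; group
  · exact Or.inr h

theorem ww_mem_Z (hE : Nat.card (E S) = 4) {w : Ω} (hw : w ∈ E S) (hw2 : w * w ≠ 1) :
    w * w ∈ Z S := by
  obtain ⟨-, h4, -⟩ := E_cyclic hE hw hw2
  refine mem_Z.2 ⟨S.mul_mem (E_le hw) (E_le hw), fun s hs => ?_⟩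
  have h5 : s * (w * w) * s⁻¹ = w * w := by
    rcases conj_w hE hw hw2 hs with h | h
    · calc s * (w * w) * s⁻¹ = (s * w * s⁻¹) * (s * w * s⁻¹) := by group
        _ = w * w := by rw [h]
    · calc s * (w * w) * s⁻¹ = (s * w * s⁻¹) * (s * w * s⁻¹) := by group
        _ = (w * w * (w * w)) * (w⁻¹ * w⁻¹) := by rw [h, h4, one_mul]
        _ = w * w := by simp [mul_assoc]
  calc s * (w * w) = s * (w * w) * s⁻¹ * s := by group
    _ = w * w * s := by rw [h5]

section CaseOne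

variable [Finite S] (h32 : Nat.card S = 32) (hE : Nat.card (E S) = 4)
include h32 hE

theorem card_C_ge {v : Ω} (hv : v ∈ S) :
    Nat.card (C S v) * (C S v).relIndex S = 32 ∧ (C S v).relIndex S ≤ 4 := by
  rw [← card_eq_mul_relIndex (C_le v), ← hE]
  exact ⟨h32, relIndex_C_le hv⟩

/-- Elements of order `8` have centralizers of order `8`. -/
theorem card_C_of_orderOf_eight (hZ : Nat.card (Z S) = 2) {v : Ω} (hv : v ∈ S)
    (hv8 : orderOf v = 8) : Nat.card (C S v) = 8 := by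
  obtain ⟨h1, h2⟩ := card_C_ge h32 hE hv
  have hle : Subgroup.zpowers v ≤ C S v := Subgroup.zpowers_le.2 (self_mem_C hv)
  have h3 := card_eq_mul_relIndex hle
  rw [Nat.card_zpowers, hv8] at h3
  have hvZ : v ∉ Z S := by
    apply not_mem_Z_of_card hZ
    intro h
    have : orderOf v ∣ 2 := orderOf_dvd_of_pow_eq_one (by rwa [pow_two])
    rw [hv8] at this
    revert this
    decide
  have hne : (C S v).relIndex S ≠ 1 := fun h =>
    C_ne hv hvZ (le_antisymm (C_le v) (Subgroup.relIndex_eq_one.1 h))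
  by_contra hne8
  have h5 : (C S v).relIndex S = 2 := by
    generalize (C S v).relIndex S = r at *
    interval_cases r <;> omega
  have h6 : (Subgroup.zpowers v).relIndex (C S v) = 2 := by
    rw [h5] at h1
    omega
  have hab := comm_of_relIndex_two h6 (by
    rintro _ ⟨n, rfl⟩ a ha
    exact ((show Commute v a from (mem_C.1 ha).2).zpow_left n).eq)
  obtain ⟨s, hs, hsA⟩ : ∃ s ∈ S, s ∉ C S v := by
    by_contra hno
    push Not at hno
    exact C_ne hv hvZ (le_antisymm (C_le _) hno)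
  have hneS : Z S ≠ S := fun h => hvZ (by rw [h]; exact hv)
  have h7 := relIndex_Z_A_le (C_le v) h5 hab hs hsA hneS
  have h8 := card_eq_mul_relIndex (Z_le_C (S := S) hv)
  rw [hZ, h7, hE] at h8
  rw [h8, h5] at h1
  omega

/-- **Order `32`, `[S, S]` cyclic of order `4`, `|Z(S)| = 2`.** -/
theorem exists_orderOf_eight (hZ : Nat.card (Z S) = 2) {w₀ : Ω} (hw₀ : w₀ ∈ E S)
    (hw₀2 : w₀ * w₀ ≠ 1) : ∃ u ∈ S, orderOf u = 8 := by
  obtain ⟨hall₀, h4₀, -⟩ := E_cyclic hE hw₀ hw₀2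
  have hww₀ := ww_mem_Z hE hw₀ hw₀2
  -- a commutator of order four
  obtain ⟨a, ha, b, hb, hab⟩ : ∃ a ∈ S, ∃ b ∈ S, a * b * a⁻¹ * b⁻¹ ∉ Z S := by
    by_contra hno
    push Not at hno
    have h1 : E S ≤ Z S := E_le_of_comm hno
    have hfin : Finite (Z S) := Nat.finite_of_card_ne_zero (by omega)
    have h2 := Nat.card_le_card_of_injective _ (Subgroup.inclusion_injective h1)
    omega
  obtain ⟨w, hw⟩ : ∃ w, w = a * b * a⁻¹ * b⁻¹ := ⟨_, rfl⟩
  have hwE : w ∈ E S := by rw [hw]; exact comm_mem ha hb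
  have hww : w * w = w₀ * w₀ := by
    rcases hall₀ w hwE with h | h | h | h
    · exfalso
      apply hab
      rw [← hw, h]
      exact (Z S).one_mem
    · rw [h]
    · exfalso
      apply hab
      rw [← hw, h]
      exact hww₀
    · rw [h]
      calc w₀⁻¹ * w₀⁻¹ = (w₀ * w₀ * (w₀ * w₀)) * (w₀⁻¹ * w₀⁻¹) := by rw [h4₀, one_mul]
        _ = w₀ * w₀ := by simp [mul_assoc]
  have hw2 : w * w ≠ 1 := by rw [hww]; exact hw₀2
  have hwZ := not_mem_Z_of_card hZ hw2
  obtain ⟨hall, h4, hEw⟩ := E_cyclic hE hwE hw2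
  have hwwZ := ww_mem_Z hE hwE hw2
  have hwS : w ∈ S := E_le hwE
  -- `M = C_S(w)` has index two
  have hMle : C S w ≤ S := C_le w
  have hM2 : (C S w).relIndex S = 2 := by
    have h1 : ∃ s ∈ S, s ∉ C S w := by
      by_contra hno
      push Not at hno
      exact C_ne hwS hwZ (le_antisymm (C_le _) hno)
    obtain ⟨s, hs, hsM⟩ := h1
    rw [Subgroup.relIndex_eq_two_iff]
    refine ⟨s, hs, fun t ht => ?_⟩
    have hout : ∀ r ∈ S, r ∉ C S w → r * w * r⁻¹ = w⁻¹ := by
      intro r hr hrM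
      rcases conj_w hE hwE hw2 hr with h | h
      · exfalso
        apply hrM
        refine mem_C.2 ⟨hr, ?_⟩
        calc w * r = r * w * r⁻¹ * r := by rw [h]
          _ = r * w := by group
      · exact h
    have hin : ∀ r, r ∈ C S w ↔ r ∈ S ∧ r * w * r⁻¹ = w := by
      intro r
      rw [mem_C]
      constructor
      · rintro ⟨h1, h2⟩
        refine ⟨h1, ?_⟩
        rw [← h2]
        group
      · rintro ⟨h1, h2⟩
        refine ⟨h1, ?_⟩
        calc w * r = r * w * r⁻¹ * r := by rw [h2]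
          _ = r * w := by group
    have hwinv : w⁻¹ ≠ w := fun h => hw2 (by
      calc w * w = w * w⁻¹ := by rw [h]
        _ = 1 := mul_inv_cancel w)
    by_cases htM : t ∈ C S w
    · right
      refine ⟨htM, fun h => ?_⟩
      have h3 := (hin _).1 h
      have h5 := (hin _).1 htM
      apply hwinv
      calc w⁻¹ = t⁻¹ * (t * (s * w * s⁻¹) * t⁻¹) * t := by rw [hout s hs hsM]; group
        _ = t⁻¹ * (t * s * w * (t * s)⁻¹) * t := by group
        _ = t⁻¹ * w * t := by rw [h3.2]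
        _ = t⁻¹ * (t * w * t⁻¹) * t := by rw [h5.2]
        _ = w := by group
    · left
      refine ⟨(hin _).2 ⟨S.mul_mem ht hs, ?_⟩, htM⟩
      calc t * s * w * (t * s)⁻¹ = t * (s * w * s⁻¹) * t⁻¹ := by group
        _ = (t * w * t⁻¹)⁻¹ := by rw [hout s hs hsM]; group
        _ = w := by rw [hout t ht htM, inv_inv]
  have hMcard : Nat.card (C S w) = 16 := by
    have := card_eq_mul_relIndex hMle
    rw [h32, hM2] at this
    omega
  have hEM : E S ≤ C S w := by
    rw [hEw]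
    exact Subgroup.zpowers_le.2 (self_mem_C hwS)
  have hEM4 : (E S).relIndex (C S w) = 4 := by
    have := card_eq_mul_relIndex hEM
    rw [hMcard, hE] at this
    omega
  -- `E` is central in `M`
  have hEc : ∀ e ∈ E S, ∀ m ∈ C S w, e * m = m * e := by
    intro e he m hm
    rw [hEw] at he
    obtain ⟨n, rfl⟩ := he
    exact ((show Commute w m from (mem_C.1 hm).2).zpow_left n).eq
  -- no commutator of elements of `M` has order four
  have hMM : ∀ p ∈ C S w, ∀ q ∈ C S w,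
      p * q * p⁻¹ * q⁻¹ * (p * q * p⁻¹ * q⁻¹) = 1 := by
    intro p hp q hq
    obtain ⟨δ, hδ⟩ : ∃ δ, δ = p * q * p⁻¹ * q⁻¹ := ⟨_, rfl⟩
    have hδE : δ ∈ E S := by rw [hδ]; exact comm_mem (hMle hp) (hMle hq)
    have hpq : p * q = δ * (q * p) := by rw [hδ]; group
    by_cases hpp : p * p ∈ E S
    · have h1 := hEc _ hpp q hq
      have h2 := hEc _ hδE p hp
      have h3 : p * p * q = δ * δ * (q * (p * p)) := by
        calc p * p * q = p * (p * q) := by group
          _ = p * δ * q * p := by rw [hpq]; group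
          _ = δ * (p * q) * p := by rw [← h2]; group
          _ = δ * δ * (q * (p * p)) := by rw [hpq]; group
      rw [← hδ]
      calc δ * δ = (p * p * q) * (q * (p * p))⁻¹ := by rw [h3]; group
        _ = 1 := by rw [h1, mul_inv_cancel]
    · have h1 := le_of_relIndex_four hEM hEM4 hp hpp hq
      have h2 : ∀ r ∈ Subgroup.zpowers p ⊔ E S, p * r = r * p := by
        intro r hr
        have h3 : Subgroup.zpowers p ⊔ E S ≤ Subgroup.centralizer {p} := by
          refine sup_le (Subgroup.zpowers_le.2 ?_) fun e he => ?_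
          · exact Subgroup.mem_centralizer_singleton_iff.2 rfl
          · exact Subgroup.mem_centralizer_singleton_iff.2 (hEc e he p hp)
        exact (Subgroup.mem_centralizer_singleton_iff.1 (h3 hr)).symm
      have h3 := h2 q h1
      rw [h3]
      group
  have hne : ∀ p ∈ C S w, ∀ q ∈ C S w, p * q * p⁻¹ * q⁻¹ ≠ w ∧ p * q * p⁻¹ * q⁻¹ ≠ w⁻¹ := by
    intro p hp q hq
    have h1 := hMM p hp q hq
    constructor
    · intro h
      rw [h] at h1
      exact hw2 h1
    · intro h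
      rw [h] at h1
      apply hw2
      calc w * w = (w⁻¹ * w⁻¹)⁻¹ := by simp [mul_assoc]
        _ = 1 := by rw [h1, inv_one]
  -- a good commutator
  obtain ⟨m, hm, y, hy, hyM, ω, hω, hmy⟩ : ∃ m ∈ C S w, ∃ y ∈ S, y ∉ C S w ∧
      ∃ ω, (ω = w ∨ ω = w⁻¹) ∧ m * y = ω * (y * m) := by
    by_cases haM : a ∈ C S w
    · by_cases hbM : b ∈ C S w
      · exact absurd hw.symm (hne a haM b hbM).1
      · exact ⟨a, haM, b, hb, hbM, w, Or.inl rfl, by rw [hw]; group⟩
    · by_cases hbM : b ∈ C S w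
      · exact ⟨b, hbM, a, ha, haM, w⁻¹, Or.inr rfl, by rw [hw]; group⟩
      · refine ⟨a * b, ?_, b, hb, hbM, w, Or.inl rfl, by rw [hw]; group⟩
        rw [mul_mem_iff_of_relIndex_two hM2 ha hb]
        tauto
  have hωE : ω ∈ E S := by
    rcases hω with rfl | rfl
    · exact hwE
    · exact (E S).inv_mem hwE
  have hωω : ω * ω ≠ 1 := by
    rcases hω with rfl | rfl
    · exact hw2
    · intro h
      apply hw2
      calc w * w = (w⁻¹ * w⁻¹)⁻¹ := by simp [mul_assoc]
        _ = 1 := by rw [h, inv_one]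
  have hω4 : ω * ω * (ω * ω) = 1 := (E_cyclic hE hωE hωω).2.1
  have hyω : y * ω * y⁻¹ = ω⁻¹ := by
    rcases conj_w hE hωE hωω hy with h | h
    · exfalso
      apply hyM
      refine mem_C.2 ⟨hy, ?_⟩
      have h1 : y * ω = ω * y := by
        calc y * ω = y * ω * y⁻¹ * y := by group
          _ = ω * y := by rw [h]
      rcases hω with rfl | rfl
      · exact h1.symm
      · calc w * y = w * (y * w⁻¹) * w := by group
          _ = w * (w⁻¹ * y) * w := by rw [h1]
          _ = y * w := by group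
    · exact h
  have hmω : ω * m = m * ω := hEc ω hωE m hm
  have hmS : m ∈ S := hMle hm
  have hcS : m * m * ω⁻¹ ∈ S := S.mul_mem (S.mul_mem hmS hmS) (S.inv_mem (E_le hωE))
  have hc : m * m * ω⁻¹ ∈ Z S := by
    refine mem_Z_of_index_two hM2 hy hyM hcS (fun m' hm' => ?_) ?_
    · -- commutes with `M`
      have h1 := hMM m hm m' hm'
      obtain ⟨δ, hδ⟩ : ∃ δ, δ = m * m' * m⁻¹ * m'⁻¹ := ⟨_, rfl⟩
      have hδE : δ ∈ E S := by rw [hδ]; exact comm_mem hmS (hMle hm')
      rw [← hδ] at h1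
      have h2 : m * m' = δ * (m' * m) := by rw [hδ]; group
      have h3 := hEc δ hδE m hm
      have h5 : m * m * m' = m' * (m * m) := by
        calc m * m * m' = m * (m * m') := by group
          _ = (m * δ) * (m' * m) := by rw [h2]; group
          _ = δ * (m * m') * m := by rw [← h3]; group
          _ = (δ * δ) * (m' * (m * m)) := by rw [h2]; group
          _ = m' * (m * m) := by rw [h1, one_mul]
      have h6 := hEc _ ((E S).inv_mem hωE) m' hm'
      calc m' * (m * m * ω⁻¹) = m' * (m * m) * ω⁻¹ := by group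
        _ = m * m * (m' * ω⁻¹) := by rw [← h5]; group
        _ = m * m * ω⁻¹ * m' := by rw [← h6]; group
    · have h1 : y * m = ω⁻¹ * (m * y) := by rw [hmy]; group
      have h2 : y * ω⁻¹ = ω * y := by
        calc y * ω⁻¹ = (y * ω * y⁻¹)⁻¹ * y := by group
          _ = ω * y := by rw [hyω, inv_inv]
      have h3 : ω⁻¹ * m = m * ω⁻¹ := hEc _ ((E S).inv_mem hωE) m hm
      calc y * (m * m * ω⁻¹) = y * m * m * ω⁻¹ := by simp [mul_assoc]
        _ = (ω⁻¹ * (m * y)) * m * ω⁻¹ := by rw [h1]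
        _ = ω⁻¹ * m * (y * m) * ω⁻¹ := by simp [mul_assoc]
        _ = ω⁻¹ * m * (ω⁻¹ * (m * y)) * ω⁻¹ := by rw [h1]
        _ = ω⁻¹ * m * ω⁻¹ * m * (y * ω⁻¹) := by simp [mul_assoc]
        _ = ω⁻¹ * m * ω⁻¹ * m * (ω * y) := by rw [h2]
        _ = (ω⁻¹ * m) * (ω⁻¹ * m) * ω * y := by simp [mul_assoc]
        _ = (m * ω⁻¹) * (m * ω⁻¹) * ω * y := by rw [h3]
        _ = m * (ω⁻¹ * m) * y := by group
        _ = m * m * ω⁻¹ * y := by rw [h3]; group
  have hcc : m * m * ω⁻¹ * (m * m * ω⁻¹) = 1 := by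
    by_contra h
    exact not_mem_Z_of_card hZ h hc
  have hm4 : m ^ 4 = ω * ω := by
    have h3 : ω⁻¹ * m = m * ω⁻¹ := hEc _ ((E S).inv_mem hωE) m hm
    have h5 : m * m * m * m * (ω⁻¹ * ω⁻¹) = 1 := by
      have h6 : ω⁻¹ * (m * m) = m * m * ω⁻¹ :=
        ((show Commute ω⁻¹ m from h3).mul_right (show Commute ω⁻¹ m from h3)).eq
      calc m * m * m * m * (ω⁻¹ * ω⁻¹) = m * m * (m * m * ω⁻¹) * ω⁻¹ := by simp [mul_assoc]
        _ = m * m * (ω⁻¹ * (m * m)) * ω⁻¹ := by rw [h6]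
        _ = m * m * ω⁻¹ * (m * m * ω⁻¹) := by simp [mul_assoc]
        _ = 1 := hcc
    calc m ^ 4 = m * m * m * m * (ω⁻¹ * ω⁻¹) * (ω * ω) := by simp [pow_succ, mul_assoc]
      _ = ω * ω := by rw [h5, one_mul]
  refine ⟨m, hmS, ?_⟩
  have h8 : m ^ 2 ^ (2 + 1) = 1 := by
    calc m ^ 2 ^ (2 + 1) = m ^ 4 * m ^ 4 := by group
      _ = 1 := by rw [hm4, hω4]
  have h9 : ¬ m ^ 2 ^ 2 = 1 := by
    have : m ^ 2 ^ 2 = m ^ 4 := by norm_num
    rw [this, hm4]
    exact hωω
  have hp : Fact (Nat.Prime 2) := ⟨Nat.prime_two⟩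
  have := orderOf_eq_prime_pow h9 h8
  rw [this]
  norm_num

end CaseOne

end Cfsg.Agent.H617.FusFour
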