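import Mathlib
import Cfsg.Agent.H617.FusCyc

/-!
# Order `32`, `[S, S]` elementary abelian of order `4`, `|Z(S)| = 2`
-/

set_option autoImplicit false

namespace Cfsg.Agent.H617.FusFour

open Cfsg Cfsg.FusionSystem Cfsg.Agent.H802 Cfsg.Agent.H617.FusInv Cfsg.Agent.H617.FusTwo

variable {Ω : Type*} [Group Ω] {S : Subgroup Ω}

/-- `[S, S]` meets the centre. -/
theorem exists_mem_E_Z [Finite S] (hS : IsPGroup 2 S) (hE : 2 ∣ Nat.card (E S)) :
    ∃ z ∈ E S, z ∈ Z S ∧ z ≠ 1 := by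
  have hp : Fact (Nat.Prime 2) := ⟨Nat.prime_two⟩
  have hfin : Finite (E S) := finite_of_le E_le
  letI act : MulAction S (E S) :=
    { smul := fun s e => ⟨(s : Ω) * e * (s : Ω)⁻¹, conj_mem_E s.2 e.2⟩
      one_smul := fun e => Subtype.ext (by
        change ((1 : S) : Ω) * (e : Ω) * ((1 : S) : Ω)⁻¹ = e
        simp)
      mul_smul := fun s t e => Subtype.ext (by
        change ((s * t : S) : Ω) * (e : Ω) * ((s * t : S) : Ω)⁻¹ =
          (s : Ω) * ((t : Ω) * e * (t : Ω)⁻¹) * (s : Ω)⁻¹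
        simp [mul_assoc]) }
  have hsmul : ∀ (s : S) (e : E S), ((s • e : E S) : Ω) = (s : Ω) * e * (s : Ω)⁻¹ :=
    fun s e => rfl
  have h1 : (1 : E S) ∈ MulAction.fixedPoints S (E S) := by
    intro s
    apply Subtype.ext
    rw [hsmul]
    simp
  obtain ⟨b, hb, hne⟩ := hS.exists_fixed_point_of_prime_dvd_card_of_fixed_point (E S) hE h1
  refine ⟨b, b.2, mem_Z.2 ⟨E_le b.2, fun s hs => ?_⟩, fun h => hne (Subtype.ext h.symm)⟩
  have h2 := congrArg Subtype.val (hb ⟨s, hs⟩)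
  rw [hsmul] at h2
  calc s * (b : Ω) = s * b * s⁻¹ * s := by group
    _ = b * s := by rw [h2]

/-- Automorphisms preserve `[S, S]`. -/
theorem aut_preserves_E {α : MulAut S} {y : S} (hy : (y : Ω) ∈ E S) : ((α y : S) : Ω) ∈ E S := by
  have h1 : (commutator S).map S.subtype = E S := Subgroup.map_subtype_commutator S
  rw [← h1] at hy ⊢
  obtain ⟨t, ht, hty⟩ := hy
  have hty' : t = y := Subtype.ext hty
  subst hty'
  refine ⟨α t, ?_, rfl⟩
  have h2 : (commutator S).map α.toMonoidHom = commutator S :=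
    Subgroup.characteristic_iff_map_eq.1 inferInstance α
  rw [← h2]
  exact ⟨t, ht, rfl⟩

section Klein

variable [Finite S] (hS : IsPGroup 2 S) (h32 : Nat.card S = 32) (hE : Nat.card (E S) = 4)
  (hE2 : ∀ e ∈ E S, e * e = 1) (hZ : Nat.card (Z S) = 2)

include hE2 in
theorem E_comm {a b : Ω} (ha : a ∈ E S) (hb : b ∈ E S) : a * b = b * a := by
  have h1 := hE2 _ ((E S).mul_mem ha hb)
  have h2 := hE2 a ha
  have h3 := hE2 b hb
  calc a * b = a * (a * b * (a * b)) * b := by rw [h1, mul_one]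
    _ = (a * a) * (b * a) * (b * b) := by simp [mul_assoc]
    _ = b * a := by rw [h2, h3, one_mul, mul_one]

include hS hE hZ in
theorem Z_le_E : Z S ≤ E S := by
  obtain ⟨z, hzE, hzZ, hz1⟩ := exists_mem_E_Z hS (by rw [hE]; norm_num)
  have h1 : Subgroup.zpowers z ≤ Z S := Subgroup.zpowers_le.2 hzZ
  have hfin : Finite (Z S) := Nat.finite_of_card_ne_zero (by omega)
  have h2 : Subgroup.zpowers z = Z S := by
    refine Subgroup.eq_of_le_of_card_ge h1 ?_
    rw [hZ, Nat.card_zpowers]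
    have h3 : orderOf z ∣ 2 := by
      rw [← hZ]
      exact Subgroup.orderOf_dvd_natCard _ hzZ
    have h4 : orderOf z ≠ 1 := fun h => hz1 (orderOf_eq_one_iff.1 h)
    have h5 : 0 < orderOf z := Nat.pos_of_dvd_of_pos h3 (by norm_num)
    omega
  rw [← h2]
  exact Subgroup.zpowers_le.2 hzE

include hS hE hZ in
theorem relIndex_Z_E : (Z S).relIndex (E S) = 2 := by
  have := card_eq_mul_relIndex (Z_le_E hS hE hZ)
  rw [hE, hZ] at this
  omega

include hS hE hE2 hZ in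
theorem comm_E_mem_Z {s f : Ω} (hs : s ∈ S) (hf : f ∈ E S) : s * f * s⁻¹ * f⁻¹ ∈ Z S := by
  by_cases hfZ : f ∈ Z S
  · rw [(mem_Z.1 hfZ).2 s hs]
    have : f * s * s⁻¹ * f⁻¹ = 1 := by group
    rw [this]
    exact (Z S).one_mem
  · have h1 := conj_mem_E hs hf
    have h2 : s * f * s⁻¹ ∉ Z S := by
      intro h
      apply hfZ
      have h3 := (mem_Z.1 h).2 s hs
      have h4 : f = s * f * s⁻¹ := by
        calc f = s⁻¹ * (s * (s * f * s⁻¹)) * s⁻¹ * s * s⁻¹ * s := by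
              rw [h3]; simp [mul_assoc]
          _ = s * f * s⁻¹ := by simp [mul_assoc]
      rw [h4]
      exact h
    have h3 := inv_mul_mem_of_relIndex_two (relIndex_Z_E hS hE hZ) hf h1 hfZ h2
    rwa [E_comm hE2 ((E S).inv_mem hf) h1] at h3

/-- `M = C_S([S, S])`. -/
abbrev M (S : Subgroup Ω) : Subgroup Ω := centralizerIn S (E S)

theorem mem_M {y : Ω} : y ∈ M S ↔ y ∈ S ∧ ∀ e ∈ E S, e * y = y * e := by
  constructor
  · rintro ⟨h1, h2⟩
    exact ⟨h1, fun s hs => Subgroup.mem_centralizer_iff.1 h2 s hs⟩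
  · rintro ⟨h1, h2⟩
    exact ⟨h1, Subgroup.mem_centralizer_iff.2 fun s hs => h2 s hs⟩

theorem Z_le_M : Z S ≤ M S := fun y hy => mem_M.2 ⟨hy.1, fun e he => (mem_Z.1 hy).2 e (E_le he)⟩

theorem exists_not_comm {u : Ω} (hu : u ∈ S) (huM : u ∉ M S) :
    ∃ e ∈ E S, e ∉ Z S ∧ u * e ≠ e * u := by
  by_contra hno
  push Not at hno
  apply huM
  refine mem_M.2 ⟨hu, fun e he => ?_⟩
  by_cases heZ : e ∈ Z S
  · exact ((mem_Z.1 heZ).2 u hu).symm
  · exact (hno e he heZ).symm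

include hS h32 hE hE2 hZ in
theorem relIndex_C_eq_four {u : Ω} (hu : u ∈ S) (huM : u ∉ M S) : (C S u).relIndex S = 4 := by
  obtain ⟨h1, h2⟩ := card_C_ge h32 hE hu
  have huZ : u ∉ Z S := fun h => huM (Z_le_M h)
  have hne : (C S u).relIndex S ≠ 1 := fun h =>
    C_ne hu huZ (le_antisymm (C_le u) (Subgroup.relIndex_eq_one.1 h))
  by_contra hne4
  have h5 : (C S u).relIndex S = 2 := by
    generalize (C S u).relIndex S = r at *
    interval_cases r <;> omega
  obtain ⟨e, he, heZ, hue⟩ := exists_not_comm hu huM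
  have heS := E_le he
  have heH : e ∉ C S u := fun h => hue (mem_C.1 h).2
  have hP2 : ∀ s ∈ S, ∀ f ∈ E S, s * f * s⁻¹ * f⁻¹ ∈ Z S := fun s hs f hf =>
    comm_E_mem_Z hS hE hE2 hZ hs hf
  have hEH : ∀ f ∈ E S, f ∈ C S u → f ∈ Z S := by
    intro f hf hfH
    by_contra hfZ
    have h3 := inv_mul_mem_of_relIndex_two (relIndex_Z_E hS hE hZ) hf he hfZ heZ
    apply heH
    have h4 : e = f * (f⁻¹ * e) := by group
    rw [h4]
    exact (C S u).mul_mem hfH (Z_le_C hu h3)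
  have hinv : ∀ a b : Ω, a * b * a⁻¹ * b⁻¹ ∈ Z S → b * a * b⁻¹ * a⁻¹ ∈ Z S := by
    intro a b h
    have h3 := (Z S).inv_mem h
    have h4 : (a * b * a⁻¹ * b⁻¹)⁻¹ = b * a * b⁻¹ * a⁻¹ := by group
    rwa [h4] at h3
  have hmul : ∀ a ∈ S, ∀ b ∈ S, ∀ c ∈ S, a * c * a⁻¹ * c⁻¹ ∈ Z S → b * c * b⁻¹ * c⁻¹ ∈ Z S →
      (a * b) * c * (a * b)⁻¹ * c⁻¹ ∈ Z S := by
    intro a ha b hb c hc h3 h4
    have h6 := (mem_Z.1 h4).2 a ha
    have h7 : (a * b) * c * (a * b)⁻¹ * c⁻¹ =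
        (a * (b * c * b⁻¹ * c⁻¹)) * a⁻¹ * (a * c * a⁻¹ * c⁻¹) := by group
    rw [h7, h6, mul_inv_cancel_right]
    exact (Z S).mul_mem h4 h3
  have hHH : ∀ a ∈ C S u, ∀ b ∈ C S u, a * b * a⁻¹ * b⁻¹ ∈ Z S := fun a ha b hb =>
    hEH _ (comm_mem ha.1 hb.1) ((C S u).mul_mem ((C S u).mul_mem ((C S u).mul_mem ha hb)
      ((C S u).inv_mem ha)) ((C S u).inv_mem hb))
  have hHS : ∀ a ∈ C S u, ∀ b ∈ S, a * b * a⁻¹ * b⁻¹ ∈ Z S := by
    intro a ha b hb
    by_cases hbH : b ∈ C S u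
    · exact hHH a ha b hbH
    · have h3 := inv_mul_mem_of_relIndex_two h5 heS hb heH hbH
      have h4 := hmul e heS (e⁻¹ * b) h3.1 a ha.1 (hinv _ _ (hP2 a ha.1 e he)) (hHH _ h3 a ha)
      have h6 : e * (e⁻¹ * b) = b := by group
      rw [h6] at h4
      exact hinv _ _ h4
  have hSS : ∀ a ∈ S, ∀ b ∈ S, a * b * a⁻¹ * b⁻¹ ∈ Z S := by
    intro a ha b hb
    by_cases haH : a ∈ C S u
    · exact hHS a haH b hb
    · have h3 := inv_mul_mem_of_relIndex_two h5 heS ha heH haH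
      have h4 := hmul e heS (e⁻¹ * a) h3.1 b hb (hinv _ _ (hP2 b hb e he)) (hHS _ h3 b hb)
      have h6 : e * (e⁻¹ * a) = a := by group
      rwa [h6] at h4
  have h6 : E S ≤ Z S := E_le_of_comm hSS
  exact heZ (h6 he)

include hS h32 hE hE2 hZ in
theorem sq_not_mem_Z {u : Ω} (hu : u ∈ S) (huM : u ∉ M S) : u * u ∉ Z S := by
  intro h
  obtain ⟨e, he, heZ, hue⟩ := exists_not_comm hu huM
  obtain ⟨s, hs, hsu⟩ := exists_comm_of_relIndex hu
    ((relIndex_C_eq_four hS h32 hE hE2 hZ hu huM).trans hE.symm) he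
  have h1 := (mem_Z.1 h).2 s hs
  have h2 : e * u * (e * u) = u * u := by
    rw [← hsu]
    calc s * u * s⁻¹ * (s * u * s⁻¹) = s * (u * u) * s⁻¹ := by group
      _ = u * u := by rw [h1, mul_inv_cancel_right]
  apply hue
  have h3 : e * u * e = u := by
    calc e * u * e = e * u * (e * u) * u⁻¹ := by group
      _ = u := by rw [h2, mul_inv_cancel_right]
  calc u * e = e * u * e * e := by rw [h3]
    _ = e * u * (e * e) := by group
    _ = e * u := by rw [hE2 e he, mul_one]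

include hS h32 hE hE2 hZ in
theorem C_le_sup {u : Ω} (hu : u ∈ S) (huM : u ∉ M S) :
    C S u ≤ Subgroup.zpowers u ⊔ Z S := by
  have h1 := relIndex_C_eq_four hS h32 hE hE2 hZ hu huM
  have h2 := (card_C_ge h32 hE hu).1
  have h3 := card_eq_mul_relIndex (Z_le_C (S := S) hu)
  refine le_of_relIndex_four (Z_le_C hu) ?_ (self_mem_C hu) (sq_not_mem_Z hS h32 hE hE2 hZ hu huM)
  rw [h1] at h2
  rw [hZ] at h3
  omega

theorem exists_zpow_mul {u q : Ω} (hu : u ∈ S) (hq : q ∈ Subgroup.zpowers u ⊔ Z S) :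
    ∃ i : ℤ, ∃ ζ ∈ Z S, q = u ^ i * ζ := by
  have hc : ∀ ζ ∈ Z S, ∀ i : ℤ, u ^ i * ζ = ζ * u ^ i := fun ζ hζ i =>
    ((show Commute u ζ from (mem_Z.1 hζ).2 u hu).zpow_left i).eq
  let T : Subgroup Ω :=
    { carrier := {q | ∃ i : ℤ, ∃ ζ ∈ Z S, q = u ^ i * ζ}
      mul_mem' := by
        rintro _ _ ⟨i, ζ, hζ, rfl⟩ ⟨j, ξ, hξ, rfl⟩
        refine ⟨i + j, ζ * ξ, (Z S).mul_mem hζ hξ, ?_⟩
        calc u ^ i * ζ * (u ^ j * ξ) = u ^ i * (ζ * u ^ j) * ξ := by simp [mul_assoc]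
          _ = u ^ i * (u ^ j * ζ) * ξ := by rw [hc ζ hζ j]
          _ = u ^ (i + j) * (ζ * ξ) := by rw [zpow_add]; simp [mul_assoc]
      one_mem' := ⟨0, 1, (Z S).one_mem, by simp⟩
      inv_mem' := by
        rintro _ ⟨i, ζ, hζ, rfl⟩
        refine ⟨-i, ζ⁻¹, (Z S).inv_mem hζ, ?_⟩
        rw [mul_inv_rev, ← zpow_neg, hc _ ((Z S).inv_mem hζ)] }
  have h1 : Subgroup.zpowers u ⊔ Z S ≤ T := by
    refine sup_le (Subgroup.zpowers_le.2 ⟨1, 1, (Z S).one_mem, by simp⟩) fun ζ hζ => ?_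
    exact ⟨0, ζ, hζ, by simp⟩
  exact h1 hq

include hS h32 hE hE2 hZ in
theorem pow_half_eq_one {u q : Ω} (hu : u ∈ S) (huM : u ∉ M S) (hq : q ∈ C S u)
    (hqM : q ∈ M S) : q ^ (orderOf u / 2) = 1 ∧ u ^ (orderOf u / 2) ≠ 1 := by
  have hp : Fact (Nat.Prime 2) := ⟨Nat.prime_two⟩
  obtain ⟨i, ζ, hζ, rfl⟩ := exists_zpow_mul hu (C_le_sup hS h32 hE hE2 hZ hu huM hq)
  obtain ⟨e, he, heZ, hue⟩ := exists_not_comm hu huM
  have heS := E_le he
  -- `u²` commutes with `e`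
  have hζe := comm_E_mem_Z hS hE hE2 hZ hu he
  obtain ⟨δ, hδ⟩ : ∃ δ, δ = u * e * u⁻¹ * e⁻¹ := ⟨_, rfl⟩
  rw [← hδ] at hζe
  have hue' : u * e = δ * e * u := by rw [hδ]; group
  have hδ2 : δ * δ = 1 := hE2 _ (Z_le_E hS hE hZ hζe)
  have huue : u * u * e = e * (u * u) := by
    have h1 := (mem_Z.1 hζe).2 u hu
    calc u * u * e = u * (u * e) := by group
      _ = (u * δ) * e * u := by rw [hue']; group
      _ = δ * (u * e) * u := by rw [h1]; group
      _ = (δ * δ) * (e * (u * u)) := by rw [hue']; simp [mul_assoc]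
      _ = e * (u * u) := by rw [hδ2, one_mul]
  have hui : u ^ i * e = e * u ^ i := by
    have h1 := (mem_M.1 hqM).2 e he
    have h2 := (mem_Z.1 hζ).2 e heS
    calc u ^ i * e = u ^ i * (e * ζ) * ζ⁻¹ := by group
      _ = (u ^ i * ζ) * e * ζ⁻¹ := by rw [h2]; group
      _ = e * (u ^ i * ζ) * ζ⁻¹ := by rw [h1]
      _ = e * u ^ i := by group
  have hi : Even i := by
    by_contra hodd
    rw [Int.not_even_iff_odd] at hodd
    obtain ⟨j, rfl⟩ := hodd
    apply hue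
    have h1 : Commute (u ^ (2 * j)) e := by
      rw [zpow_mul]
      have h3 : Commute (u ^ (2 : ℤ)) e := by
        rw [show (2 : ℤ) = 1 + 1 by norm_num, zpow_add, zpow_one]
        exact huue
      exact h3.zpow_left j
    have h2 : Commute (u ^ (2 * j + 1)) e := hui
    have h3 : u = (u ^ (2 * j))⁻¹ * u ^ (2 * j + 1) := by
      rw [zpow_add, zpow_one, inv_mul_cancel_left]
    have h4 : Commute u e := by
      rw [h3]
      exact (h1.inv_left).mul_left h2
    exact h4.eq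
  obtain ⟨j, rfl⟩ := hi
  -- the order of `u`
  obtain ⟨k, hk⟩ := hS ⟨u, hu⟩
  have hk' : u ^ 2 ^ k = 1 := congrArg Subtype.val hk
  obtain ⟨m, -, hm⟩ := (Nat.dvd_prime_pow Nat.prime_two).1 (orderOf_dvd_of_pow_eq_one hk')
  have huu := sq_not_mem_Z hS h32 hE hE2 hZ hu huM
  have hm2 : 2 ≤ m := by
    by_contra hlt
    apply huu
    have h1 : u ^ 2 = 1 := by
      apply orderOf_dvd_iff_pow_eq_one.1
      rw [hm]
      exact pow_dvd_pow 2 (show m ≤ 1 by omega) |>.trans (by norm_num)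
    rw [← pow_two, h1]
    exact (Z S).one_mem
  obtain ⟨n, rfl⟩ : ∃ n, m = n + 2 := ⟨m - 2, by omega⟩
  have hhalf : orderOf u / 2 = 2 * 2 ^ n := by
    rw [hm, pow_add]
    omega
  constructor
  · have hcomm : Commute (u ^ (j + j)) ζ := ((show Commute u ζ from (mem_Z.1 hζ).2 u hu)).zpow_left _
    rw [hcomm.mul_pow, hhalf]
    have h1 : (u ^ (j + j)) ^ (2 * 2 ^ n) = 1 := by
      have h3 : (u ^ (j + j)) ^ (2 * 2 ^ n) = (u ^ orderOf u) ^ j := by
        rw [← zpow_natCast, ← zpow_mul, ← zpow_natCast u, ← zpow_mul, hm]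
        congr 1
        push_cast
        ring
      rw [h3, pow_orderOf_eq_one, one_zpow]
    have h2 : ζ ^ (2 * 2 ^ n) = 1 := by
      rw [pow_mul, pow_two, hE2 _ (Z_le_E hS hE hZ hζ), one_pow]
    rw [h1, h2, one_mul]
  · intro h
    have h1 := orderOf_dvd_of_pow_eq_one h
    rw [hhalf, hm] at h1
    have h2 := Nat.le_of_dvd (by positivity) h1
    rw [pow_add] at h2
    have h3 : 0 < 2 ^ n := by positivity
    omega

include hS h32 hE hE2 hZ in
theorem not_mem_M_aut {F : FusionSystem S} {Q : Subgroup Ω} (hQc : F.IsCentric Q)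
    (α : MulAut Q) {x : Q} (hx : (x : Ω) ∉ M S) : ((α x : Q) : Ω) ∉ M S := by
  have hQS := hQc.1
  have hfin : Finite Q := finite_of_le hQS
  have hZQ := Z_le_of_isCentric hQc
  have hxS : (x : Ω) ∈ S := hQS x.2
  have hCQ : C S (x : Ω) ≤ Q := (C_le_sup hS h32 hE hE2 hZ hxS hx).trans
    (sup_le (Subgroup.zpowers_le.2 x.2) hZQ)
  have hC8 : Nat.card (C S (x : Ω)) = 8 := by
    have h1 := relIndex_C_eq_four hS h32 hE hE2 hZ hxS hx
    have h2 := (card_C_ge h32 hE hxS).1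
    rw [h1] at h2
    omega
  have h1 := card_eq_mul_relIndex hCQ
  have h2 := card_eq_mul_relIndex hQS
  rw [hC8] at h1
  rw [h32] at h2
  intro hαx
  have hcases : Nat.card Q = 8 ∨ Q.relIndex S = 2 ∨ Q.relIndex S = 1 := by
    generalize (C S (x : Ω)).relIndex Q = m at *
    generalize Q.relIndex S = n at *
    have h3 : n ∣ 4 := ⟨m, by rw [h1] at h2; nlinarith⟩
    have h4 : n ≤ 4 := Nat.le_of_dvd (by norm_num) h3
    interval_cases n <;> omega
  rcases hcases with h8 | h16 | h32'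
  · -- `Q = C_S(x)`
    have hQC : C S (x : Ω) = Q := Subgroup.eq_of_le_of_card_ge hCQ (by rw [h8, hC8])
    have h3 : ((α x : Q) : Ω) ∈ C S (x : Ω) := by rw [hQC]; exact (α x).2
    obtain ⟨h4, h5⟩ := pow_half_eq_one hS h32 hE hE2 hZ hxS hx h3 hαx
    apply h5
    have h6 : (α x) ^ (orderOf (x : Ω) / 2) = 1 := Subtype.ext (by
      rw [Subgroup.coe_pow, h4]; rfl)
    rw [← map_pow] at h6
    have h7 : x ^ (orderOf (x : Ω) / 2) = 1 := by
      apply α.injective
      rw [h6, map_one]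
    have h8' := congrArg Subtype.val h7
    rwa [Subgroup.coe_pow] at h8'
  · -- index two
    have hEQ := E_le_of_relIndex_two h16
    have hQ16 : Nat.card Q = 16 := by rw [h16] at h2; omega
    let K : Subgroup Q := Subgroup.closure {q : Q | q * q = 1}
    have hαK : ∀ (β : MulAut Q) (y : Q), y ∈ K → β y ∈ K := by
      intro β y hy
      have h3 : K ≤ K.comap β.toMonoidHom := by
        rw [Subgroup.closure_le]
        intro q hq
        refine Subgroup.subset_closure ?_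
        change β q * β q = 1
        rw [← map_mul, show q * q = 1 from hq, map_one]
      exact h3 hy
    have hEK : (E S).subgroupOf Q ≤ K := by
      intro q hq
      exact Subgroup.subset_closure (Subtype.ext (hE2 _ hq))
    have hKM : K ≤ (M S).subgroupOf Q := by
      rw [Subgroup.closure_le]
      intro q hq
      by_contra hqM
      have hqM' : (q : Ω) ∉ M S := hqM
      apply sq_not_mem_Z hS h32 hE hE2 hZ (hQS q.2) hqM'
      have h3 : (q : Ω) * q = 1 := congrArg Subtype.val (show q * q = 1 from hq)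
      rw [h3]
      exact (Z S).one_mem
    have hcE : Nat.card ((E S).subgroupOf Q) = 4 := by
      rw [Nat.card_congr (Subgroup.subgroupOfEquivOfLe hEQ).toEquiv, hE]
    have hd1 : 4 ∣ Nat.card K := hcE ▸ Subgroup.card_dvd_of_le hEK
    have hd2 : Nat.card ((M S).subgroupOf Q) ∣ 16 := hQ16 ▸ Subgroup.card_subgroup_dvd_card _
    have hd3 : Nat.card ((M S).subgroupOf Q) ≠ 16 := by
      intro h
      have h3 : (M S).subgroupOf Q = ⊤ := Subgroup.eq_top_of_card_eq _ (h.trans hQ16.symm)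
      apply hx
      have h4 : x ∈ (M S).subgroupOf Q := by rw [h3]; trivial
      exact h4
    have hd4 : Nat.card K ∣ Nat.card ((M S).subgroupOf Q) := Subgroup.card_dvd_of_le hKM
    have hd5 : Nat.card ((M S).subgroupOf Q) ≤ 8 := by
      have h4 : Nat.card ((M S).subgroupOf Q) ≤ 16 := Nat.le_of_dvd (by norm_num) hd2
      generalize Nat.card ((M S).subgroupOf Q) = m at *
      interval_cases m <;> omega
    have hKcases : Nat.card K = 4 ∨ Nat.card K = 8 := by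
      have h3 : Nat.card K ≤ Nat.card ((M S).subgroupOf Q) :=
        Nat.le_of_dvd Nat.card_pos hd4
      have h4 : 0 < Nat.card K := Nat.card_pos
      omega
    rcases hKcases with hK4 | hK8
    · have hKE : (E S).subgroupOf Q = K := Subgroup.eq_of_le_of_card_ge hEK (by rw [hK4, hcE])
      apply hx
      refine mem_M.2 ⟨hxS, fun e he => ?_⟩
      have h3 : (⟨e, hEQ he⟩ : Q) ∈ K := by rw [← hKE]; exact he
      have h4 := hαK α _ h3
      rw [← hKE] at h4
      have h5 := (mem_M.1 hαx).2 _ h4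
      have h6 : α ⟨e, hEQ he⟩ * α x = α x * α ⟨e, hEQ he⟩ := Subtype.ext h5
      rw [← map_mul, ← map_mul] at h6
      exact congrArg Subtype.val (α.injective h6)
    · have hKM' : K = (M S).subgroupOf Q := Subgroup.eq_of_le_of_card_ge hKM (by omega)
      apply hx
      have h3 : α x ∈ K := by rw [hKM']; exact hαx
      have h4 := hαK α⁻¹ _ h3
      rw [MulAut.inv_apply_self] at h4
      rw [hKM'] at h4
      exact h4
  · have hQ : Q = S := le_antisymm hQS (Subgroup.relIndex_eq_one.1 h32')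
    subst hQ
    apply hx
    refine mem_M.2 ⟨hxS, fun e he => ?_⟩
    have h4 := aut_preserves_E (α := α) (y := ⟨e, E_le he⟩) he
    have h5 := (mem_M.1 hαx).2 _ h4
    have h6 : α ⟨e, E_le he⟩ * α x = α x * α ⟨e, E_le he⟩ := Subtype.ext h5
    rw [← map_mul, ← map_mul] at h6
    exact congrArg Subtype.val (α.injective h6)

include hS h32 hE hE2 hZ in
/-- **Order `32`, `[S, S]` elementary abelian of order `4`, `|Z(S)| = 2`.** -/
theorem exists_of_klein {F : FusionSystem S} (hF : F.IsSaturated 2) :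
    ∃ u ∈ S, ∀ v, F.IsConjElt u v → v ∈ S ∧ Nat.card (C S v) = 8 := by
  have hp : Fact (Nat.Prime 2) := ⟨Nat.prime_two⟩
  obtain ⟨e, he, heZ⟩ : ∃ e ∈ E S, e ∉ Z S := by
    by_contra hno
    push Not at hno
    have hfin : Finite (Z S) := Nat.finite_of_card_ne_zero (by omega)
    have h2 := Nat.card_le_card_of_injective _ (Subgroup.inclusion_injective
      (show E S ≤ Z S from hno))
    omega
  obtain ⟨u, hu, hue⟩ : ∃ u ∈ S, ¬ (u * e = e * u) := by
    by_contra hno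
    push Not at hno
    exact heZ (mem_Z.2 ⟨E_le he, hno⟩)
  have huM : u ∉ M S := fun h => hue ((mem_M.1 h).2 e he).symm
  refine ⟨u, hu, fun v hv => ?_⟩
  have h1 := mem_iff_of_isConjElt hS hF {x | x ∈ S ∧ x ∉ M S} (fun Q _ hQc α _ => by
    have hfin : Finite Q := finite_of_le hQc.1
    refine mem_iff_of_maps fun x hx => ?_
    exact ⟨hQc.1 (α x).2, not_mem_M_aut hS h32 hE hE2 hZ hQc α hx.2⟩) hv
  obtain ⟨hvS, hvM⟩ := h1.1 ⟨hu, huM⟩
  refine ⟨hvS, ?_⟩
  have h1 := relIndex_C_eq_four hS h32 hE hE2 hZ hvS hvM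
  have h2 := (card_C_ge h32 hE hvS).1
  rw [h1] at h2
  omega

end Klein

end Cfsg.Agent.H617.FusFour
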