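import Mathlib
import Cfsg.Agent.H617.FusKlein

/-!
# Order `32`, `|[S, S]| = |Z(S)| = 4`
-/

set_option autoImplicit false

namespace Cfsg.Agent.H617.FusFour

open Cfsg Cfsg.FusionSystem Cfsg.Agent.H802 Cfsg.Agent.H617.FusInv Cfsg.Agent.H617.FusTwo

variable {Ω : Type*} [Group Ω] {S : Subgroup Ω}

/-- An involution normalizing a Sylow `2`-subgroup lies in it. -/
theorem mem_sylow_of_normalizes {H : Type*} [Group H] [Finite H] (R : Sylow 2 H) {τ : H}
    (hτ : τ * τ = 1) (hn : ∀ σ ∈ (R : Subgroup H), τ * σ * τ⁻¹ ∈ (R : Subgroup H)) :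
    τ ∈ (R : Subgroup H) := by
  have hp : Fact (Nat.Prime 2) := ⟨Nat.prime_two⟩
  have hP : IsPGroup 2 (Subgroup.zpowers τ) := by
    rintro ⟨_, n, rfl⟩
    refine ⟨1, Subtype.ext ?_⟩
    change (τ ^ n) ^ 2 ^ 1 = 1
    rw [pow_one, ← zpow_natCast, ← zpow_mul, mul_comm, zpow_mul]
    have : τ ^ ((2 : ℕ) : ℤ) = 1 := by rw [zpow_natCast, pow_two, hτ]
    rw [this, one_zpow]
  have h1 := hP.inf_normalizer_sylow R
  have hinv : τ⁻¹ = τ := by
    calc τ⁻¹ = τ⁻¹ * (τ * τ) := by rw [hτ, mul_one]
      _ = τ := by group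
  have h2 : τ ∈ Subgroup.normalizer ((R : Subgroup H) : Set H) := by
    rw [Subgroup.mem_normalizer_iff]
    refine fun x => ⟨hn x, fun hx => ?_⟩
    have h3 := hn _ hx
    have h4 : τ * (τ * x * τ⁻¹) * τ⁻¹ = x := by
      calc τ * (τ * x * τ⁻¹) * τ⁻¹ = (τ * τ) * x * (τ * τ)⁻¹ := by group
        _ = x := by rw [hτ]; group
    rwa [h4] at h3
  have h3 : τ ∈ (Subgroup.zpowers τ ⊓ Subgroup.normalizer ((R : Subgroup H) : Set H) :
      Subgroup H) := ⟨Subgroup.mem_zpowers τ, h2⟩
  exact (h1.le h3).2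

section Four

variable [Finite S] (h32 : Nat.card S = 32) (hE : Nat.card (E S) = 4)
  (hZ4 : Nat.card (Z S) = 4)

theorem E_enum {e f : Ω} (hE : Nat.card (E S) = 4) (he : e ∈ E S) (hf : f ∈ E S) (he1 : e ≠ 1)
    (hf1 : f ≠ 1) (hef : e ≠ f) (he2 : e * e = 1) (hf2 : f * f = 1) :
    ∀ c ∈ E S, c = 1 ∨ c = e ∨ c = f ∨ c = e * f := by
  classical
  have hfin : Finite (E S) := Nat.finite_of_card_ne_zero (by omega)
  have := Fintype.ofFinite (E S)
  intro c hc
  by_contra hno
  push Not at hno
  obtain ⟨h1, h2, h3, h4⟩ := hno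
  have hef1 : e * f ≠ 1 := fun h => hef (by
    calc e = e * (f * f) := by rw [hf2, mul_one]
      _ = (e * f) * f := by group
      _ = f := by rw [h, one_mul])
  have hefe : e * f ≠ e := fun h => hf1 (by
    calc f = e⁻¹ * (e * f) := by group
      _ = 1 := by rw [h, inv_mul_cancel])
  have heff : e * f ≠ f := fun h => he1 (by
    calc e = e * f * f⁻¹ := by group
      _ = 1 := by rw [h, mul_inv_cancel])
  have h5 : ({1, ⟨e, he⟩, ⟨f, hf⟩, ⟨e * f, (E S).mul_mem he hf⟩, ⟨c, hc⟩} : Finset (E S)).card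
      = 5 := by
    rw [Finset.card_insert_of_notMem, Finset.card_insert_of_notMem, Finset.card_insert_of_notMem,
      Finset.card_insert_of_notMem, Finset.card_singleton]
    · simp only [Finset.mem_singleton, Subtype.mk.injEq]
      exact fun h => h4 h.symm
    · simp only [Finset.mem_insert, Finset.mem_singleton, Subtype.mk.injEq, not_or]
      exact ⟨fun h => heff h.symm, fun h => h3 h.symm⟩
    · simp only [Finset.mem_insert, Finset.mem_singleton, Subtype.mk.injEq, not_or]
      exact ⟨hef, fun h => hefe h.symm, fun h => h2 h.symm⟩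
    · simp only [Finset.mem_insert, Finset.mem_singleton, not_or]
      refine ⟨fun h => he1 (congrArg Subtype.val h).symm, fun h => hf1 (congrArg Subtype.val h).symm,
        fun h => hef1 (congrArg Subtype.val h).symm, fun h => h1 (congrArg Subtype.val h).symm⟩
  have h6 := Finset.card_le_univ
    ({1, ⟨e, he⟩, ⟨f, hf⟩, ⟨e * f, (E S).mul_mem he hf⟩, ⟨c, hc⟩} : Finset (E S))
  rw [h5, ← Nat.card_eq_fintype_card, hE] at h6
  omega

include h32 hE hZ4 in
/-- There is an abelian subgroup of index two. -/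
theorem exists_abelian_index_two :
    ∃ A : Subgroup Ω, A ≤ S ∧ A.relIndex S = 2 ∧ ∀ a ∈ A, ∀ b ∈ A, a * b = b * a := by
  by_cases hex : ∃ x ∈ S, x ∉ Z S ∧ (C S x).relIndex S ≠ 4
  · obtain ⟨x, hx, hxZ, hx4⟩ := hex
    obtain ⟨h1, h2⟩ := card_C_ge h32 hE hx
    have hne : (C S x).relIndex S ≠ 1 := fun h =>
      C_ne hx hxZ (le_antisymm (C_le x) (Subgroup.relIndex_eq_one.1 h))
    have h5 : (C S x).relIndex S = 2 := by
      generalize (C S x).relIndex S = r at *
      interval_cases r <;> omega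
    refine ⟨C S x, C_le x, h5, ?_⟩
    have h3 := card_eq_mul_relIndex (Z_le_C (S := S) hx)
    have h6 : (Z S).relIndex (C S x) = 4 := by
      rw [h5] at h1
      rw [hZ4] at h3
      omega
    have hK : ∀ k ∈ Subgroup.zpowers x ⊔ Z S, ∀ a ∈ C S x, k * a = a * k := by
      intro k hk a ha
      have h7 : Subgroup.zpowers x ⊔ Z S ≤ Subgroup.centralizer {a} := by
        refine sup_le (Subgroup.zpowers_le.2 ?_) fun e he => ?_
        · exact Subgroup.mem_centralizer_singleton_iff.2 (mem_C.1 ha).2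
        · exact Subgroup.mem_centralizer_singleton_iff.2 ((mem_Z.1 he).2 a ha.1).symm
      exact Subgroup.mem_centralizer_singleton_iff.1 (h7 hk)
    by_cases hxx : x * x ∈ Z S
    · -- `⟨x⟩ Z` has index two
      have hKM : Subgroup.zpowers x ⊔ Z S ≤ C S x :=
        sup_le (Subgroup.zpowers_le.2 (self_mem_C hx)) (Z_le_C hx)
      have h8 := Subgroup.relIndex_mul_relIndex (Z S) _ (C S x)
        (le_sup_right : Z S ≤ Subgroup.zpowers x ⊔ Z S) hKM
      have hxK : x ∈ Subgroup.zpowers x ⊔ Z S := Subgroup.mem_sup_left (Subgroup.mem_zpowers x)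
      have h9 : (Z S).relIndex (Subgroup.zpowers x ⊔ Z S) ≠ 1 := fun h =>
        hxZ (Subgroup.relIndex_eq_one.1 h hxK)
      rw [h6] at h8
      have h10 : (Subgroup.zpowers x ⊔ Z S).relIndex (C S x) = 1 ∨
          (Subgroup.zpowers x ⊔ Z S).relIndex (C S x) = 2 := by
        generalize (Z S).relIndex (Subgroup.zpowers x ⊔ Z S) = m at *
        generalize (Subgroup.zpowers x ⊔ Z S).relIndex (C S x) = n at *
        have h11 : n ∣ 4 := ⟨m, by rw [mul_comm]; exact h8.symm⟩
        have h12 : n ≤ 4 := Nat.le_of_dvd (by norm_num) h11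
        interval_cases n <;> omega
      rcases h10 with h | h
      · have h11 := Subgroup.relIndex_eq_one.1 h
        exact fun a ha b hb => hK a (h11 ha) b hb
      · exact comm_of_relIndex_two h hK
    · have h11 := le_of_relIndex_four (Z_le_C hx) h6 (self_mem_C hx) hxx
      exact fun a ha b hb => hK a (h11 ha) b hb
  · exfalso
    push Not at hex
    have hrel : ∀ x ∈ S, x ∉ Z S → (Z S).relIndex (C S x) = 2 := by
      intro x hx hxZ
      have h1 := hex x hx hxZ
      have h2 := (card_C_ge h32 hE hx).1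
      have h3 := card_eq_mul_relIndex (Z_le_C (S := S) hx)
      rw [h1] at h2
      rw [hZ4] at h3
      omega
    have hK : ∀ p ∈ S, p ∉ Z S → ∀ q ∈ S, p * q = q * p → q ∈ Z S ∨ p⁻¹ * q ∈ Z S := by
      intro p hp hpZ q hq hpq
      by_cases hqZ : q ∈ Z S
      · exact Or.inl hqZ
      · exact Or.inr (inv_mul_mem_of_relIndex_two (hrel p hp hpZ) (self_mem_C hp)
          (mem_C.2 ⟨hq, hpq⟩) hpZ hqZ)
    have hsq : ∀ x ∈ S, x * x ∈ Z S := by
      intro x hx
      by_cases hxZ : x ∈ Z S
      · exact (Z S).mul_mem hxZ hxZ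
      · rw [mul_mem_iff_of_relIndex_two (hrel x hx hxZ) (self_mem_C hx) (self_mem_C hx)]
    have hEZ : E S ≤ Z S := by
      refine E_le_of_comm fun a ha b hb => ?_
      have h1 := hsq (a * b) (S.mul_mem ha hb)
      have h2 := hsq a⁻¹ (S.inv_mem ha)
      have h3 := hsq b⁻¹ (S.inv_mem hb)
      have h4 := (mem_Z.1 h2).2 b⁻¹ (S.inv_mem hb)
      have h5 : a * b * a⁻¹ * b⁻¹ = a * b * (a * b) * (b⁻¹ * (a⁻¹ * a⁻¹)) * b⁻¹ := by
        simp [mul_assoc]
      rw [h5, h4]
      have h6 : a * b * (a * b) * (a⁻¹ * a⁻¹ * b⁻¹) * b⁻¹ =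
          a * b * (a * b) * (a⁻¹ * a⁻¹) * (b⁻¹ * b⁻¹) := by simp [mul_assoc]
      rw [h6]
      exact (Z S).mul_mem ((Z S).mul_mem h1 h2) h3
    -- commutators are involutions
    have hinvol : ∀ a ∈ S, ∀ b ∈ S, ∀ e : Ω, a * b = e * (b * a) → e * e = 1 := by
      intro a ha b hb e he
      have heE : e ∈ E S := by
        have : e = a * b * a⁻¹ * b⁻¹ := by rw [he]; group
        rw [this]
        exact comm_mem ha hb
      have h1 := (mem_Z.1 (hEZ heE)).2 a ha
      have h2 := (mem_Z.1 (hsq a ha)).2 b hb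
      have h3 : a * a * b = e * e * (b * (a * a)) := by
        calc a * a * b = a * (a * b) := by group
          _ = (a * e) * (b * a) := by rw [he]; group
          _ = e * (a * b) * a := by rw [h1]; group
          _ = e * e * (b * (a * a)) := by rw [he]; simp [mul_assoc]
      calc e * e = a * a * b * (b * (a * a))⁻¹ := by rw [h3]; group
        _ = 1 := by rw [h2, mul_inv_cancel]
    obtain ⟨x, hx, hxZ⟩ : ∃ x ∈ S, x ∉ Z S := by
      by_contra hno
      push Not at hno
      have hfin : Finite (Z S) := Nat.finite_of_card_ne_zero (by omega)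
      have h2 := Nat.card_le_card_of_injective _ (Subgroup.inclusion_injective
        (show S ≤ Z S from hno))
      omega
    have hxrel : (C S x).relIndex S = Nat.card (E S) := by rw [hex x hx hxZ, hE]
    have hfinE : Finite (E S) := Nat.finite_of_card_ne_zero (by omega)
    obtain ⟨e, he, he1⟩ : ∃ e ∈ E S, e ≠ 1 := by
      by_contra hno
      push Not at hno
      have h1 : E S = ⊥ := (Subgroup.eq_bot_iff_forall _).2 hno
      rw [h1, Subgroup.card_bot] at hE
      omega
    obtain ⟨y, hy, hyx⟩ := exists_comm_of_relIndex hx hxrel he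
    have hyx' : y * x = e * (x * y) := by
      calc y * x = y * x * y⁻¹ * y := by group
        _ = e * (x * y) := by rw [hyx]; group
    have he2 := hinvol y hy x hx e hyx'
    obtain ⟨f, hf, hf1, hef⟩ : ∃ f ∈ E S, f ≠ 1 ∧ e ≠ f := by
      by_contra hno
      push Not at hno
      have h1 : E S ≤ Subgroup.zpowers e := by
        intro f hf
        by_cases hf1 : f = 1
        · rw [hf1]
          exact Subgroup.one_mem _
        · rw [← hno f hf hf1]
          exact Subgroup.mem_zpowers e
      have hfinz : Finite (Subgroup.zpowers e) := finite_of_le (Subgroup.zpowers_le.2 (E_le he))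
      have h2 := Nat.card_le_card_of_injective _ (Subgroup.inclusion_injective h1)
      rw [Nat.card_zpowers, hE] at h2
      have h3 : orderOf e ∣ 2 := orderOf_dvd_of_pow_eq_one (by rw [pow_two, he2])
      have := Nat.le_of_dvd (by norm_num) h3
      omega
    obtain ⟨t, ht, htx⟩ := exists_comm_of_relIndex hx hxrel hf
    have htx' : t * x = f * (x * t) := by
      calc t * x = t * x * t⁻¹ * t := by group
        _ = f * (x * t) := by rw [htx]; group
    have hf2 := hinvol t ht x hx f htx'
    have heS := E_le he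
    have hfS := E_le hf
    have hec : ∀ s ∈ S, s * e = e * s := (mem_Z.1 (hEZ he)).2
    have hfc : ∀ s ∈ S, s * f = f * s := (mem_Z.1 (hEZ hf)).2
    have hyZ : y ∉ Z S := by
      intro h
      apply he1
      have h1 := (mem_Z.1 h).2 x hx
      calc e = e * (x * y) * (x * y)⁻¹ := by group
        _ = y * x * (x * y)⁻¹ := by rw [hyx']
        _ = 1 := by rw [h1, mul_inv_cancel]
    have htZ : t ∉ Z S := by
      intro h
      apply hf1
      have h1 := (mem_Z.1 h).2 x hx
      calc f = f * (x * t) * (x * t)⁻¹ := by group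
        _ = t * x * (x * t)⁻¹ := by rw [htx']
        _ = 1 := by rw [h1, mul_inv_cancel]
    -- `t` is not in `y Z`, `y⁻¹ t` does not commute with `x`
    have hcon1 : ∀ ζ ∈ Z S, t ≠ y * ζ := by
      rintro ζ hζ rfl
      apply hef
      have h1 := (mem_Z.1 hζ).2 x hx
      have h2 : y * ζ * x = e * (x * (y * ζ)) := by
        calc y * ζ * x = y * (x * ζ) := by rw [h1]; group
          _ = (y * x) * ζ := by group
          _ = e * (x * (y * ζ)) := by rw [hyx']; group
      rw [htx'] at h2
      exact (mul_right_cancel h2).symm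
    have hcon2 : ∀ ζ ∈ Z S, t ≠ ζ * x := by
      rintro ζ hζ rfl
      apply hf1
      have h1 := (mem_Z.1 hζ).2 x hx
      have h2 : ζ * x * x = 1 * (x * (ζ * x)) := by
        calc ζ * x * x = x * ζ * x := by rw [h1]
          _ = 1 * (x * (ζ * x)) := by group
      rw [htx'] at h2
      exact mul_right_cancel h2
    have hcon3 : ∀ ζ ∈ Z S, y ≠ ζ * x := by
      rintro ζ hζ rfl
      apply he1
      have h1 := (mem_Z.1 hζ).2 x hx
      have h2 : ζ * x * x = 1 * (x * (ζ * x)) := by
        calc ζ * x * x = x * ζ * x := by rw [h1]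
          _ = 1 * (x * (ζ * x)) := by group
      rw [hyx'] at h2
      exact mul_right_cancel h2
    have hcon4 : ∀ ζ ∈ Z S, t ≠ y * ζ * x := by
      rintro ζ hζ rfl
      apply hef
      have h1 := (mem_Z.1 hζ).2 x hx
      have h2 : y * ζ * x * x = e * (x * (y * ζ * x)) := by
        calc y * ζ * x * x = y * (ζ * x) * x := by group
          _ = y * (x * ζ) * x := by rw [h1]
          _ = (y * x) * (ζ * x) := by group
          _ = e * (x * (y * ζ * x)) := by rw [hyx']; group
      rw [htx'] at h2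
      exact (mul_right_cancel h2).symm
    -- the commutator of `y` and `t`
    obtain ⟨c, hc⟩ : ∃ c, c = y * t * y⁻¹ * t⁻¹ := ⟨_, rfl⟩
    have hcE : c ∈ E S := by rw [hc]; exact comm_mem hy ht
    have hyt : y * t = c * (t * y) := by rw [hc]; group
    rcases E_enum hE he hf he1 hf1 hef he2 hf2 c hcE with h | h | h | h
    · -- `c = 1`
      rw [h, one_mul] at hyt
      rcases hK y hy hyZ t ht hyt with h1 | h1
      · exact htZ h1
      · exact hcon1 _ h1 (by group)
    · -- `c = e`
      rw [h] at hyt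
      have hyxi : y * x⁻¹ = e * (x⁻¹ * y) := by
        calc y * x⁻¹ = e * e * (y * x⁻¹) := by rw [he2, one_mul]
          _ = e * (x⁻¹ * x) * (e * (y * x⁻¹)) := by group
          _ = e * x⁻¹ * (x * e) * y * x⁻¹ := by group
          _ = e * x⁻¹ * (e * (x * y)) * x⁻¹ := by rw [hec x hx]; group
          _ = e * (x⁻¹ * y) := by rw [← hyx']; group
      have h1 : y * (t * x⁻¹) = t * x⁻¹ * y := by
        calc y * (t * x⁻¹) = (y * t) * x⁻¹ := by group
          _ = e * t * (y * x⁻¹) := by rw [hyt]; group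
          _ = e * (t * e) * (x⁻¹ * y) := by rw [hyxi]; group
          _ = e * e * (t * x⁻¹ * y) := by rw [hec t ht]; group
          _ = t * x⁻¹ * y := by rw [he2, one_mul]
      rcases hK y hy hyZ _ (S.mul_mem ht (S.inv_mem hx)) h1 with h2 | h2
      · exact hcon2 _ h2 (by group)
      · exact hcon4 _ h2 (by group)
    · -- `c = f`
      rw [h] at hyt
      have htxi : t * x⁻¹ = f * (x⁻¹ * t) := by
        calc t * x⁻¹ = f * f * (t * x⁻¹) := by rw [hf2, one_mul]
          _ = f * (x⁻¹ * x) * (f * (t * x⁻¹)) := by group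
          _ = f * x⁻¹ * (x * f) * t * x⁻¹ := by group
          _ = f * x⁻¹ * (f * (x * t)) * x⁻¹ := by rw [hfc x hx]; group
          _ = f * (x⁻¹ * t) := by rw [← htx']; group
      have hty : t * y = f * (y * t) := by
        calc t * y = f * f * (t * y) := by rw [hf2, one_mul]
          _ = f * (y * t) := by rw [hyt]; group
      have h1 : t * (y * x⁻¹) = y * x⁻¹ * t := by
        calc t * (y * x⁻¹) = (t * y) * x⁻¹ := by group
          _ = f * y * (t * x⁻¹) := by rw [hty]; group
          _ = f * (y * f) * (x⁻¹ * t) := by rw [htxi]; group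
          _ = f * f * (y * x⁻¹ * t) := by rw [hfc y hy]; group
          _ = y * x⁻¹ * t := by rw [hf2, one_mul]
      rcases hK t ht htZ _ (S.mul_mem hy (S.inv_mem hx)) h1 with h2 | h2
      · exact hcon3 _ h2 (by group)
      · have h3 := (Z S).inv_mem h2
        have h4 := (mem_Z.1 h3).2 t ht
        refine hcon4 _ ((Z S).mul_mem h3 ((hsq x⁻¹ (S.inv_mem hx)))) ?_
        have h5 := (mem_Z.1 h3).2 y hy
        -- `t = y (t⁻¹ y x⁻¹)⁻¹ x⁻¹ x⁻¹ x`
        calc t = t * (t⁻¹ * (y * x⁻¹))⁻¹ * (t⁻¹ * (y * x⁻¹)) := by group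
          _ = (t⁻¹ * (y * x⁻¹))⁻¹ * t * (t⁻¹ * (y * x⁻¹)) := by rw [h4]
          _ = ((t⁻¹ * (y * x⁻¹))⁻¹ * y) * x⁻¹ := by group
          _ = (y * (t⁻¹ * (y * x⁻¹))⁻¹) * x⁻¹ := by rw [h5]
          _ = y * ((t⁻¹ * (y * x⁻¹))⁻¹ * (x⁻¹ * x⁻¹)) * x := by group
    · -- `c = e f`
      rw [h] at hyt
      have hefc : ∀ s ∈ S, s * (e * f) = e * f * s := fun s hs => by
        calc s * (e * f) = (s * e) * f := by group
          _ = e * (s * f) := by rw [hec s hs]; group
          _ = e * f * s := by rw [hfc s hs]; group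
      have hef2 : e * f * (e * f) = 1 := by
        calc e * f * (e * f) = e * (f * e) * f := by group
          _ = (e * e) * (f * f) := by rw [← hfc e heS]; group
          _ = 1 := by rw [he2, hf2, one_mul]
      have hty : t * y = e * f * (y * t) := by
        calc t * y = e * f * (e * f) * (t * y) := by rw [hef2, one_mul]
          _ = e * f * (y * t) := by rw [hyt]; group
      have h1 : x * y * (y * t) = y * t * (x * y) := by
        symm
        calc y * t * (x * y) = y * (t * x) * y := by group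
          _ = (y * f) * x * (t * y) := by rw [htx']; group
          _ = (y * f) * (x * (e * f)) * (y * t) := by rw [hty]; group
          _ = (f * y) * ((e * f) * x) * (y * t) := by rw [hfc y hy, hefc x hx]
          _ = f * (y * (e * f)) * x * (y * t) := by group
          _ = f * ((e * f) * y) * x * (y * t) := by rw [hefc y hy]
          _ = (f * (e * f)) * (y * x) * (y * t) := by group
          _ = ((e * f) * f) * (e * (x * y)) * (y * t) := by rw [hefc f hfS, hyx']
          _ = e * (f * f) * e * (x * y * (y * t)) := by group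
          _ = x * y * (y * t) := by rw [hf2, mul_one, he2, one_mul]
      have hxyZ : x * y ∉ Z S := by
        intro h2
        apply hyZ
        by_contra
        apply he1
        have h3 := (mem_Z.1 h2).2 x hx
        have h4 : x * y = y * x := by
          calc x * y = x * (x * y) * x⁻¹ * (x * y)⁻¹ * (x * y) := by rw [h3]; group
            _ = x * y := by rw [h3]; group
            _ = x⁻¹ * (x * (x * y)) := by group
            _ = x⁻¹ * (x * y * x) := by rw [h3]
            _ = y * x := by group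
        calc e = e * (x * y) * (x * y)⁻¹ := by group
          _ = y * x * (x * y)⁻¹ := by rw [hyx']
          _ = 1 := by rw [h4, mul_inv_cancel]
      rcases hK (x * y) (S.mul_mem hx hy) hxyZ (y * t) (S.mul_mem hy ht) h1 with h2 | h2
      · -- `y t ∈ Z`
        have h3 := (Z S).mul_mem ((Z S).inv_mem (hsq y hy)) h2
        have h4 := (mem_Z.1 h2).2 y⁻¹ (S.inv_mem hy)
        refine hcon1 _ ((Z S).mul_mem h2 (hsq y⁻¹ (S.inv_mem hy))) ?_
        calc t = y⁻¹ * (y * t) := by group
          _ = y * (y⁻¹ * (y⁻¹ * (y * t))) := by group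
          _ = y * (y⁻¹ * ((y * t) * y⁻¹)) := by rw [h4]
          _ = y * ((y⁻¹ * (y * t)) * y⁻¹) := by group
          _ = y * (y * t * y⁻¹ * y⁻¹) := by rw [h4]
          _ = y * (y * t * (y⁻¹ * y⁻¹)) := by group
      · -- `(x y)⁻¹ y t ∈ Z`
        have h3 := (mem_Z.1 h2).2 y⁻¹ (S.inv_mem hy)
        refine hcon2 _ ((Z S).mul_mem (hEZ he) h2) ?_
        have h4 := (mem_Z.1 h2).2 x hx
        have hyiy : y⁻¹ * x * y = e * x := by
          have h5 := hec y⁻¹ (S.inv_mem hy)
          calc y⁻¹ * x * y = y⁻¹ * (e * e) * (x * y) := by rw [he2]; group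
            _ = (y⁻¹ * e) * (e * (x * y)) := by group
            _ = (e * y⁻¹) * (y * x) := by rw [h5, hyx']
            _ = e * x := by group
        calc t = y⁻¹ * ((x * y) * ((x * y)⁻¹ * (y * t))) := by group
          _ = (y⁻¹ * x * y) * ((x * y)⁻¹ * (y * t)) := by group
          _ = e * (x * ((x * y)⁻¹ * (y * t))) := by rw [hyiy]; group
          _ = e * ((x * y)⁻¹ * (y * t)) * x := by rw [h4]; group

end Four

end Cfsg.Agent.H617.FusFour
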