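import Mathlib
import Cfsg.Agent.H617.FusAb

/-!
# Order `32`, `|[S, S]| = |Z(S)| = 4`: fusion
-/

set_option autoImplicit false

namespace Cfsg.Agent.H617.FusFour

open Cfsg Cfsg.FusionSystem Cfsg.Agent.H802 Cfsg.Agent.H617.FusInv Cfsg.Agent.H617.FusTwo

variable {Ω : Type*} [Group Ω] {S : Subgroup Ω}

section Elem

variable [Finite S] (hS : IsPGroup 2 S) (h32 : Nat.card S = 32) (hE : Nat.card (E S) = 4)
  (hZ4 : Nat.card (Z S) = 4) (hE2 : ∀ e ∈ E S, e * e = 1)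
  {A : Subgroup Ω} (hA : A ≤ S) (h2 : A.relIndex S = 2)
  (hab : ∀ a ∈ A, ∀ b ∈ A, a * b = b * a)

include h32 hZ4 in
omit [Finite S] in
theorem Z_ne : Z S ≠ S := by
  intro h
  rw [h, h32] at hZ4
  omega

include h32 h2 in
omit [Finite S] in
theorem exists_out : ∃ s ∈ S, s ∉ A := by
  by_contra hno
  push Not at hno
  have : A.relIndex S = 1 := Subgroup.relIndex_eq_one.2 hno
  omega

include h32 hE hZ4 hE2 hA h2 hab in
theorem E_eq_Z : E S = Z S := by
  have hEA := E_le_of_relIndex_two h2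
  obtain ⟨s, hs, hsA⟩ := exists_out h32 h2
  have h1 : E S ≤ Z S := by
    intro e he
    refine mem_Z_of_comm_out hA h2 hab (hEA he) hs hsA ?_
    have h3 := conj_E_out hA h2 hab hs hsA he
    calc s * e = s * e * s⁻¹ * s := by group
      _ = e⁻¹ * (e * e) * s := by rw [h3, hE2 e he, mul_one]
      _ = e * s := by group
  have hfin : Finite (Z S) := Nat.finite_of_card_ne_zero (by omega)
  exact Subgroup.eq_of_le_of_card_ge h1 (by rw [hE, hZ4])

include h32 hZ4 hA h2 hab in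
theorem card_C_out_eight {u : Ω} (hu : u ∈ S) (huA : u ∉ A) :
    Nat.card (C S u) = 8 ∧ (C S u).relIndex S = 4 := by
  have h1 := card_C_out hA h2 hab (Z_ne h32 hZ4) hu huA
  have h3 := card_eq_mul_relIndex (Z_le_C (S := S) hu)
  rw [h1, hZ4] at h3
  have h4 := card_eq_mul_relIndex (C_le (S := S) u)
  rw [h3, h32] at h4
  exact ⟨by omega, by omega⟩

/-- A map on `Q` of the form `q ↦ ζ(q) q`. -/
theorem exists_autInducedBy_of_agree {Q : Subgroup Ω} (hQ : Q ≤ S) {σ : MulAut Q} {x : Q}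
    (hfix : ∀ q : Q, (q : Ω) ∈ Z S → σ q = q) (hZQ : Z S ≤ Q)
    (hgen : ∀ q : Q, (q : Ω) ∈ Z S ∨ (x : Ω)⁻¹ * q ∈ Z S) {h : Ω} (hh : h ∈ S)
    (hx : ((σ x : Q) : Ω) = h * x * h⁻¹) : σ ∈ autInducedBy S Q := by
  refine (mem_autInducedBy_iff S Q σ).2 ⟨h, hh, fun q => ?_⟩
  rcases hgen q with hq | hq
  · rw [hfix q hq, (mem_Z.1 hq).2 h hh, mul_inv_cancel_right]
  · have h1 : (⟨(x : Ω)⁻¹ * q, hZQ hq⟩ : Q) = x⁻¹ * q := rfl
    have h3 : q = x * ⟨(x : Ω)⁻¹ * q, hZQ hq⟩ := by rw [h1]; group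
    have h4 := hfix ⟨(x : Ω)⁻¹ * q, hZQ hq⟩ hq
    have h5 := (mem_Z.1 hq).2 h hh
    rw [h3, map_mul, h4, Subgroup.coe_mul, Subgroup.coe_mul, hx]
    calc h * (x : Ω) * h⁻¹ * ((x : Ω)⁻¹ * q)
        = h * x * h⁻¹ * ((x : Ω)⁻¹ * q * h) * h⁻¹ := by group
      _ = h * x * h⁻¹ * (h * ((x : Ω)⁻¹ * q)) * h⁻¹ := by rw [h5]
      _ = h * (x * ((x : Ω)⁻¹ * q)) * h⁻¹ := by group

include hS h32 hE hZ4 hE2 hA h2 hab in
theorem not_mem_A_aut {F : FusionSystem S} (hF : F.IsSaturated 2) {Q : Subgroup Ω}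
    (hQn : F.IsFullyNormalized Q) (hQc : F.IsCentric Q)
    {α : MulAut Q} (hα : α ∈ F.autGroup Q) (hext : ¬ Extends F Q α) {x : Q}
    (hx : (x : Ω) ∉ A) : ((α x : Q) : Ω) ∉ A := by
  have hp : Fact (Nat.Prime 2) := ⟨Nat.prime_two⟩
  have hQS := hQc.1
  have hfin : Finite Q := finite_of_le hQS
  have hfinM : Finite (MulAut Q) := inferInstance
  have hEZ := E_eq_Z h32 hE hZ4 hE2 hA h2 hab
  have hZA := Z_le_A hA h2 hab (Z_ne h32 hZ4)
  have hZ2 : ∀ ζ ∈ Z S, ζ * ζ = 1 := fun ζ hζ => hE2 ζ (by rw [hEZ]; exact hζ)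
  have hZQ := Z_le_of_isCentric hQc
  have hxS : (x : Ω) ∈ S := hQS x.2
  have hxZ : (x : Ω) ∉ Z S := fun h => hx (hZA h)
  obtain ⟨hC8, hC4⟩ := card_C_out_eight h32 hZ4 hA h2 hab hxS hx
  have hrelC := card_C_out hA h2 hab (Z_ne h32 hZ4) hxS hx
  have hCQ : C S (x : Ω) ≤ Q := by
    intro y hy
    by_cases hyZ : y ∈ Z S
    · exact hZQ hyZ
    · have h3 := inv_mul_mem_of_relIndex_two hrelC (self_mem_C hxS) hy hxZ hyZ
      have h4 : y = x * ((x : Ω)⁻¹ * y) := by group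
      rw [h4]
      exact Q.mul_mem x.2 (hZQ h3)
  have h1 := card_eq_mul_relIndex hCQ
  have h3 := card_eq_mul_relIndex hQS
  rw [hC8] at h1
  rw [h32] at h3
  intro hαx
  have hcases : Nat.card Q = 8 ∨ Q.relIndex S = 2 ∨ Q.relIndex S = 1 := by
    generalize (C S (x : Ω)).relIndex Q = m at *
    generalize Q.relIndex S = n at *
    have h5 : n ∣ 4 := ⟨m, by rw [h1] at h3; nlinarith⟩
    have h4 : n ≤ 4 := Nat.le_of_dvd (by norm_num) h5
    interval_cases n <;> omega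
  -- the Sylow property
  obtain ⟨-, R, hR⟩ := isFullyAutomized_of_isFullyNormalized hS hF hQn
  have hsyl : ∀ τ ∈ F.autGroup Q, τ * τ = 1 →
      (∀ σ ∈ autInducedBy S Q, τ * σ * τ⁻¹ ∈ autInducedBy S Q) → τ ∈ autInducedBy S Q := by
    intro τ hτ hττ hn
    have h5 := mem_sylow_of_normalizes R (τ := ⟨τ, hτ⟩) (Subtype.ext hττ) (fun σ hσ => by
      rw [hR] at hσ ⊢
      exact hn _ hσ)
    rw [hR] at h5
    exact h5
  -- elements of `S` act trivially on `Q / Z`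
  have hcm : ∀ h ∈ S, ∀ q : Q, h * (q : Ω) * h⁻¹ * (q : Ω)⁻¹ ∈ Z S := fun h hh q => by
    rw [← hEZ]
    exact comm_mem hh (hQS q.2)
  have hnorm : S ≤ Subgroup.normalizer (Q : Set Ω) := by
    have hcj : ∀ s ∈ S, ∀ q ∈ Q, s * q * s⁻¹ ∈ Q := by
      intro s hs q hq
      have h5 : s * q * s⁻¹ = (s * q * s⁻¹ * q⁻¹) * q := by group
      rw [h5]
      exact Q.mul_mem (hZQ (hcm s hs ⟨q, hq⟩)) hq
    intro s hs
    rw [Subgroup.mem_normalizer_iff]
    refine fun q => ⟨hcj s hs q, fun hq => ?_⟩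
    have h5 := hcj s⁻¹ (S.inv_mem hs) _ hq
    have h6 : s⁻¹ * (s * q * s⁻¹) * s⁻¹⁻¹ = q := by group
    rwa [h6] at h5
  rcases hcases with h8 | h16 | h32'
  · -- `Q = C_S(x)`
    have hQC : C S (x : Ω) = Q := Subgroup.eq_of_le_of_card_ge hCQ (by rw [h8, hC8])
    have hQrel : (Z S).relIndex Q = 2 := by rw [← hQC]; exact hrelC
    have hQA : ∀ q ∈ Q, q ∈ A → q ∈ Z S := fun q hq hqA => by
      rw [← hQC] at hq
      exact mem_Z_of_comm_out hA h2 hab hqA hxS hx (mem_C.1 hq).2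
    have hαxZ : ((α x : Q) : Ω) ∈ Z S := hQA _ (α x).2 hαx
    have hgen : ∀ q : Q, (q : Ω) ∈ Z S ∨ (x : Ω)⁻¹ * q ∈ Z S := by
      intro q
      by_cases hq : (q : Ω) ∈ Z S
      · exact Or.inl hq
      · exact Or.inr (inv_mul_mem_of_relIndex_two hQrel x.2 q.2 hxZ hq)
    have hQab : ∀ a b : Q, a * b = b * a := by
      have h5 := comm_of_relIndex_two hQrel (fun n hn a ha => ((mem_Z.1 hn).2 a (hQS ha)).symm)
      exact fun a b => Subtype.ext (h5 a a.2 b b.2)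
    -- `Q` is elementary abelian
    have hQ2 : ∀ q : Q, q * q = 1 := by
      have hx2 : x * x = 1 := by
        apply α.injective
        rw [map_mul, map_one]
        exact Subtype.ext (hZ2 _ hαxZ)
      intro q
      rcases hgen q with hq | hq
      · exact Subtype.ext (hZ2 _ hq)
      · have h5 : (x⁻¹ * q) * (x⁻¹ * q) = 1 := Subtype.ext (hZ2 _ hq)
        calc q * q = (x * x) * ((x⁻¹ * q) * (x⁻¹ * q)) := by
              rw [hQab (x⁻¹ * q) (x⁻¹ * q), show (x * x) * ((x⁻¹ * q) * (x⁻¹ * q)) =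
                x * (q * (x⁻¹ * q)) by group, ← mul_assoc q, hQab q x⁻¹]
              group
          _ = 1 := by rw [hx2, h5, one_mul]
    -- an element of `Z` leaving `Z`
    obtain ⟨q₀, hq₀, hαq₀⟩ : ∃ q : Q, (q : Ω) ∈ Z S ∧ ((α q : Q) : Ω) ∉ Z S := by
      by_contra hno
      push Not at hno
      exact hxZ ((mem_iff_of_maps (X := (Z S : Set Ω)) (α := α) hno x).2 hαxZ)
    have hq₀1 : q₀ ≠ 1 := by
      rintro rfl
      apply hαq₀
      rw [map_one]
      exact (Z S).one_mem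
    -- an element of `Z` staying in `Z`
    obtain ⟨e, heZ, he1, hαe⟩ : ∃ e : Q, (e : Ω) ∈ Z S ∧ e ≠ 1 ∧ ((α e : Q) : Ω) ∈ Z S := by
      obtain ⟨q₁, hq₁, hq₁1, hq₁0⟩ : ∃ q : Q, (q : Ω) ∈ Z S ∧ q ≠ 1 ∧ q ≠ q₀ := by
        by_contra hno
        push Not at hno
        have h5 : (Z S).subgroupOf Q ≤ Subgroup.zpowers q₀ := by
          intro q hq
          by_cases hq1 : q = 1
          · rw [hq1]
            exact Subgroup.one_mem _
          · rw [hno q hq hq1]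
            exact Subgroup.mem_zpowers q₀
        have h6 := Nat.card_le_card_of_injective _ (Subgroup.inclusion_injective h5)
        rw [Nat.card_congr (Subgroup.subgroupOfEquivOfLe hZQ).toEquiv, hZ4, Nat.card_zpowers] at h6
        have h7 : orderOf q₀ ∣ 2 := orderOf_dvd_of_pow_eq_one (by rw [pow_two, hQ2])
        have := Nat.le_of_dvd (by norm_num) h7
        omega
      by_cases hαq₁ : ((α q₁ : Q) : Ω) ∈ Z S
      · exact ⟨q₁, hq₁, hq₁1, hαq₁⟩
      · refine ⟨q₀⁻¹ * q₁, (Z S).mul_mem ((Z S).inv_mem hq₀) hq₁, ?_, ?_⟩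
        · intro h
          apply hq₁0
          calc q₁ = q₀ * (q₀⁻¹ * q₁) := by group
            _ = q₀ := by rw [h, mul_one]
        · rw [map_mul, map_inv]
          exact inv_mul_mem_of_relIndex_two hQrel (α q₀).2 (α q₁).2 hαq₀ hαq₁
    obtain ⟨g, hg, hgx⟩ := exists_comm_of_relIndex hxS (hC4.trans hE.symm)
      (show ((α e : Q) : Ω) ∈ E S by rw [hEZ]; exact hαe)
    obtain ⟨β, hβF, hβS, hβ⟩ := exists_conjAut_mem (F := F) hQS hg (hnorm hg)
    -- the action of `β`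
    have hβ1 : ∀ q : Q, (q : Ω) ∈ Z S → β q = q := fun q hq => Subtype.ext (by
      rw [hβ, (mem_Z.1 hq).2 g hg, mul_inv_cancel_right])
    have hβx : β x = α e * x := Subtype.ext (by rw [hβ, hgx]; rfl)
    have hβ2 : ∀ q : Q, (q : Ω) ∉ Z S → β q = α e * q := by
      intro q hq
      have h5 : (x : Ω)⁻¹ * q ∈ Z S := (hgen q).resolve_left hq
      have h6 := hβ1 (x⁻¹ * q) h5
      calc β q = β (x * (x⁻¹ * q)) := by congr 1; group
        _ = β x * β (x⁻¹ * q) := map_mul _ _ _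
        _ = α e * q := by rw [hβx, h6]; group
    obtain ⟨τ, hτ⟩ : ∃ τ : MulAut Q, τ = α⁻¹ * β * α := ⟨_, rfl⟩
    have hτF : τ ∈ F.autGroup Q := by
      rw [hτ]
      exact Subgroup.mul_mem _ (Subgroup.mul_mem _ (Subgroup.inv_mem _ hα) hβF) hα
    have hτa : ∀ q : Q, τ q = α⁻¹ (β (α q)) := fun q => by rw [hτ]; rfl
    have hτ1 : ∀ q : Q, ((α q : Q) : Ω) ∈ Z S → τ q = q := fun q hq => by
      rw [hτa, hβ1 _ hq, MulAut.inv_apply_self]
    have hτ2 : ∀ q : Q, ((α q : Q) : Ω) ∉ Z S → τ q = e * q := fun q hq => by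
      rw [hτa, hβ2 _ hq, ← map_mul, MulAut.inv_apply_self]
    have hτZ : ∀ q : Q, (q : Ω) ∈ Z S → ((τ q : Q) : Ω) ∈ Z S := by
      intro q hq
      by_cases h5 : ((α q : Q) : Ω) ∈ Z S
      · rw [hτ1 q h5]
        exact hq
      · rw [hτ2 q h5]
        exact (Z S).mul_mem heZ hq
    have hττ : τ * τ = 1 := by
      apply MulEquiv.ext
      intro q
      change τ (τ q) = q
      by_cases h5 : ((α q : Q) : Ω) ∈ Z S
      · rw [hτ1 q h5, hτ1 q h5]
      · rw [hτ2 q h5, map_mul, hτ1 e hαe, hτ2 q h5, ← mul_assoc, hQ2 e, one_mul]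
    have hτi : τ⁻¹ = τ := by
      calc τ⁻¹ = τ⁻¹ * (τ * τ) := by rw [hττ, mul_one]
        _ = τ := by group
    have hmem := hsyl τ hτF hττ (fun σ hσ => by
      obtain ⟨h, hh, hσh⟩ := (mem_autInducedBy_iff S Q σ).1 hσ
      have hσ1 : ∀ q : Q, (q : Ω) ∈ Z S → σ q = q := fun q hq => Subtype.ext (by
        rw [hσh, (mem_Z.1 hq).2 h hh, mul_inv_cancel_right])
      have hfix : ∀ q : Q, (q : Ω) ∈ Z S → (τ * σ * τ⁻¹) q = q := by
        intro q hq
        rw [hτi]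
        change τ (σ (τ q)) = q
        rw [hσ1 _ (hτZ q hq)]
        exact DFunLike.congr_fun hττ q
      have hxx : (((τ * σ * τ⁻¹) x : Q) : Ω) ∉ Z S := by
        intro h5
        apply hxZ
        exact (mem_iff_of_maps (X := (Z S : Set Ω)) (α := τ * σ * τ⁻¹) (fun q hq => by
          have := hfix q hq
          rw [this]
          exact hq) x).2 h5
      have h5 : ((x : Ω)⁻¹ * ((τ * σ * τ⁻¹) x : Q)) ∈ Z S := (hgen _).resolve_left hxx
      obtain ⟨h', hh', hh'x⟩ := exists_comm_of_relIndex hxS (hC4.trans hE.symm)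
        (show (x : Ω)⁻¹ * ((τ * σ * τ⁻¹) x : Q) ∈ E S by rw [hEZ]; exact h5)
      refine exists_autInducedBy_of_agree hQS hfix hZQ hgen hh' ?_
      have h6 := (mem_Z.1 h5).2 x hxS
      rw [hh'x, ← h6]
      group)
    obtain ⟨h, hh, hτh⟩ := (mem_autInducedBy_iff S Q τ).1 hmem
    have h5 : τ q₀ = q₀ := Subtype.ext (by
      rw [hτh, (mem_Z.1 hq₀).2 h hh, mul_inv_cancel_right])
    rw [hτ2 q₀ hαq₀] at h5
    exact he1 (mul_eq_right.1 h5)
  · -- index two
    have hQ16 : Nat.card Q = 16 := by rw [h16] at h3; omega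
    have hcen : ∀ y : Q, (y : Ω) ∈ Z S ↔ ∀ q : Q, q * y = y * q := by
      intro y
      constructor
      · exact fun h q => Subtype.ext ((mem_Z.1 h).2 q (hQS q.2))
      · intro h
        by_cases hyA : (y : Ω) ∈ A
        · exact mem_Z_of_comm_out hA h2 hab hyA hxS hx (congrArg Subtype.val (h x))
        · exfalso
          have h5 : Q ≤ C S (y : Ω) := fun q hq =>
            mem_C.2 ⟨hQS hq, (congrArg Subtype.val (h ⟨q, hq⟩)).symm⟩
          have hfinC : Finite (C S (y : Ω)) := finite_of_le (C_le _)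
          have h6 := Nat.card_le_card_of_injective _ (Subgroup.inclusion_injective h5)
          rw [hQ16, (card_C_out_eight h32 hZ4 hA h2 hab (hQS y.2) hyA).1] at h6
          omega
    have hαZ : ∀ (β : MulAut Q) (y : Q), (y : Ω) ∈ Z S → ((β y : Q) : Ω) ∈ Z S := by
      intro β y hy
      rw [hcen] at hy ⊢
      intro q
      have h5 := congrArg β (hy (β⁻¹ q))
      rw [map_mul, map_mul, MulAut.apply_inv_self] at h5
      exact h5
    obtain ⟨g, hg, hgQ⟩ : ∃ g ∈ S, g ∉ Q := exists_out h32 h16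
    obtain ⟨β, hβF, hβS, hβ⟩ := exists_conjAut_mem (F := F) hQS hg (hnorm hg)
    apply hext
    refine extends_of_conj_mem (isReceptive_of_isFullyNormalized hS hF hQn) hα hg hgQ hβ ?_
    -- all induced automorphisms act trivially on `Z` and `Q / Z`
    have hind : ∀ σ ∈ autInducedBy S Q, (∀ q : Q, (q : Ω) ∈ Z S → σ q = q) ∧
        ∀ q : Q, ((σ q * q⁻¹ : Q) : Ω) ∈ Z S := by
      intro σ hσ
      obtain ⟨h, hh, hσh⟩ := (mem_autInducedBy_iff S Q σ).1 hσ
      refine ⟨fun q hq => Subtype.ext (by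
        rw [hσh, (mem_Z.1 hq).2 h hh, mul_inv_cancel_right]), fun q => ?_⟩
      rw [Subgroup.coe_mul, hσh]
      exact hcm h hh q
    obtain ⟨hβ1, hβ2⟩ := hind β hβS
    obtain ⟨τ, hτ⟩ : ∃ τ : MulAut Q, τ = α * β * α⁻¹ := ⟨_, rfl⟩
    have hτa : ∀ q : Q, τ q = α (β (α⁻¹ q)) := fun q => by rw [hτ]; rfl
    have hτ1 : ∀ q : Q, (q : Ω) ∈ Z S → τ q = q := by
      intro q hq
      rw [hτa, hβ1 _ (hαZ α⁻¹ q hq), MulAut.apply_inv_self]
    have hτ2 : ∀ q : Q, ((τ q * q⁻¹ : Q) : Ω) ∈ Z S := by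
      intro q
      have h5 : τ q * q⁻¹ = α (β (α⁻¹ q) * (α⁻¹ q)⁻¹) := by
        rw [map_mul, map_inv, MulAut.apply_inv_self, hτa]
      rw [h5]
      exact hαZ α _ (hβ2 _)
    have hcommZ : ∀ q : Q, (q : Ω) ∈ Z S → ∀ r : Q, r * q = q * r := fun q hq => (hcen q).1 hq
    rw [← hτ]
    refine hsyl τ ?_ ?_ fun σ hσ => ?_
    · rw [hτ]
      exact Subgroup.mul_mem _ (Subgroup.mul_mem _ hα hβF) (Subgroup.inv_mem _ hα)
    · apply MulEquiv.ext
      intro q
      change τ (τ q) = q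
      have h5 := hτ2 q
      have h6 : τ q = (τ q * q⁻¹) * q := by group
      have h7 : (τ q * q⁻¹) * (τ q * q⁻¹) = 1 := Subtype.ext (hZ2 _ h5)
      calc τ (τ q) = τ ((τ q * q⁻¹) * q) := by rw [← h6]
        _ = τ (τ q * q⁻¹) * τ q := map_mul _ _ _
        _ = (τ q * q⁻¹) * τ q := by rw [hτ1 _ h5]
        _ = (τ q * q⁻¹) * (τ q * q⁻¹) * q := by group
        _ = q := by rw [h7, one_mul]
    · obtain ⟨hσ1, hσ2⟩ := hind σ hσ
      have h5 : τ * σ = σ * τ := by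
        apply MulEquiv.ext
        intro q
        change τ (σ q) = σ (τ q)
        have h6 : σ q = (σ q * q⁻¹) * q := by group
        have h7 : τ q = (τ q * q⁻¹) * q := by group
        calc τ (σ q) = τ ((σ q * q⁻¹) * q) := by rw [← h6]
          _ = (σ q * q⁻¹) * τ q := by rw [map_mul, hτ1 _ (hσ2 q)]
          _ = (σ q * q⁻¹) * (τ q * q⁻¹) * q := by group
          _ = (τ q * q⁻¹) * (σ q * q⁻¹) * q := by rw [hcommZ _ (hτ2 q)]
          _ = (τ q * q⁻¹) * σ q := by group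
          _ = σ ((τ q * q⁻¹) * q) := by rw [map_mul, hσ1 _ (hτ2 q)]
          _ = σ (τ q) := by rw [← h7]
      rw [h5, mul_inv_cancel_right]
      exact hσ
  · have hQ : Q = S := le_antisymm hQS (Subgroup.relIndex_eq_one.1 h32')
    subst hQ
    -- `α⁻¹(A) ≤ C_S(x)`
    have hA16 : Nat.card A = 16 := by
      have h5 := card_eq_mul_relIndex hA
      rw [h32, h2] at h5
      omega
    have hmap : ∀ a : A, ((α⁻¹ ⟨a, hA a.2⟩ : Q) : Ω) ∈ C Q (x : Ω) := by
      intro a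
      refine mem_C.2 ⟨(α⁻¹ ⟨a, hA a.2⟩).2, ?_⟩
      have h5 := hab _ hαx a a.2
      have h6 : α x * ⟨a, hA a.2⟩ = ⟨a, hA a.2⟩ * α x := Subtype.ext h5
      have h7 := congrArg (fun t => (α⁻¹ : MulAut Q) t) h6
      simp only [map_mul, MulAut.inv_apply_self] at h7
      exact congrArg Subtype.val h7
    have hfinC : Finite (C Q (x : Ω)) := finite_of_le (C_le _)
    have h5 := Nat.card_le_card_of_injective
      (fun a : A => (⟨(α⁻¹ ⟨a, hA a.2⟩ : Q), hmap a⟩ : C Q (x : Ω))) (by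
        intro a b h
        have h6 : ((α⁻¹ ⟨a, hA a.2⟩ : Q) : Ω) = (α⁻¹ ⟨b, hA b.2⟩ : Q) :=
          congrArg (fun t : C Q (x : Ω) => (t : Ω)) h
        have h7 := (α⁻¹ : MulAut Q).injective (Subtype.ext h6)
        exact Subtype.ext (congrArg (fun t : Q => (t : Ω)) h7))
    rw [hA16, hC8] at h5
    omega

include hS h32 hE hZ4 hE2 hA h2 hab in
/-- **Order `32`, `[S, S]` elementary abelian of order `4`, `|Z(S)| = 4`.** -/
theorem exists_of_elem {F : FusionSystem S} (hF : F.IsSaturated 2) :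
    ∃ u ∈ S, ∀ v, F.IsConjElt u v → v ∈ S ∧ Nat.card (C S v) = 8 := by
  have hp : Fact (Nat.Prime 2) := ⟨Nat.prime_two⟩
  obtain ⟨u, hu, huA⟩ := exists_out h32 h2
  refine ⟨u, hu, fun v hv => ?_⟩
  have h1 := mem_iff_of_isConjElt_of_not_extends hS hF {x | x ∈ S ∧ x ∉ A}
    (fun Q hQn hQc α hα hext => by
    have hfin : Finite Q := finite_of_le hQc.1
    have hfinM : Finite (MulAut Q) := inferInstance
    intro x
    constructor
    · exact fun hx => ⟨hQc.1 (α x).2, not_mem_A_aut hS h32 hE hZ4 hE2 hA h2 hab hF hQn hQc hα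
        hext hx.2⟩
    · intro hx
      refine ⟨hQc.1 x.2, fun hxA => ?_⟩
      -- use the other direction through powers of `α`
      by_contra
      have hext' : ∀ n : ℕ, (∀ y : Q, (y : Ω) ∉ A → (((α ^ n) y : Q) : Ω) ∉ A) := by
        intro n
        induction n with
        | zero => intro y hy; simpa using hy
        | succ n ih =>
          intro y hy
          rw [pow_succ']
          exact not_mem_A_aut hS h32 hE hZ4 hE2 hA h2 hab hF hQn hQc hα hext (ih y hy)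
      obtain ⟨n, hn, hn1⟩ := (isOfFinOrder_of_finite α).exists_pow_eq_one
      obtain ⟨m, rfl⟩ : ∃ m, n = m + 1 := ⟨n - 1, by omega⟩
      have h2 := hext' m _ hx.2
      rw [← MulAut.mul_apply, ← pow_succ, hn1] at h2
      exact h2 hxA) hv
  obtain ⟨hvS, hvA⟩ := h1.1 ⟨hu, huA⟩
  exact ⟨hvS, (card_C_out_eight h32 hZ4 hA h2 hab hvS hvA).1⟩

end Elem

end Cfsg.Agent.H617.FusFour
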