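import Mathlib
import Cfsg.Agent.H617.FusAbTwo

/-!
# Order `32`, `[S, S]` cyclic of order `4`, `|Z(S)| = 4`
-/

set_option autoImplicit false

namespace Cfsg.Agent.H617.FusFour

open Cfsg Cfsg.FusionSystem Cfsg.Agent.H802 Cfsg.Agent.H617.FusInv Cfsg.Agent.H617.FusTwo

variable {Ω : Type*} [Group Ω] {S : Subgroup Ω}

/-- Conjugate central elements are conjugate under `Aut_F(S)`. -/
theorem exists_aut_of_central {p : ℕ} [Fact p.Prime] [Finite S] (hS : IsPGroup p S)
    {F : FusionSystem S} (hF : F.IsSaturated p) {c z : Ω} (hc : c ∈ Z S) (hz : z ∈ Z S)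
    {P : Subgroup Ω} {φ : P →* Ω} (hφ : φ ∈ F.Hom P) (hcP : c ∈ P) (hφc : φ ⟨c, hcP⟩ = z) :
    ∃ α ∈ F.autGroup S, ((α ⟨c, hc.1⟩ : S) : Ω) = z := by
  have hPS := hom_le hφ
  have hle : Subgroup.zpowers c ≤ P := Subgroup.zpowers_le.2 hcP
  have hφ' := restrict_mem hφ hle
  set φ' := φ.comp (Subgroup.inclusion hle) with hφ'def
  have hcS : Subgroup.zpowers c ≤ S := hle.trans hPS
  have hval : φ' ⟨c, Subgroup.mem_zpowers c⟩ = z := hφc
  have hrange : φ'.range = Subgroup.zpowers z := by
    ext y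
    constructor
    · rintro ⟨⟨_, n, rfl⟩, rfl⟩
      refine ⟨n, ?_⟩
      change z ^ n = _
      rw [← hval, ← map_zpow]
      rfl
    · rintro ⟨n, rfl⟩
      refine ⟨⟨c, Subgroup.mem_zpowers c⟩ ^ n, ?_⟩
      rw [map_zpow, hval]
  have hcen : ∀ y ∈ Z S, centralizerIn S (Subgroup.zpowers y) = S := by
    intro y hy
    refine le_antisymm inf_le_left fun s hs => mem_C.2 ⟨hs, ((mem_Z.1 hy).2 s hs).symm⟩
  have hfc : F.IsFullyCentralized (Subgroup.zpowers z) := by
    refine ⟨Subgroup.zpowers_le.2 hz.1, fun Q hQ => ?_⟩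
    rw [hcen z hz]
    exact Nat.card_le_card_of_injective _ (Subgroup.inclusion_injective
      (inf_le_left : centralizerIn S Q ≤ S))
  obtain ⟨ψ, hψ, hψe⟩ := (isReceptive_of_isFullyCentralized hS hF hfc).2 _ φ' hφ' hrange
  have hext : extender S (Subgroup.zpowers c) φ' = S := by
    refine le_antisymm (extender_le _ _ _) ?_
    conv_lhs => rw [← hcen c hc]
    exact centralizerIn_le_extender S _ φ'
  have hψ' : ψ.comp (Subgroup.inclusion hext.ge) ∈ F.Hom S := restrict_mem hψ hext.ge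
  obtain ⟨α, hα, hαe⟩ := exists_aut hψ' (range_eq_of_mapsTo hψ' fun x => hom_apply_mem hψ' x)
  refine ⟨α, hα, ?_⟩
  rw [hαe]
  change ψ ⟨c, _⟩ = z
  rw [hψe c (Subgroup.mem_zpowers c), hval]

theorem orderOf_of_isConjElt {F : FusionSystem S} {x y : Ω} (h : F.IsConjElt x y) :
    orderOf y = orderOf x := by
  obtain ⟨φ, hφ, rfl⟩ := h
  rw [orderOf_injective φ (F.injective_of_mem hφ)]
  exact (orderOf_injective (Subgroup.zpowers x).subtype Subtype.val_injective
    (⟨x, Subgroup.mem_zpowers x⟩ : Subgroup.zpowers x)).symm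

theorem mem_of_isConjElt {F : FusionSystem S} {x y : Ω} (h : F.IsConjElt x y) : y ∈ S := by
  obtain ⟨φ, hφ, rfl⟩ := h
  exact hom_apply_mem hφ _

theorem orderOf_eight {u : Ω} (h4 : u ^ 4 ≠ 1) (h8 : u ^ 8 = 1) : orderOf u = 8 := by
  have hp : Fact (Nat.Prime 2) := ⟨Nat.prime_two⟩
  have := orderOf_eq_prime_pow (p := 2) (n := 2) (x := u) (by norm_num; exact h4)
    (by norm_num; exact h8)
  rw [this]
  norm_num

section Cyc

variable [Finite S] (hS : IsPGroup 2 S) (h32 : Nat.card S = 32) (hE : Nat.card (E S) = 4)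
  (hZ4 : Nat.card (Z S) = 4) {w : Ω} (hw : w ∈ E S) (hw2 : w * w ≠ 1)
  {A : Subgroup Ω} (hA : A ≤ S) (h2 : A.relIndex S = 2)
  (hab : ∀ a ∈ A, ∀ b ∈ A, a * b = b * a)

include hS h32 hE hZ4 hw hw2 hA h2 hab in
/-- **Order `32`, `[S, S]` cyclic of order `4`, `|Z(S)| = 4`.** -/
theorem exists_of_cyc {F : FusionSystem S} (hF : F.IsSaturated 2) :
    (∃ u ∈ S, ∀ v, F.IsConjElt u v → v ∈ S ∧ Nat.card (C S v) = 8) ∨
    (∃ u ∈ S, orderOf u = 8 ∧ Nat.card (C S u) = 16 ∧
      ∃ s ∈ S, s * u * s⁻¹ = u⁻¹ ∨ s * u * s⁻¹ = u ^ 3) := by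
  have hp : Fact (Nat.Prime 2) := ⟨Nat.prime_two⟩
  have hZA := Z_le_A hA h2 hab (Z_ne h32 hZ4)
  have hEA := E_le_of_relIndex_two h2
  obtain ⟨s, hs, hsA⟩ := exists_out h32 h2
  obtain ⟨a, ha, hwa⟩ := exists_comm_out hA h2 hab hs hsA hw
  obtain ⟨hEall, hw4, -⟩ := E_cyclic hE hw hw2
  have hwwZ := ww_mem_Z hE hw hw2
  have hwA : w ∈ A := hEA hw
  have hsa : s * a * s⁻¹ = w * a := by rw [hwa]; group
  have hsw : s * w * s⁻¹ = w⁻¹ := conj_E_out hA h2 hab hs hsA hw
  have hwa' : w * a = a * w := hab w hwA a ha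
  have haaZ : a * a ∉ Z S := by
    intro h
    apply hw2
    have h1 := (mem_Z.1 h).2 s hs
    have h3 : w * a * (w * a) = a * a := by
      rw [← hsa]
      calc s * a * s⁻¹ * (s * a * s⁻¹) = s * (a * a) * s⁻¹ := by group
        _ = a * a := by rw [h1, mul_inv_cancel_right]
    have h4 : w * a * (w * a) = w * w * (a * a) := by
      calc w * a * (w * a) = w * (a * w) * a := by simp [mul_assoc]
        _ = w * (w * a) * a := by rw [hwa']
        _ = w * w * (a * a) := by simp [mul_assoc]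
    rw [h4] at h3
    exact mul_eq_right.1 h3
  have haZ : a ∉ Z S := fun h => haaZ ((Z S).mul_mem h h)
  have hA16 : Nat.card A = 16 := by
    have h5 := card_eq_mul_relIndex hA
    rw [h32, h2] at h5
    omega
  have hZA4 : (Z S).relIndex A = 4 := by
    have h5 := card_eq_mul_relIndex hZA
    rw [hA16, hZ4] at h5
    omega
  have hAgen : ∀ b ∈ A, ∃ i : ℤ, ∃ ζ ∈ Z S, b = a ^ i * ζ := fun b hb =>
    exists_zpow_mul (hA ha) (le_of_relIndex_four hZA hZA4 ha haaZ hb)
  -- `n₀ = w a²`
  obtain ⟨n₀, hn₀⟩ : ∃ n, n = w * a * a := ⟨_, rfl⟩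
  have hn₀A : n₀ ∈ A := by rw [hn₀]; exact A.mul_mem (A.mul_mem hwA ha) ha
  have hn₀Z : n₀ ∈ Z S := by
    refine mem_Z_of_comm_out hA h2 hab hn₀A hs hsA ?_
    have h3 : s * n₀ * s⁻¹ = n₀ := by
      rw [hn₀]
      calc s * (w * a * a) * s⁻¹ = (s * w * s⁻¹) * (s * a * s⁻¹) * (s * a * s⁻¹) := by group
        _ = w⁻¹ * (w * a) * (w * a) := by rw [hsw, hsa]
        _ = a * w * a := by simp [mul_assoc]
        _ = w * a * a := by rw [hwa']
    calc s * n₀ = s * n₀ * s⁻¹ * s := by group
      _ = n₀ * s := by rw [h3]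
  have haa : a * a = w⁻¹ * n₀ := by rw [hn₀]; group
  have hnw : n₀ * w = w * n₀ := hab n₀ hn₀A w hwA
  have ha4 : a ^ 4 = w * w * (n₀ * n₀) := by
    have h3 : w⁻¹ * n₀ = n₀ * w⁻¹ := by
      calc w⁻¹ * n₀ = w⁻¹ * (n₀ * w) * w⁻¹ := by group
        _ = w⁻¹ * (w * n₀) * w⁻¹ := by rw [hnw]
        _ = n₀ * w⁻¹ := by group
    have h4 : w⁻¹ * w⁻¹ = w * w := by
      calc w⁻¹ * w⁻¹ = (w * w * (w * w)) * (w⁻¹ * w⁻¹) := by rw [hw4, one_mul]
        _ = w * w := by simp [mul_assoc]
    calc a ^ 4 = (a * a) * (a * a) := by simp [pow_succ, mul_assoc]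
      _ = w⁻¹ * n₀ * (w⁻¹ * n₀) := by rw [haa]
      _ = w⁻¹ * (n₀ * w⁻¹) * n₀ := by simp [mul_assoc]
      _ = w⁻¹ * (w⁻¹ * n₀) * n₀ := by rw [h3]
      _ = (w⁻¹ * w⁻¹) * (n₀ * n₀) := by simp [mul_assoc]
      _ = w * w * (n₀ * n₀) := by rw [h4]
  have hssZ := sq_mem_Z_of_out hA h2 hab hs hsA
  have has : (a * s) * (a * s) = n₀ * (s * s) := by
    calc (a * s) * (a * s) = a * (s * a * s⁻¹) * (s * s) := by simp [mul_assoc]
      _ = (a * w) * a * (s * s) := by rw [hsa]; simp [mul_assoc]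
      _ = n₀ * (s * s) := by rw [← hwa', hn₀]
  have hasS : a * s ∈ S := S.mul_mem (hA ha) hs
  have hasA : a * s ∉ A := by
    rw [mul_mem_iff_of_relIndex_two h2 (hA ha) hs]
    tauto
  have hfinZ : Finite (Z S) := Nat.finite_of_card_ne_zero (by omega)
  -- fourth powers in `Z`
  have hZp4 : ∀ ζ ∈ Z S, ζ ^ 4 = 1 := by
    intro ζ hζ
    have h3 : orderOf ζ ∣ 4 := by
      rw [← hZ4]
      exact Subgroup.orderOf_dvd_natCard _ hζ
    exact orderOf_dvd_iff_pow_eq_one.1 h3
  by_cases hn2 : n₀ * n₀ = 1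
  · -- `a` has order `8`
    have ha4' : a ^ 4 = w * w := by rw [ha4, hn2, mul_one]
    have ha8 : orderOf a = 8 := by
      refine orderOf_eight (by rw [ha4']; exact hw2) ?_
      have : a ^ 8 = a ^ 4 * a ^ 4 := by rw [← pow_add]
      rw [this, ha4', hw4]
    by_cases hn1 : n₀ = 1 ∨ n₀ = w * w
    · right
      refine ⟨a, hA ha, ha8, ?_, s, hs, ?_⟩
      · rw [card_C_in hA h2 hab ha haZ, hA16]
      · rcases hn1 with h | h
        · left
          rw [hsa]
          rw [h] at haa
          calc w * a = w * (a * a) * a⁻¹ := by group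
            _ = a⁻¹ := by rw [haa]; group
        · right
          rw [hsa]
          have h3 : a * a = w := by rw [haa, h]; group
          calc w * a = (a * a) * a := by rw [h3]
            _ = a ^ 3 := by simp [pow_succ]
    · left
      push Not at hn1
      obtain ⟨hn1, hnz⟩ := hn1
      -- `Z` is elementary abelian
      have hZ2 : ∀ ζ ∈ Z S, ζ * ζ = 1 := by
        intro ζ hζ
        by_contra hζ2
        have hinv : ∀ y ∈ Z S, y ≠ 1 → y * y = 1 → y = ζ * ζ := by
          intro y hy hy1 hyy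
          have ho : orderOf ζ = 4 := by
            have h3 : orderOf ζ ∣ 4 := orderOf_dvd_of_pow_eq_one (hZp4 ζ hζ)
            have h4 : orderOf ζ ≠ 1 := fun h => hζ2 (by rw [orderOf_eq_one_iff.1 h, one_mul])
            have h5 : orderOf ζ ≠ 2 := fun h => hζ2 (by
              have := pow_orderOf_eq_one ζ
              rwa [h, pow_two] at this)
            have h6 : orderOf ζ ≤ 4 := Nat.le_of_dvd (by norm_num) h3
            have h7 : orderOf ζ ≠ 3 := fun h => by rw [h] at h3; revert h3; decide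
            have h8 : orderOf ζ ≠ 0 := fun h => by rw [h] at h3; revert h3; decide
            omega
          have h3 : Subgroup.zpowers ζ = Z S := by
            refine Subgroup.eq_of_le_of_card_ge (Subgroup.zpowers_le.2 hζ) ?_
            rw [hZ4, Nat.card_zpowers, ho]
          rw [← h3] at hy
          obtain ⟨k, rfl⟩ := hy
          change ζ ^ k ≠ 1 at hy1
          change ζ ^ k * ζ ^ k = 1 at hyy
          change ζ ^ k = ζ * ζ
          rw [← zpow_mod_orderOf ζ k, ho] at hy1 hyy ⊢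
          have h5 : 0 ≤ k % (4 : ℕ) := Int.emod_nonneg _ (by norm_num)
          have h6 : k % (4 : ℕ) < 4 := Int.emod_lt_of_pos _ (by norm_num)
          generalize k % ((4 : ℕ) : ℤ) = m at *
          have hζ4 := hZp4 ζ hζ
          interval_cases m
          · exact absurd (zpow_zero ζ) hy1
          · rw [zpow_one] at hyy
            exact absurd hyy hζ2
          · rw [show (2 : ℤ) = 1 + 1 by norm_num, zpow_add, zpow_one]
          · exfalso
            apply hζ2
            have h7 : ζ ^ (3 : ℤ) * ζ ^ (3 : ℤ) = ζ ^ 4 * (ζ * ζ) := by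
              rw [← zpow_add, ← pow_two, ← pow_add]
              norm_cast
            rw [h7, hζ4, one_mul] at hyy
            exact hyy
        exact hnz ((hinv n₀ hn₀Z hn1 hn2).trans (hinv _ hwwZ hw2 hw4).symm)
      -- the element `t`
      obtain ⟨t, htS, htA, htt1, httw⟩ : ∃ t ∈ S, t ∉ A ∧ t * t ≠ 1 ∧ t * t ≠ w * w := by
        by_cases h3 : s * s = 1
        · refine ⟨a * s, hasS, hasA, ?_, ?_⟩
          · rw [has, h3, mul_one]
            exact hn1
          · rw [has, h3, mul_one]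
            exact hnz
        · by_cases h4 : s * s = w * w
          · refine ⟨a * s, hasS, hasA, ?_, ?_⟩
            · rw [has, h4]
              intro h5
              apply hnz
              calc n₀ = n₀ * (w * w * (w * w)) := by rw [hw4, mul_one]
                _ = (n₀ * (w * w)) * (w * w) := by simp [mul_assoc]
                _ = w * w := by rw [h5, one_mul]
            · rw [has, h4]
              intro h5
              exact hn1 (mul_eq_right.1 h5)
          · exact ⟨s, hs, hsA, h3, h4⟩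
      have httZ := sq_mem_Z_of_out hA h2 hab htS htA
      refine ⟨t, htS, fun v hv => ?_⟩
      have hvS := mem_of_isConjElt hv
      refine ⟨hvS, (card_C_out_eight h32 hZ4 hA h2 hab hvS ?_).1⟩
      intro hvA
      obtain ⟨φ, hφ, hφv⟩ := hv
      have hφt : φ ⟨t * t, (Subgroup.zpowers t).mul_mem (Subgroup.mem_zpowers t)
          (Subgroup.mem_zpowers t)⟩ = v * v := by
        rw [← hφv, ← map_mul]
        rfl
      have hinj := F.injective_of_mem hφ
      have hvv1 : v * v ≠ 1 := by
        intro h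
        apply htt1
        rw [h, ← map_one φ] at hφt
        exact congrArg Subtype.val (hinj hφt)
      have hvv : v * v = w * w := by
        obtain ⟨i, ζ, hζ, rfl⟩ := hAgen v hvA
        have hc : a ^ i * ζ = ζ * a ^ i :=
          hab _ (A.zpow_mem ha i) _ (hZA hζ)
        have h3 : a ^ i * ζ * (a ^ i * ζ) = a ^ i * a ^ i := by
          calc a ^ i * ζ * (a ^ i * ζ) = a ^ i * (ζ * a ^ i) * ζ := by simp [mul_assoc]
            _ = a ^ i * (a ^ i * ζ) * ζ := by rw [hc]
            _ = a ^ i * a ^ i * (ζ * ζ) := by simp [mul_assoc]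
            _ = a ^ i * a ^ i := by rw [hZ2 ζ hζ, mul_one]
        rw [h3] at hφt hvv1 ⊢
        -- fourth power
        have h4 : a ^ i * a ^ i * (a ^ i * a ^ i) = 1 := by
          rw [← hφt, ← map_mul, ← map_one φ]
          congr 1
          exact Subtype.ext (hZ2 _ httZ)
        have h5 : (w * w) ^ i = 1 := by
          rw [← ha4', ← zpow_natCast, ← zpow_mul, ← h4, ← zpow_add, ← zpow_add]
          congr 1
          push_cast
          ring
        have h6 : Even i := by
          by_contra hodd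
          rw [Int.not_even_iff_odd] at hodd
          obtain ⟨j, rfl⟩ := hodd
          apply hw2
          have h7 : (w * w) ^ (2 * j + 1) = w * w := by
            rw [zpow_add, zpow_one, zpow_mul]
            have : (w * w) ^ (2 : ℤ) = 1 := by
              rw [show (2 : ℤ) = 1 + 1 by norm_num, zpow_add, zpow_one, hw4]
            rw [this, one_zpow, one_mul]
          rw [← h7, h5]
        obtain ⟨j, rfl⟩ := h6
        have h7 : a ^ (j + j) * a ^ (j + j) = (w * w) ^ j := by
          rw [← ha4', ← zpow_natCast, ← zpow_mul, ← zpow_add]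
          congr 1
          push_cast
          ring
        rw [h7] at hvv1 ⊢
        rcases Int.even_or_odd j with ⟨k, rfl⟩ | ⟨k, rfl⟩
        · exfalso
          apply hvv1
          rw [← two_mul, zpow_mul]
          have : (w * w) ^ (2 : ℤ) = 1 := by
            rw [show (2 : ℤ) = 1 + 1 by norm_num, zpow_add, zpow_one, hw4]
          rw [this, one_zpow]
        · rw [zpow_add, zpow_one, zpow_mul]
          have : (w * w) ^ (2 : ℤ) = 1 := by
            rw [show (2 : ℤ) = 1 + 1 by norm_num, zpow_add, zpow_one, hw4]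
          rw [this, one_zpow, one_mul]
      rw [hvv] at hφt
      obtain ⟨α, hα, hαe⟩ := exists_aut_of_central hS hF httZ hwwZ hφ _ hφt
      -- `t² ∈ [S, S]`
      have h3 : (⟨t * t, httZ.1⟩ : S) = α⁻¹ ⟨w * w, hwwZ.1⟩ := by
        rw [← MulAut.inv_apply_self S α ⟨t * t, httZ.1⟩]
        congr 1
        exact Subtype.ext hαe
      have h4 : t * t ∈ E S := by
        have h5 := aut_preserves_E (α := α⁻¹) (y := ⟨w * w, hwwZ.1⟩) ((E S).mul_mem hw hw)
        rw [← h3] at h5
        exact h5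
      rcases hEall _ h4 with h5 | h5 | h5 | h5
      · exact htt1 h5
      · apply hw2
        rw [← h5]
        exact hZ2 _ httZ
      · exact httw h5
      · apply hw2
        have h6 := hZ2 _ httZ
        rw [h5] at h6
        calc w * w = (w⁻¹ * w⁻¹)⁻¹ := by simp
          _ = 1 := by rw [h6, inv_one]
  · -- `Z` is cyclic of order four generated by `n₀`
    left
    have hnn : n₀ * n₀ = w * w := by
      have ho : orderOf n₀ = 4 := by
        have h3 : orderOf n₀ ∣ 4 := orderOf_dvd_of_pow_eq_one (hZp4 n₀ hn₀Z)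
        have h4 : orderOf n₀ ≠ 1 := fun h => hn2 (by rw [orderOf_eq_one_iff.1 h, one_mul])
        have h5 : orderOf n₀ ≠ 2 := fun h => hn2 (by
          have := pow_orderOf_eq_one n₀
          rwa [h, pow_two] at this)
        have h6 : orderOf n₀ ≤ 4 := Nat.le_of_dvd (by norm_num) h3
        have h7 : orderOf n₀ ≠ 3 := fun h => by rw [h] at h3; revert h3; decide
        have h8 : orderOf n₀ ≠ 0 := fun h => by rw [h] at h3; revert h3; decide
        omega
      have h3 : Subgroup.zpowers n₀ = Z S := by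
        refine Subgroup.eq_of_le_of_card_ge (Subgroup.zpowers_le.2 hn₀Z) ?_
        rw [hZ4, Nat.card_zpowers, ho]
      have h4 := hwwZ
      rw [← h3] at h4
      obtain ⟨k, hk⟩ := h4
      change n₀ ^ k = w * w at hk
      rw [← zpow_mod_orderOf n₀ k, ho] at hk
      have h5 : 0 ≤ k % (4 : ℕ) := Int.emod_nonneg _ (by norm_num)
      have h6 : k % (4 : ℕ) < 4 := Int.emod_lt_of_pos _ (by norm_num)
      generalize k % ((4 : ℕ) : ℤ) = m at *
      have hζ4 := hZp4 n₀ hn₀Z
      interval_cases m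
      · exact absurd (hk.symm.trans (zpow_zero n₀)) hw2
      · exfalso
        apply hn2
        rw [zpow_one] at hk
        rw [hk, hw4]
      · rw [← hk, show (2 : ℤ) = 1 + 1 by norm_num, zpow_add, zpow_one]
      · exfalso
        apply hn2
        have h7 : n₀ ^ (3 : ℤ) * n₀ ^ (3 : ℤ) = n₀ ^ 4 * (n₀ * n₀) := by
          rw [← zpow_add, ← pow_two, ← pow_add]
          norm_cast
        rw [hk, hw4, hζ4, one_mul] at h7
        exact h7.symm
    have ha4' : a ^ 4 = 1 := by rw [ha4, hnn, hw4]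
    have hAexp : ∀ b ∈ A, b ^ 4 = 1 := by
      intro b hb
      obtain ⟨i, ζ, hζ, rfl⟩ := hAgen b hb
      have hc : Commute (a ^ i) ζ := hab _ (A.zpow_mem ha i) _ (hZA hζ)
      rw [hc.mul_pow, hZp4 ζ hζ, mul_one, ← zpow_natCast, ← zpow_mul, mul_comm, zpow_mul,
        zpow_natCast, ha4', one_zpow]
    obtain ⟨t, htS, htA, htt⟩ : ∃ t ∈ S, t ∉ A ∧ t * t * (t * t) ≠ 1 := by
      by_cases h3 : s * s * (s * s) = 1
      · refine ⟨a * s, hasS, hasA, ?_⟩
        rw [has]
        have h4 := (mem_Z.1 hn₀Z).2 _ hssZ.1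
        have h5 : n₀ * (s * s) * (n₀ * (s * s)) = n₀ * n₀ := by
          calc n₀ * (s * s) * (n₀ * (s * s)) = n₀ * ((s * s) * n₀) * (s * s) := by
                simp [mul_assoc]
            _ = n₀ * (n₀ * (s * s)) * (s * s) := by rw [h4]
            _ = n₀ * n₀ * (s * s * (s * s)) := by simp [mul_assoc]
            _ = n₀ * n₀ := by rw [h3, mul_one]
        rw [h5]
        exact hn2
      · exact ⟨s, hs, hsA, h3⟩
    have httZ := sq_mem_Z_of_out hA h2 hab htS htA
    have ht8 : orderOf t = 8 := by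
      refine orderOf_eight ?_ ?_
      · intro h
        apply htt
        rw [← h]
        simp [pow_succ, mul_assoc]
      · have h3 := hZp4 _ httZ
        rw [← h3]
        simp [pow_succ, mul_assoc]
    refine ⟨t, htS, fun v hv => ?_⟩
    have hvS := mem_of_isConjElt hv
    refine ⟨hvS, (card_C_out_eight h32 hZ4 hA h2 hab hvS ?_).1⟩
    intro hvA
    have h3 := orderOf_of_isConjElt hv
    rw [ht8] at h3
    have h4 := orderOf_dvd_of_pow_eq_one (hAexp v hvA)
    rw [h3] at h4
    revert h4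
    decide

end Cyc

end Cfsg.Agent.H617.FusFour
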