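import Mathlib
import Cfsg.Agent.H617.FusAbCyc
import Cfsg.Agent.Transfer.TausskyTwoGroup

/-!
# Saturated fusion systems on nonabelian `2`-groups of order at most `32`
-/

set_option autoImplicit false

namespace Cfsg.Agent.H617.FusMain

open Cfsg Cfsg.FusionSystem Cfsg.Agent.H802 Cfsg.Agent.H617.FusInv Cfsg.Agent.H617.FusTwo
open Cfsg.Agent.H617.FusFour

variable {Ω : Type*} [Group Ω] {S : Subgroup Ω}

theorem card_E : Nat.card (E S) = Nat.card (commutator S) := by
  have h : E S = (commutator S).map S.subtype := (Subgroup.map_subtype_commutator S).symm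
  rw [h]
  exact (Nat.card_congr ((commutator S).equivMapOfInjective S.subtype
    Subtype.val_injective).toEquiv).symm

/-- `|S| = |[S,S]| |S : [S,S]|`. -/
theorem card_E_mul : Nat.card (E S) * (commutator S).index = Nat.card S := by
  rw [card_E, Subgroup.card_mul_index]

theorem Z_eq_of_comm (h : ∀ a ∈ S, ∀ b ∈ S, a * b = b * a) : Z S = S :=
  le_antisymm Z_le fun s hs => mem_Z.2 ⟨hs, fun t ht => h t ht s hs⟩

theorem index_ge_four [Finite S] (hS : IsPGroup 2 S) (hna : Z S ≠ S) :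
    (commutator S).index ≠ 1 ∧ (commutator S).index ≠ 2 := by
  have hp : Fact (Nat.Prime 2) := ⟨Nat.prime_two⟩
  have hnil : Group.IsNilpotent S := hS.isNilpotent
  have key : ¬ IsCyclic (S ⧸ commutator S) := by
    intro h
    have h1 := Transfer.TausskyTwoGroup.commutator_eq_bot_of_isCyclic_quotient h
    apply hna
    refine Z_eq_of_comm fun a ha b hb => ?_
    have h2 : (⟨a, ha⟩ : S) * ⟨b, hb⟩ * (⟨a, ha⟩ : S)⁻¹ * (⟨b, hb⟩ : S)⁻¹ ∈ commutator S :=
      Subgroup.commutator_mem_commutator (Subgroup.mem_top _) (Subgroup.mem_top _)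
    rw [h1, Subgroup.mem_bot] at h2
    have h3 : a * b * a⁻¹ * b⁻¹ = 1 := congrArg Subtype.val h2
    calc a * b = a * b * a⁻¹ * b⁻¹ * (b * a) := by group
      _ = b * a := by rw [h3, one_mul]
  constructor
  · intro h
    apply key
    have h1 : Nat.card (S ⧸ commutator S) = 1 := h
    have : Subsingleton (S ⧸ commutator S) := (Nat.card_eq_one_iff_unique.1 h1).1
    infer_instance
  · intro h
    apply key
    exact isCyclic_of_prime_card (p := 2) h

theorem relIndex_Z_ne [Finite S] (hna : Z S ≠ S) :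
    (Z S).relIndex S ≠ 1 ∧ (Z S).relIndex S ≠ 2 := by
  constructor
  · intro h
    exact hna (le_antisymm Z_le (Subgroup.relIndex_eq_one.1 h))
  · intro h
    apply hna
    exact Z_eq_of_comm (comm_of_relIndex_two h fun n hn a ha => ((mem_Z.1 hn).2 a ha).symm)

theorem exists_not_mem_Z (hna : Z S ≠ S) : ∃ x ∈ S, x ∉ Z S := by
  by_contra hno
  push Not at hno
  exact hna (le_antisymm Z_le hno)

theorem exists_not_mem_C {x : Ω} (hx : x ∈ S) (hxZ : x ∉ Z S) : ∃ y ∈ S, y ∉ C S x := by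
  by_contra hno
  push Not at hno
  exact C_ne hx hxZ (le_antisymm (C_le _) hno)

/-- The conclusion of the analysis, first kind. -/
def KindA (S : Subgroup Ω) (F : FusionSystem S) : Prop :=
  ∃ u ∈ S, ∀ v, F.IsConjElt u v → v ∈ S ∧ Nat.card (C S v) * Nat.card (E S) ≤ Nat.card S ∧
    Nat.card (C S v) ≤ 4 * orderOf v

/-- The conclusion of the analysis, second kind. -/
def KindB (S : Subgroup Ω) : Prop :=
  ∃ u ∈ S, ∃ k, 3 ≤ k ∧ orderOf u = 2 ^ k ∧ Nat.card (C S u) ≤ 2 * 2 ^ k ∧
    (C S u).relIndex S = 2 ∧ (∃ s ∈ S, s * u * s⁻¹ = u⁻¹ ∨ s * u * s⁻¹ = u ^ (2 ^ (k - 1) - 1)) ∧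
    4 * Nat.card (C S u) * Nat.card (E S) ≤ Nat.card S * 2 ^ k

section Two

variable [Finite S] (hS : IsPGroup 2 S) (hna : Z S ≠ S) (hE : Nat.card (E S) = 2)

include hna hE in
theorem relIndex_C_two {x : Ω} (hx : x ∈ S) (hxZ : x ∉ Z S) : (C S x).relIndex S = 2 := by
  have h1 := relIndex_C_le (S := S) hx
  rw [hE] at h1
  have h2 : (C S x).relIndex S ≠ 1 := fun h =>
    C_ne hx hxZ (le_antisymm (C_le x) (Subgroup.relIndex_eq_one.1 h))
  have h3 : (C S x).relIndex S ≠ 0 := by
    have hfin : Finite (S ⧸ (C S x).subgroupOf S) := inferInstance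
    exact Subgroup.index_ne_zero_of_finite
  omega

include hS hE in
theorem exists_z : ∃ z ∈ Z S, z * z = 1 ∧ z ≠ 1 ∧
    ∀ a ∈ S, ∀ b ∈ S, a * b = b * a ∨ a * b = b * a * z := by
  obtain ⟨z, hzE, hzZ, hz1⟩ := exists_mem_E_Z hS (by rw [hE])
  have ho : orderOf z = 2 := by
    have h1 : orderOf z ∣ 2 := by
      rw [← hE]
      exact Subgroup.orderOf_dvd_natCard _ hzE
    have h2 : orderOf z ≠ 1 := fun h => hz1 (orderOf_eq_one_iff.1 h)
    have h3 : 0 < orderOf z := Nat.pos_of_dvd_of_pos h1 (by norm_num)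
    have := Nat.le_of_dvd (by norm_num) h1
    omega
  have hz2 : z * z = 1 := by
    rw [← pow_two, ← ho]
    exact pow_orderOf_eq_one z
  have hfin : Finite (E S) := finite_of_le E_le
  have hEz : Subgroup.zpowers z = E S := by
    refine Subgroup.eq_of_le_of_card_ge (Subgroup.zpowers_le.2 hzE) ?_
    rw [hE, Nat.card_zpowers, ho]
  refine ⟨z, hzZ, hz2, hz1, fun a ha b hb => ?_⟩
  have h1 := comm_mem ha hb
  rw [← hEz] at h1
  obtain ⟨n, hn⟩ := h1
  change z ^ n = a * b * a⁻¹ * b⁻¹ at hn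
  have h2 : a * b = z ^ n * (b * a) := by rw [hn]; group
  rcases Int.even_or_odd n with ⟨m, rfl⟩ | ⟨m, rfl⟩
  · left
    rw [h2, ← two_mul, zpow_mul]
    have : z ^ (2 : ℤ) = 1 := by
      rw [show (2 : ℤ) = 1 + 1 by norm_num, zpow_add, zpow_one, hz2]
    rw [this, one_zpow, one_mul]
  · right
    rw [h2, zpow_add, zpow_mul, zpow_one]
    have : z ^ (2 : ℤ) = 1 := by
      rw [show (2 : ℤ) = 1 + 1 by norm_num, zpow_add, zpow_one, hz2]
    rw [this, one_zpow, one_mul, (mem_Z.1 hzZ).2 _ (S.mul_mem hb ha)]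

include hna hE in
/-- `|Z(S)| = 4`, `|S| = 32` does not occur. -/
theorem not_card_Z_four (h32 : Nat.card S = 32) : Nat.card (Z S) ≠ 4 := by
  intro hZ4
  obtain ⟨x, hx, hxZ⟩ := exists_not_mem_Z hna
  obtain ⟨y, hy, hyC⟩ := exists_not_mem_C hx hxZ
  have hyZ : y ∉ Z S := fun h => hyC (Z_le_C hx h)
  have hxC : x ∉ C S y := fun h => hyC (mem_C.2 ⟨hy, (mem_C.1 h).2.symm⟩)
  have h1 := relIndex_C_two hna hE hx hxZ
  have h2 := relIndex_C_two hna hE hy hyZ
  obtain ⟨K, hK⟩ : ∃ K, K = C S x ⊓ C S y := ⟨_, rfl⟩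
  have hKx : K ≤ C S x := hK ▸ inf_le_left
  have hKy : K ≤ C S y := hK ▸ inf_le_right
  have hKS : K ≤ S := hKx.trans (C_le x)
  have hKrel : K.relIndex S ≤ 4 := by
    rw [hK]
    refine (Subgroup.relIndex_inf_le).trans ?_
    rw [h1, h2]
  have h3 := Subgroup.relIndex_mul_relIndex K (C S x) S hKx (C_le x)
  rw [h1] at h3
  have hKCx : K.relIndex (C S x) ≠ 1 := fun h =>
    hxC (hKy (Subgroup.relIndex_eq_one.1 h (self_mem_C hx)))
  have hcS := card_eq_mul_relIndex hKS
  have hKrel' : K.relIndex (C S x) = 2 := by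
    have h4 : K.relIndex (C S x) ≠ 0 := by
      intro h
      rw [h, zero_mul] at h3
      rw [← h3, mul_zero, h32] at hcS
      omega
    omega
  have hK8 : Nat.card K = 8 := by
    rw [hKrel'] at h3
    rw [← h3, h32] at hcS
    omega
  have hZK : Z S ≤ K := by
    rw [hK]
    exact le_inf (Z_le_C hx) (Z_le_C hy)
  have hZK2 : (Z S).relIndex K = 2 := by
    have := card_eq_mul_relIndex hZK
    rw [hK8, hZ4] at this
    omega
  have hKab := comm_of_relIndex_two hZK2 fun n hn a ha => ((mem_Z.1 hn).2 a (hKS ha)).symm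
  have hCx : ∀ s ∈ C S x, ∀ k ∈ K, s * k = k * s := by
    intro s hs k hk
    by_cases hsK : s ∈ K
    · exact hKab s hsK k hk
    · have h4 := inv_mul_mem_of_relIndex_two hKrel' (self_mem_C hx) hs
        (fun h => hxC (hKy h)) hsK
      have h5 := hKab _ h4 k hk
      have h6 := (mem_C.1 (hKx hk)).2
      calc s * k = x * ((x⁻¹ * s) * k) := by group
        _ = x * k * (x⁻¹ * s) := by rw [h5]; group
        _ = k * s := by rw [h6]; group
  have hKZ : K ≤ Z S := by
    intro k hk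
    refine mem_Z.2 ⟨hKS hk, fun s hs => ?_⟩
    by_cases hsC : s ∈ C S x
    · exact hCx s hsC k hk
    · have h4 := inv_mul_mem_of_relIndex_two h1 hy hs hyC hsC
      have h5 := hCx _ h4 k hk
      have h6 := (mem_C.1 (hKy hk)).2
      calc s * k = y * ((y⁻¹ * s) * k) := by group
        _ = y * k * (y⁻¹ * s) := by rw [h5]; group
        _ = k * s := by rw [h6]; group
  have hfin : Finite (Z S) := Nat.finite_of_card_ne_zero (by omega)
  have := Nat.card_le_card_of_injective _ (Subgroup.inclusion_injective hKZ)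
  omega

theorem orderOf_ge_four (hS : IsPGroup 2 S) {v : Ω} (hv : v ∈ S) (hvv : v * v ≠ 1) :
    4 ≤ orderOf v := by
  obtain ⟨k, hk⟩ := hS ⟨v, hv⟩
  have hk' : v ^ 2 ^ k = 1 := congrArg Subtype.val hk
  obtain ⟨m, -, hm⟩ := (Nat.dvd_prime_pow Nat.prime_two).1 (orderOf_dvd_of_pow_eq_one hk')
  have hm2 : 2 ≤ m := by
    by_contra hlt
    apply hvv
    have h1 : v ^ 2 = 1 := by
      apply orderOf_dvd_iff_pow_eq_one.1
      rw [hm]
      exact pow_dvd_pow 2 (show m ≤ 1 by omega) |>.trans (by norm_num)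
    rw [← pow_two, h1]
  rw [hm]
  calc 4 = 2 ^ 2 := by norm_num
    _ ≤ 2 ^ m := Nat.pow_le_pow_right (by norm_num) hm2

include hS hna hE in
theorem kindA_of_two (hcard : Nat.card S ≤ 32) {F : FusionSystem S} (hF : F.IsSaturated 2) :
    KindA S F := by
  have hgoal : ∀ v ∈ S, v ∉ Z S → v * v ≠ 1 → Nat.card (C S v) * Nat.card (E S) ≤ Nat.card S ∧
      Nat.card (C S v) ≤ 4 * orderOf v := by
    intro v hv hvZ hvv
    have h1 := relIndex_C_two hna hE hv hvZ
    have h2 := card_eq_mul_relIndex (C_le (S := S) v)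
    have h3 := orderOf_ge_four hS hv hvv
    rw [h1] at h2
    rw [hE]
    omega
  by_cases hex : ∃ y ∈ Z S, y * y ≠ 1
  · -- `Z(S)` not elementary abelian
    obtain ⟨z, hzZ, hz2, hz1, hcom⟩ := exists_z hS hE
    have hrZ : (Z S).relIndex S = 4 := by
      obtain ⟨hr1, hr2⟩ := relIndex_Z_ne (S := S) hna
      have h1 := card_eq_mul_relIndex (Z_le (S := S))
      obtain ⟨y, hy, hyy⟩ := hex
      have hfin : Finite (Z S) := finite_of_le Z_le
      have h2 : 4 ∣ Nat.card (Z S) := by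
        have h3 := orderOf_ge_four hS (Z_le hy) hyy
        have hp : Fact (Nat.Prime 2) := ⟨Nat.prime_two⟩
        obtain ⟨k, hk⟩ := IsPGroup.iff_card.1 (hS.to_le (Z_le (S := S)))
        have h4 : orderOf y ∣ 2 ^ k := by
          rw [← hk]
          exact Subgroup.orderOf_dvd_natCard _ hy
        have h5 := Nat.le_of_dvd (by positivity) h4
        have h6 : 2 ≤ k := by
          by_contra hlt
          have : 2 ^ k ≤ 2 ^ 1 := Nat.pow_le_pow_right (by norm_num) (by omega)
          omega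
        rw [hk]
        calc 4 = 2 ^ 2 := by norm_num
          _ ∣ 2 ^ k := pow_dvd_pow 2 h6
      have hp : Fact (Nat.Prime 2) := ⟨Nat.prime_two⟩
      obtain ⟨n, hn⟩ := IsPGroup.iff_card.1 hS
      obtain ⟨c, hc⟩ := h2
      have hr0 : (Z S).relIndex S ≠ 0 := by
        intro h
        rw [h, mul_zero] at h1
        have : 0 < Nat.card S := Nat.card_pos
        omega
      have hrd : (Z S).relIndex S ∣ 2 ^ n := ⟨Nat.card (Z S), by rw [← hn, h1, mul_comm]⟩
      obtain ⟨m, hmn, hm⟩ := (Nat.dvd_prime_pow Nat.prime_two).1 hrd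
      have hm2 : 2 ≤ m := by
        by_contra hlt
        have : m = 0 ∨ m = 1 := by omega
        rcases this with rfl | rfl
        · exact hr1 hm
        · exact hr2 hm
      have hm3 : m ≤ 3 := by
        by_contra hlt
        have h5 : 2 ^ 4 ≤ 2 ^ m := Nat.pow_le_pow_right (by norm_num) (by omega)
        have hc0 : c ≠ 0 := by
          rintro rfl
          rw [hc, mul_zero, zero_mul] at h1
          have : 0 < Nat.card S := Nat.card_pos
          omega
        have h6 : 4 * 2 ^ 4 ≤ Nat.card (Z S) * (Z S).relIndex S := by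
          rw [hc, hm]
          exact Nat.mul_le_mul (by omega) h5
        omega
      have : m = 2 ∨ m = 3 := by omega
      rcases this with rfl | rfl
      · rw [hm]; norm_num
      · exfalso
        have hZ4 : Nat.card (Z S) = 4 := by
          have hc0 : c ≠ 0 := by
            rintro rfl
            rw [hc, mul_zero, zero_mul] at h1
            have : 0 < Nat.card S := Nat.card_pos
            omega
          rw [hm] at h1
          omega
        have hS32 : Nat.card S = 32 := by rw [h1, hZ4, hm]; norm_num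
        exact not_card_Z_four hna hE hS32 hZ4
    obtain ⟨u, hu, huu, hcl⟩ := exists_noncentral_of_quarter hS hF hrZ hzZ hz2 hcom hex
    refine ⟨u, hu, fun v hv => ?_⟩
    obtain ⟨hvS, hvZ⟩ := hcl v hv
    refine ⟨hvS, hgoal v hvS hvZ fun h => huu ?_⟩
    have h3 := orderOf_of_isConjElt hv
    have h4 : v ^ 2 = 1 := by rw [pow_two, h]
    have h5 := orderOf_dvd_of_pow_eq_one h4
    rw [h3] at h5
    rw [← pow_two]
    exact orderOf_dvd_iff_pow_eq_one.1 h5
  · push Not at hex
    obtain ⟨u, hu, huu⟩ : ∃ u ∈ S, u * u ≠ 1 := by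
      by_contra hno
      push Not at hno
      apply hna
      refine Z_eq_of_comm fun a ha b hb => ?_
      have h1 := hno _ (S.mul_mem ha hb)
      have h2 := hno a ha
      have h3 := hno b hb
      calc a * b = a * (a * b * (a * b)) * b := by rw [h1, mul_one]
        _ = (a * a) * (b * a) * (b * b) := by simp [mul_assoc]
        _ = b * a := by rw [h2, h3, one_mul, mul_one]
    refine ⟨u, hu, fun v hv => ?_⟩
    have hvS := mem_of_isConjElt hv
    have hvv : v * v ≠ 1 := by
      intro h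
      apply huu
      have h3 := orderOf_of_isConjElt hv
      have h4 : v ^ 2 = 1 := by rw [pow_two, h]
      have h5 := orderOf_dvd_of_pow_eq_one h4
      rw [h3] at h5
      rw [← pow_two]
      exact orderOf_dvd_iff_pow_eq_one.1 h5
    exact ⟨hvS, hgoal v hvS (fun h => hvv (hex v h)) hvv⟩

end Two

/-! ### Maximal class -/

theorem exists_cyclic_index_two [Finite S] {n : ℕ} (hn : Nat.card S = 2 ^ (n + 1))
    (h4 : (commutator S).index = 4) :
    ∃ u ∈ S, orderOf u = 2 ^ n ∧ (Subgroup.zpowers u).relIndex S = 2 := by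
  obtain ⟨D, hD, hD2⟩ := Transfer.TausskyTwoGroup.exists_isCyclic_index_two (n + 1) hn h4
  obtain ⟨g, hg⟩ := hD.exists_generator
  have h1 : D.map S.subtype = Subgroup.zpowers ((g : S) : Ω) := by
    ext y
    constructor
    · rintro ⟨d, hd, rfl⟩
      obtain ⟨k, hk⟩ := hg ⟨d, hd⟩
      refine ⟨k, ?_⟩
      have h2 := congrArg (fun t : D => ((t : S) : Ω)) hk
      exact h2
    · rintro ⟨k, rfl⟩
      exact ⟨(g : S) ^ k, D.zpow_mem g.2 k, rfl⟩
  have h2 : (Subgroup.zpowers ((g : S) : Ω)).relIndex S = 2 := by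
    rw [← h1, Subgroup.relIndex, Subgroup.subgroupOf, Subgroup.comap_map_eq_self_of_injective
      Subtype.val_injective, hD2]
  refine ⟨g, (g : S).2, ?_, h2⟩
  have h3 := card_eq_mul_relIndex (Subgroup.zpowers_le.2 (g : S).2)
  rw [h2, hn, Nat.card_zpowers, pow_succ] at h3
  omega

theorem zpowers_comm {u : Ω} : ∀ a ∈ Subgroup.zpowers u, ∀ b ∈ Subgroup.zpowers u,
    a * b = b * a := by
  rintro _ ⟨i, rfl⟩ _ ⟨j, rfl⟩
  change u ^ i * u ^ j = u ^ j * u ^ i
  rw [← zpow_add, ← zpow_add, add_comm]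

theorem kindB_of_maximal [Finite S] {n : ℕ} (hn3 : n = 3 ∨ n = 4)
    (hn : Nat.card S = 2 ^ (n + 1)) (h4 : (commutator S).index = 4)
    (hna : Z S ≠ S) : KindB S := by
  obtain ⟨u, hu, hou, hrel⟩ := exists_cyclic_index_two hn h4
  have hA : Subgroup.zpowers u ≤ S := Subgroup.zpowers_le.2 hu
  have hab := zpowers_comm (u := u)
  obtain ⟨s, hs, hsA⟩ : ∃ s ∈ S, s ∉ Subgroup.zpowers u := by
    by_contra hno
    push Not at hno
    have : (Subgroup.zpowers u).relIndex S = 1 := Subgroup.relIndex_eq_one.2 hno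
    omega
  have hZA := Z_le_A hA hrel hab hna
  have hEmul := card_E_mul (S := S)
  rw [h4, hn] at hEmul
  have hZidx := relIndex_Z_A_le hA hrel hab hs hsA hna
  have hZcard := card_eq_mul_relIndex hZA
  rw [hZidx, Nat.card_zpowers, hou] at hZcard
  have hEpos : 0 < Nat.card (E S) := by
    rcases Nat.eq_zero_or_pos (Nat.card (E S)) with h | h
    · rw [h, zero_mul] at hEmul
      have : 0 < 2 ^ (n + 1) := by positivity
      omega
    · exact h
  have hZ2 : Nat.card (Z S) = 2 := by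
    have h5 : Nat.card (E S) * 4 = 2 * (Nat.card (Z S) * Nat.card (E S)) := by
      rw [hEmul, ← hZcard, pow_succ, mul_comm]
    have h6 : Nat.card (E S) * 4 = Nat.card (E S) * (2 * Nat.card (Z S)) := by
      rw [h5]; ring
    have h7 := Nat.eq_of_mul_eq_mul_left hEpos h6
    omega
  have huZ : u ∉ Z S := by
    intro h
    have hfin : Finite (Z S) := Nat.finite_of_card_ne_zero (by omega)
    have h5 : orderOf u ∣ 2 := by
      rw [← hZ2]
      exact Subgroup.orderOf_dvd_natCard _ h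
    rw [hou] at h5
    have h6 := Nat.le_of_dvd (by norm_num) h5
    rcases hn3 with rfl | rfl <;> norm_num at h6
  have huA : u ∈ Subgroup.zpowers u := Subgroup.mem_zpowers u
  have hC : C S u = Subgroup.zpowers u := card_C_in hA hrel hab huA huZ
  -- the action of `s`
  have hnorm := le_normalizer_of_relIndex_two hA hrel
  have hsu : s * u * s⁻¹ ∈ Subgroup.zpowers u :=
    (Subgroup.mem_normalizer_iff.1 (hnorm hs) u).1 huA
  obtain ⟨t, ht⟩ := hsu
  change u ^ t = s * u * s⁻¹ at ht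
  have hss : s * s ∈ Subgroup.zpowers u := by
    rw [mul_mem_iff_of_relIndex_two hrel hs hs]
  have hsu2 : u ^ (t * t) = u := by
    rw [zpow_mul, ht]
    have h5 : (s * u * s⁻¹) ^ t = s * u ^ t * s⁻¹ := by
      rw [conj_zpow]
    rw [h5, ht]
    calc s * (s * u * s⁻¹) * s⁻¹ = (s * s) * u * (s * s)⁻¹ := by group
      _ = u := by rw [hab _ hss u huA, mul_inv_cancel_right]
  have hsuZ : s * u ≠ u * s := fun h => huZ (mem_Z_of_comm_out hA hrel hab huA hs hsA h)
  have hsuu : s * (u * u) ≠ u * u * s := by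
    intro h
    have h5 := mem_Z_of_comm_out hA hrel hab
      ((Subgroup.zpowers u).mul_mem huA huA) hs hsA h
    have hfin : Finite (Z S) := Nat.finite_of_card_ne_zero (by omega)
    have h6 : orderOf (u * u) ∣ 2 := by
      rw [← hZ2]
      exact Subgroup.orderOf_dvd_natCard _ h5
    have h7 : u ^ 4 = 1 := by
      have := orderOf_dvd_iff_pow_eq_one.1 h6
      rw [← this]
      simp [pow_succ, mul_assoc]
    have h8 := orderOf_dvd_of_pow_eq_one h7
    rw [hou] at h8
    have h9 := Nat.le_of_dvd (by norm_num) h8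
    rcases hn3 with rfl | rfl <;> norm_num at h9
  have hmod : ∀ i j : ℤ, u ^ i = u ^ j ↔ (i - j) % (2 ^ n : ℕ) = 0 := by
    intro i j
    rw [← hou]
    rw [zpow_eq_zpow_iff_modEq, Int.modEq_iff_dvd, ← neg_sub, Int.dvd_neg]
    exact ⟨fun h => Int.emod_eq_zero_of_dvd h, fun h => Int.dvd_of_emod_eq_zero h⟩
  have htt : (t * t - 1) % (2 ^ n : ℕ) = 0 := by
    rw [← hmod, hsu2, zpow_one]
  have ht1 : (t - 1) % (2 ^ n : ℕ) ≠ 0 := by
    intro h
    rw [← hmod, zpow_one, ht] at h
    apply hsuZ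
    calc s * u = s * u * s⁻¹ * s := by group
      _ = u * s := by rw [h]
  have ht2 : (2 * t - 2) % (2 ^ n : ℕ) ≠ 0 := by
    intro h
    rw [← hmod] at h
    apply hsuu
    have h5 : s * (u * u) * s⁻¹ = u * u := by
      calc s * (u * u) * s⁻¹ = (s * u * s⁻¹) * (s * u * s⁻¹) := by group
        _ = u ^ (2 * t) := by rw [← ht, ← zpow_add]; congr 1; ring
        _ = u * u := by
          rw [h, show (2 : ℤ) = 1 + 1 by norm_num, zpow_add, zpow_one]
    calc s * (u * u) = s * (u * u) * s⁻¹ * s := by group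
      _ = u * u * s := by rw [h5]
  have hfinal : s * u * s⁻¹ = u⁻¹ ∨ s * u * s⁻¹ = u ^ (2 ^ (n - 1) - 1) := by
    rw [← ht]
    have h5 : u⁻¹ = u ^ (-1 : ℤ) := by simp
    have h6 : u ^ (2 ^ (n - 1) - 1) = u ^ (((2 ^ (n - 1) - 1 : ℕ) : ℤ)) := by
      rw [zpow_natCast]
    rw [h5, h6, hmod, hmod]
    rcases hn3 with rfl | rfl
    · norm_num at htt ht1 ht2 ⊢
      have h7 : t % 8 = 0 ∨ t % 8 = 1 ∨ t % 8 = 2 ∨ t % 8 = 3 ∨ t % 8 = 4 ∨ t % 8 = 5 ∨
          t % 8 = 6 ∨ t % 8 = 7 := by omega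
      have h8 : (t * t - 1) % 8 = ((t % 8) * (t % 8) - 1) % 8 := by
        rw [Int.sub_emod, Int.mul_emod, ← Int.sub_emod]
      replace htt := Int.emod_eq_zero_of_dvd htt
      rw [h8] at htt
      rcases h7 with h | h | h | h | h | h | h | h <;> rw [h] at htt <;> omega
    · norm_num at htt ht1 ht2 ⊢
      have h7 : t % 16 = 0 ∨ t % 16 = 1 ∨ t % 16 = 2 ∨ t % 16 = 3 ∨ t % 16 = 4 ∨ t % 16 = 5 ∨
          t % 16 = 6 ∨ t % 16 = 7 ∨ t % 16 = 8 ∨ t % 16 = 9 ∨ t % 16 = 10 ∨ t % 16 = 11 ∨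
          t % 16 = 12 ∨ t % 16 = 13 ∨ t % 16 = 14 ∨ t % 16 = 15 := by omega
      have h8 : (t * t - 1) % 16 = ((t % 16) * (t % 16) - 1) % 16 := by
        rw [Int.sub_emod, Int.mul_emod, ← Int.sub_emod]
      replace htt := Int.emod_eq_zero_of_dvd htt
      rw [h8] at htt
      rcases h7 with h | h | h | h | h | h | h | h | h | h | h | h | h | h | h | h <;>
        rw [h] at htt <;> omega
  refine ⟨u, hu, n, by omega, hou, ?_, ?_, ⟨s, hs, hfinal⟩, ?_⟩
  · rw [hC, Nat.card_zpowers, hou]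
    omega
  · rw [hC, hrel]
  · rw [hC, Nat.card_zpowers, hou, hn]
    have h5 : 4 * 2 ^ n * Nat.card (E S) = 2 ^ n * (Nat.card (E S) * 4) := by ring
    rw [h5, hEmul, mul_comm]

/-- **Main statement on fusion.** -/
theorem kind [Finite S] (hS : IsPGroup 2 S) (hna : Z S ≠ S) (hcard : Nat.card S ≤ 32)
    {F : FusionSystem S} (hF : F.IsSaturated 2) : KindA S F ∨ KindB S := by
  have hp : Fact (Nat.Prime 2) := ⟨Nat.prime_two⟩
  obtain ⟨n, hn⟩ := IsPGroup.iff_card.1 hS
  have hEmul := card_E_mul (S := S)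
  obtain ⟨hi1, hi2⟩ := index_ge_four hS hna
  have hfinE : Finite (E S) := finite_of_le E_le
  obtain ⟨e, he⟩ := IsPGroup.iff_card.1 (hS.to_le (E_le (S := S)))
  have hidx : ∃ i, (commutator S).index = 2 ^ i ∧ e + i = n := by
    have h1 : (commutator S).index ∣ 2 ^ n := ⟨Nat.card (E S), by rw [← hn, ← hEmul, mul_comm]⟩
    obtain ⟨i, hi, hi'⟩ := (Nat.dvd_prime_pow Nat.prime_two).1 h1
    refine ⟨i, hi', ?_⟩
    rw [he, hi', hn, ← pow_add] at hEmul
    exact Nat.pow_right_injective (le_refl 2) hEmul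
  obtain ⟨i, hi, hein⟩ := hidx
  have hi3 : 2 ≤ i := by
    by_contra hlt
    have : i = 0 ∨ i = 1 := by omega
    rcases this with rfl | rfl
    · exact hi1 hi
    · exact hi2 hi
  have hn5 : n ≤ 5 := by
    by_contra hlt
    have : 2 ^ 6 ≤ 2 ^ n := Nat.pow_le_pow_right (by norm_num) (by omega)
    omega
  have he1 : 1 ≤ e := by
    by_contra hlt
    have he0 : e = 0 := by omega
    rw [he0, pow_zero] at he
    apply hna
    refine Z_eq_of_comm fun a ha b hb => ?_
    have h1 : E S = ⊥ := Subgroup.eq_bot_of_card_eq _ he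
    have h2 := comm_mem ha hb
    rw [h1, Subgroup.mem_bot] at h2
    calc a * b = a * b * a⁻¹ * b⁻¹ * (b * a) := by group
      _ = b * a := by rw [h2, one_mul]
  have hcases : e = 1 ∨ (e = 2 ∧ i = 2 ∧ n = 4) ∨ (e = 2 ∧ i = 3 ∧ n = 5) ∨
      (e = 3 ∧ i = 2 ∧ n = 5) := by omega
  rcases hcases with rfl | ⟨rfl, rfl, rfl⟩ | ⟨rfl, rfl, rfl⟩ | ⟨rfl, rfl, rfl⟩
  · exact Or.inl (kindA_of_two hS hna (by rw [he]; norm_num) hcard hF)
  · exact Or.inr (kindB_of_maximal (n := 3) (Or.inl rfl) hn (by rw [hi]; norm_num) hna)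
  · -- `|S| = 32`, `|[S, S]| = 4`
    have h32 : Nat.card S = 32 := by rw [hn]; norm_num
    have hE : Nat.card (E S) = 4 := by rw [he]; norm_num
    have hfinZ : Finite (Z S) := finite_of_le Z_le
    obtain ⟨z, hz⟩ := IsPGroup.iff_card.1 (hS.to_le (Z_le (S := S)))
    obtain ⟨hr1, hr2⟩ := relIndex_Z_ne (S := S) hna
    have hZmul := card_eq_mul_relIndex (Z_le (S := S))
    rw [h32, hz] at hZmul
    have hz1 : 1 ≤ z := by
      by_contra hlt
      have hz0 : z = 0 := by omega
      rw [hz0, pow_zero] at hz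
      obtain ⟨y, -, hyZ, hy1⟩ := exists_mem_E_Z hS (by rw [hE]; norm_num)
      have h1 : Z S = ⊥ := Subgroup.eq_bot_of_card_eq _ hz
      rw [h1, Subgroup.mem_bot] at hyZ
      exact hy1 hyZ
    have hz5 : z ≤ 5 := by
      by_contra hlt
      have h1 : 2 ^ 6 ≤ 2 ^ z := Nat.pow_le_pow_right (by norm_num) (by omega)
      have h2 : (Z S).relIndex S ≠ 0 := by
        intro h
        rw [h, mul_zero] at hZmul
        omega
      have h3 : 2 ^ z * 1 ≤ 2 ^ z * (Z S).relIndex S := Nat.mul_le_mul_left _ (by omega)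
      omega
    have hgoal : ∀ v ∈ S, Nat.card (C S v) = 8 →
        Nat.card (C S v) * Nat.card (E S) ≤ Nat.card S ∧ Nat.card (C S v) ≤ 4 * orderOf v := by
      intro v hv h8
      rw [h8, hE, h32]
      refine ⟨by norm_num, ?_⟩
      have h1 : orderOf v ≠ 1 := by
        intro h
        rw [orderOf_eq_one_iff] at h
        have h2 : C S v = S := by
          refine le_antisymm (C_le v) fun s hs => mem_C.2 ⟨hs, ?_⟩
          rw [h, one_mul, mul_one]
        rw [h2, h32] at h8
        omega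
      have h3 : 0 < orderOf v := by
        have h4 : orderOf v ∣ 32 := by
          rw [← h32]
          exact Subgroup.orderOf_dvd_natCard _ hv
        exact Nat.pos_of_dvd_of_pos h4 (by norm_num)
      omega
    have hz12 : z = 1 ∨ z = 2 := by
      have hz4 : z ≠ 4 := by
        rintro rfl
        apply hr2
        omega
      have hz5' : z ≠ 5 := by
        rintro rfl
        apply hr1
        omega
      have hz3 : z ≠ 3 := by
        rintro rfl
        have hr4 : (Z S).relIndex S = 4 := by omega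
        obtain ⟨x, hx, hxZ⟩ := exists_not_mem_Z hna
        obtain ⟨y, hy, hyC⟩ := exists_not_mem_C hx hxZ
        obtain ⟨h1, h2⟩ := relIndex_C hr4 hx hxZ
        have h3 := relIndex_Z_A_le (C_le x) h2 (fun a ha b hb => comm_of_mem_C hr4 hx hxZ ha hb)
          hy hyC hna
        rw [h1, hE] at h3
        omega
      omega
    rcases hz12 with rfl | rfl
    · have hZ2 : Nat.card (Z S) = 2 := by rw [hz]; norm_num
      by_cases hex : ∃ w ∈ E S, w * w ≠ 1
      · obtain ⟨w, hw, hw2⟩ := hex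
        obtain ⟨u, hu, hu8⟩ := exists_orderOf_eight h32 hE hZ2 hw hw2
        left
        refine ⟨u, hu, fun v hv => ?_⟩
        have hvS := mem_of_isConjElt hv
        exact ⟨hvS, hgoal v hvS (card_C_of_orderOf_eight h32 hE hZ2 hvS
          ((orderOf_of_isConjElt hv).trans hu8))⟩
      · push Not at hex
        obtain ⟨u, hu, hcl⟩ := exists_of_klein hS h32 hE hex hZ2 hF
        left
        exact ⟨u, hu, fun v hv => ⟨(hcl v hv).1, hgoal v (hcl v hv).1 (hcl v hv).2⟩⟩
    · have hZ4 : Nat.card (Z S) = 4 := by rw [hz]; norm_num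
      obtain ⟨A, hA, hA2, hab⟩ := exists_abelian_index_two h32 hE hZ4
      by_cases hex : ∃ w ∈ E S, w * w ≠ 1
      · obtain ⟨w, hw, hw2⟩ := hex
        rcases exists_of_cyc hS h32 hE hZ4 hw hw2 hA hA2 hab hF with
          ⟨u, hu, hcl⟩ | ⟨u, hu, hu8, huC, s, hs, hsu⟩
        · left
          exact ⟨u, hu, fun v hv => ⟨(hcl v hv).1, hgoal v (hcl v hv).1 (hcl v hv).2⟩⟩
        · right
          refine ⟨u, hu, 3, le_rfl, by rw [hu8]; norm_num, by rw [huC]; norm_num, ?_,
            ⟨s, hs, hsu⟩, ?_⟩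
          · have h1 := card_eq_mul_relIndex (C_le (S := S) u)
            rw [huC, h32] at h1
            omega
          · rw [huC, hE, h32]
            norm_num
      · push Not at hex
        obtain ⟨u, hu, hcl⟩ := exists_of_elem hS h32 hE hZ4 hex hA hA2 hab hF
        left
        exact ⟨u, hu, fun v hv => ⟨(hcl v hv).1, hgoal v (hcl v hv).1 (hcl v hv).2⟩⟩
  · exact Or.inr (kindB_of_maximal (n := 4) (Or.inr rfl) hn (by rw [hi]; norm_num) hna)

end Cfsg.Agent.H617.FusMain
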