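import Mathlib
import Cfsg.Agent.H617.StarFive

/-!
# Olsson's bound for defect group `2 ^ 5` and local inertial quotients of order five
-/

set_option autoImplicit false
set_option linter.unusedSectionVars false

open Cfsg
open scoped ComplexConjugate

namespace Cfsg.Agent.H617.BoundFive

open Cfsg.Agent.H651 Cfsg.Agent.H649 Cfsg.Agent.Characters
open Cfsg.Agent.H652.DoubleCount Cfsg.Agent.H645.FusCount Cfsg.Agent.H650
open Cfsg.Agent.H645.TraceForm Cfsg.Agent.H645.LocMono Cfsg.Agent.H645.Watanabe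
open Cfsg.Agent.H613.RegGram
open Cfsg.Agent.H613.Contrib Cfsg.Agent.H613.ContribVal Cfsg.Agent.H644.CentralQuot
open Cfsg.Agent.H617.AbelRank Cfsg.Agent.H617.StarCols
open Cfsg.Agent.H617.StarFive

universe u

variable {G : Type u} [Group G] [Fintype G] {M : Ideal AlgInt}

/-- The quadratic form of the contributions in terms of the inflated characters. -/
theorem exists_form (hM : IsPModular 2 M) {u : G} {H : Subgroup G} [Fintype H]
    (hH : H = Subgroup.centralizer ({u} : Set G)) {u' : H} (hu' : (u' : G) = u)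
    (huu : u * u = 1) (hU : (Subgroup.zpowers u').Normal) {b : Set (IrrCharacter H)} [Fintype b]
    (hb : IsPBlock M b) [Fintype (defl (Subgroup.zpowers u') b)]
    {r : defl (Subgroup.zpowers u') b → defl (Subgroup.zpowers u') b → ℤ}
    (hr : ∀ θ θ', (r θ θ' : ℂ) = 32 * rg 2 (infl (Subgroup.zpowers u') θ : H → ℂ)
        (infl (Subgroup.zpowers u') θ' : H → ℂ)) (χ : IrrCharacter G) :
    ∃ z : defl (Subgroup.zpowers u') b → ℤ,
      32 * contr 2 u b (χ : G → ℂ) (χ : G → ℂ) = ((∑ θ, ∑ θ', z θ * z θ' * r θ θ' : ℤ) : ℂ) := by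
  classical
  have : Finite (IrrCharacter H) := Core.finite_irr
  have := Fintype.ofFinite (IrrCharacter H)
  obtain ⟨n, e, hE⟩ := exists_exp (u := u) hH (q := 2) (by rw [pow_two, huu])
  have hε : ∀ ξ, ∃ ε : ℤ, e ξ = ε := by
    intro ξ
    have h1 := hE.root ξ
    have h0 : (e ξ - 1) * (e ξ + 1) = 0 := by linear_combination h1
    rcases mul_eq_zero.1 h0 with h | h
    · exact ⟨1, by push_cast; linear_combination h⟩
    · exact ⟨-1, by push_cast; linear_combination h⟩
  choose ε hε using hε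
  have hu'u' : u' * u' = 1 := Subtype.ext (by
    change (u' : G) * u' = 1
    rw [hu', huu])
  have hu'c : ∀ g : H, u' * g = g * u' := by
    intro g
    apply Subtype.ext
    change (u' : G) * g = g * u'
    rw [hu']
    have h1 : (g : G) ∈ Subgroup.centralizer ({u} : Set G) := hH.le g.2
    exact (Subgroup.mem_centralizer_singleton_iff.1 h1).symm
  have hcen := zpowers_le_center hu'u' hu'c
  have hpU : IsPGroup 2 (Subgroup.zpowers u') := by
    have h1 : orderOf u' ∣ 2 ^ 1 := by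
      rw [pow_one]
      exact orderOf_dvd_of_pow_eq_one (by rw [pow_two, hu'u'])
    obtain ⟨k, -, hk⟩ := (Nat.dvd_prime_pow Nat.prime_two).1 h1
    exact IsPGroup.of_card (n := k) (by rw [Nat.card_zpowers, hk])
  have hm : ∀ ξ : b, ∃ m : defl (Subgroup.zpowers u') b → ℤ, ∀ g : H, ¬ 2 ∣ orderOf g →
      ((ξ : IrrCharacter H) : H → ℂ) g = ∑ ψ : defl (Subgroup.zpowers u') b, (m ψ : ℂ) *
        (infl (Subgroup.zpowers u') (ψ : IrrCharacter (H ⧸ Subgroup.zpowers u')) : H → ℂ) g :=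
    fun ξ => Cfsg.Agent.H658.exists_int_defl hM hcen hpU hb ξ.2
  choose m hm using hm
  have hrg : ∀ ξ η : b, rg 2 ((ξ : IrrCharacter H) : H → ℂ) ((η : IrrCharacter H) : H → ℂ) =
      ∑ θ : defl (Subgroup.zpowers u') b, ∑ θ' : defl (Subgroup.zpowers u') b,
        (m ξ θ : ℂ) * m η θ' * rg 2 (infl (Subgroup.zpowers u') θ : H → ℂ)
          (infl (Subgroup.zpowers u') θ' : H → ℂ) := by
    intro ξ η
    simp only [rg_def, pair_eq_sum_filter]
    have h1 : ∀ g ∈ Finset.univ.filter (fun x : H => ¬ 2 ∣ orderOf x),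
        ((ξ : IrrCharacter H) : H → ℂ) g * conj (((η : IrrCharacter H) : H → ℂ) g) =
        ∑ θ : defl (Subgroup.zpowers u') b, ∑ θ' : defl (Subgroup.zpowers u') b,
          (m ξ θ : ℂ) * m η θ' * ((infl (Subgroup.zpowers u') θ : H → ℂ) g *
          conj ((infl (Subgroup.zpowers u') θ' : H → ℂ) g)) := by
      intro g hg
      rw [hm ξ g (Finset.mem_filter.1 hg).2, hm η g (Finset.mem_filter.1 hg).2, map_sum,
        Finset.sum_mul_sum]
      refine Finset.sum_congr rfl fun θ _ => Finset.sum_congr rfl fun θ' _ => ?_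
      rw [map_mul, map_intCast]
      ring
    rw [Finset.sum_congr rfl h1, Finset.sum_comm, Finset.mul_sum]
    refine Finset.sum_congr rfl fun θ _ => ?_
    rw [Finset.sum_comm, Finset.mul_sum]
    refine Finset.sum_congr rfl fun θ' _ => ?_
    rw [← Finset.mul_sum]
    ring
  refine ⟨fun θ => ∑ ξ : b, (n χ ξ : ℤ) * ε ξ * m ξ θ, ?_⟩
  have h1 := contr_eq_sum hM hE hb χ χ (k := 1) (by rw [pow_one]; exact hH)
  rw [pow_one] at h1
  have swap : ∀ F : b → b → defl (Subgroup.zpowers u') b → defl (Subgroup.zpowers u') b → ℂ,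
      ∑ ξ, ∑ η, ∑ θ, ∑ θ', F ξ η θ θ' = ∑ θ, ∑ θ', ∑ ξ, ∑ η, F ξ η θ θ' := by
    intro F
    calc ∑ ξ, ∑ η, ∑ θ, ∑ θ', F ξ η θ θ' = ∑ ξ, ∑ θ, ∑ η, ∑ θ', F ξ η θ θ' :=
          Finset.sum_congr rfl fun ξ _ => Finset.sum_comm
      _ = ∑ θ, ∑ ξ, ∑ η, ∑ θ', F ξ η θ θ' := Finset.sum_comm
      _ = ∑ θ, ∑ ξ, ∑ θ', ∑ η, F ξ η θ θ' :=
          Finset.sum_congr rfl fun θ _ => Finset.sum_congr rfl fun ξ _ => Finset.sum_comm
      _ = _ := Finset.sum_congr rfl fun θ _ => Finset.sum_comm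
  rw [h1]
  have h2 : (32 : ℂ) * ∑ ξ : b, ∑ η : b, (n χ ξ : ℂ) * (n χ η : ℂ) *
      (e ξ * conj (e η)) ^ 1 * rg 2 ((ξ : IrrCharacter H) : H → ℂ)
        ((η : IrrCharacter H) : H → ℂ) =
      ∑ ξ : b, ∑ η : b, ∑ θ : defl (Subgroup.zpowers u') b,
        ∑ θ' : defl (Subgroup.zpowers u') b, ((n χ ξ : ℂ) * ε ξ * m ξ θ) *
          ((n χ η : ℂ) * ε η * m η θ') * r θ θ' := by
    rw [Finset.mul_sum]
    refine Finset.sum_congr rfl fun ξ _ => ?_
    rw [Finset.mul_sum]
    refine Finset.sum_congr rfl fun η _ => ?_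
    rw [hrg, Finset.mul_sum, Finset.mul_sum]
    refine Finset.sum_congr rfl fun θ _ => ?_
    rw [Finset.mul_sum, Finset.mul_sum]
    refine Finset.sum_congr rfl fun θ' _ => ?_
    rw [hr, hε ξ, hε η, map_intCast]
    ring
  rw [h2, swap]
  push_cast
  refine Finset.sum_congr rfl fun θ _ => Finset.sum_congr rfl fun θ' _ => ?_
  rw [Finset.sum_mul_sum, Finset.sum_mul]
  refine Finset.sum_congr rfl fun ξ _ => ?_
  rw [Finset.sum_mul]

/-- **The bound.** -/
theorem bound_five (hM : IsPModular 2 M) {B : Set (IrrCharacter G)} {a : BrauerPairIdx G}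
    (hmax : IsMaximalBrauerPair 2 M B a.1 a.2) (hel : ∀ x ∈ a.1, x * x = 1)
    (hcard : Nat.card a.1 = 32) {u : G} (hu : u ∈ a.1) (hu1 : u ≠ 1)
    (hidx : (Subgroup.centralizer (a.1 : Set G)).relIndex
      (stab a ⊓ Subgroup.centralizer ({u} : Set G)) = 5)
    (hfix : ∀ w ∈ a.1, (∀ t ∈ stab a, t * u * t⁻¹ = u → t * w * t⁻¹ = w) → w = 1 ∨ w = u) :
    Nat.card {χ : IrrCharacter G // χ ∈ B ∧ blockHeight 2 B (χ : G → ℂ) = 0} ≤ 32 := by
  classical
  have hp2 : Fact (Nat.Prime 2) := ⟨Nat.prime_two⟩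
  have hMp := Cfsg.Agent.Blocks.Local.isPrime_of_isPModular hM
  have huu := hel u hu
  have hab : ∀ x ∈ a.1, ∀ y ∈ a.1, x * y = y * x := by
    intro x hx y hy
    have h1 := hel (x * y) (a.1.mul_mem hx hy)
    have h2 : (x * y) * (y * x) = 1 := by
      calc (x * y) * (y * x) = x * (y * y) * x := by group
        _ = 1 := by rw [hel y hy, mul_one, hel x hx]
    exact mul_left_cancel (h1.trans h2.symm)
  obtain ⟨b, a', hind, -, ha', hmax', hab', hstab⟩ := exists_local hM hmax hab hu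
  obtain ⟨H, hH⟩ : ∃ H, H = Subgroup.centralizer ({u} : Set G) := ⟨_, rfl⟩
  rw [← hH] at hidx
  revert b a'
  rw [← hH]
  intro b a' hind ha' hmax' hab' hstab
  have := Fintype.ofFinite H
  have hfinH := Core.finite_irr (G := H)
  have := Fintype.ofFinite (IrrCharacter H)
  have hfinG := Core.finite_irr (G := G)
  have := Fintype.ofFinite (IrrCharacter G)
  have : Fintype b := Fintype.ofFinite b
  have : Fintype B := Fintype.ofFinite B
  have haH : a.1 ≤ H := by
    intro x hx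
    rw [hH, Subgroup.mem_centralizer_singleton_iff]
    exact hab x hx u hu
  obtain ⟨u', hu'⟩ : ∃ u' : H, (u' : G) = u := ⟨⟨u, haH hu⟩, rfl⟩
  have hu'a : u' ∈ a'.1 := by
    rw [ha', Subgroup.mem_subgroupOf, hu']
    exact hu
  have hu'1 : u' ≠ 1 := by
    rintro rfl
    exact hu1 hu'.symm
  have hu'c : ∀ g : H, u' * g = g * u' := by
    intro g
    apply Subtype.ext
    change (u' : G) * g = g * u'
    rw [hu']
    have h1 : (g : G) ∈ Subgroup.centralizer ({u} : Set G) := hH.le g.2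
    exact (Subgroup.mem_centralizer_singleton_iff.1 h1).symm
  have hel' : ∀ x ∈ a'.1, x * x = 1 := by
    intro x hx
    rw [ha', Subgroup.mem_subgroupOf] at hx
    exact Subtype.ext (hel x hx)
  have hcard' : Nat.card a'.1 = 32 := by
    rw [ha', ← hcard]
    exact Nat.card_congr (Subgroup.subgroupOfEquivOfLe haH).toEquiv
  have hU : (Subgroup.zpowers u').Normal := by
    refine ⟨fun x hx g => ?_⟩
    have h1 : Subgroup.zpowers u' ≤ Subgroup.center H := by
      rw [Subgroup.zpowers_le, Subgroup.mem_center_iff]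
      exact fun g => (hu'c g).symm
    rw [Subgroup.mem_center_iff.1 (h1 hx) g, mul_inv_cancel_right]
    exact hx
  have : Fintype (defl (Subgroup.zpowers u') b) := by
    have := Core.finite_irr (G := H ⧸ Subgroup.zpowers u')
    exact Fintype.ofFinite _
  have hCH : Subgroup.centralizer (a.1 : Set G) ≤ H := by
    intro x hx
    rw [hH, Subgroup.mem_centralizer_singleton_iff]
    exact (Subgroup.mem_centralizer_iff.1 hx u hu).symm
  have hC' : Subgroup.centralizer (a'.1 : Set H) =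
      (Subgroup.centralizer (a.1 : Set G)).subgroupOf H := by
    ext x
    rw [Subgroup.mem_subgroupOf, Subgroup.mem_centralizer_iff, Subgroup.mem_centralizer_iff]
    constructor
    · intro h y hy
      have h1 : (⟨y, haH hy⟩ : H) ∈ a'.1 := by
        rw [ha', Subgroup.mem_subgroupOf]
        exact hy
      exact congrArg Subtype.val (h _ h1)
    · intro h y hy
      rw [SetLike.mem_coe, ha', Subgroup.mem_subgroupOf] at hy
      exact Subtype.ext (h y hy)
  have hS' : stab a' = (stab a ⊓ H).subgroupOf H := by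
    ext x
    rw [hstab, Subgroup.mem_subgroupOf, Subgroup.mem_inf]
    exact ⟨fun h => ⟨h, x.2⟩, fun h => h.1⟩
  have hidx' : (Subgroup.centralizer (a'.1 : Set H)).relIndex (stab a') = 5 := by
    rw [hC', hS', Subgroup.relIndex_subgroupOf inf_le_right, hidx]
  have hfix' : ∀ w ∈ a'.1, (∀ t ∈ stab a', t * w * t⁻¹ = w) → w = 1 ∨ w = u' := by
    intro w hw h
    have hw' : (w : G) ∈ a.1 := by
      rw [ha', Subgroup.mem_subgroupOf] at hw
      exact hw
    rcases hfix w hw' (fun t ht htu => by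
      have htH : t ∈ H := by
        rw [hH, Subgroup.mem_centralizer_singleton_iff]
        calc t * u = t * u * t⁻¹ * t := by group
          _ = u * t := by rw [htu]
      exact congrArg Subtype.val (h ⟨t, htH⟩ ((hstab _).2 ht))) with h1 | h1
    · exact Or.inl (Subtype.ext h1)
    · exact Or.inr (Subtype.ext (h1.trans hu'.symm))
  obtain ⟨r, hr, hlocal⟩ := five_local hM hmax' hel' hcard' hidx' hu'a hu'1 hu'c hfix' hU
  -- the forms
  have hform := fun χ => exists_form hM hH hu' huu hU hind.1 hr χ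
  choose z hz using hform
  have hdb : ((2 : ℕ) : ℂ) ^ blockDefect 2 b = 32 := by
    have h1 := pow_blockDefect' hM hmax' hab'
    rw [hcard'] at h1
    exact_mod_cast h1
  have hodd : ∀ χ : IrrCharacter G, χ ∈ B → blockHeight 2 B (χ : G → ℂ) = 0 →
      Odd (∑ θ, ∑ θ', z χ θ * z χ θ' * r θ θ') := by
    intro χ hχ h0
    obtain ⟨n, e, hE⟩ := exists_exp (u := u) hH (q := 2 ^ 1) (by rw [pow_one, pow_two, huu])
    have h1 := not_memLocalIdeal_contr hM hE hind hχ hχ h0 h0 (k := 1) (by rw [pow_one]; exact hH)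
    rw [pow_one, hdb, hz, Cfsg.Agent.Blocks.Local.memLocalIdeal_intCast_iff hM] at h1
    rw [← Int.not_even_iff_odd]
    intro h2
    exact h1 (by exact_mod_cast h2.two_dvd)
  by_cases hex : ∃ χ : IrrCharacter G, χ ∈ B ∧ blockHeight 2 B (χ : G → ℂ) = 0
  · obtain ⟨χ₀, hχ₀, hχ₀0⟩ := hex
    have hrank := (hlocal (z χ₀) (hodd χ₀ hχ₀ hχ₀0)).1
    have hsum := sum_contr_self hM ⟨1, by
      rw [pow_one]
      exact orderOf_eq_prime (by rw [pow_two, huu]) hu1⟩ hH hind
    set q : IrrCharacter G → ℤ := fun χ => ∑ θ, ∑ θ', z χ θ * z χ θ' * r θ θ' with hq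
    have hqsum : ∑ χ : B, q χ = 32 * blockRank 2 b := by
      have h1 : ((∑ χ : B, q χ : ℤ) : ℂ) = ((32 * (blockRank 2 b : ℤ) : ℤ) : ℂ) := by
        push_cast
        rw [← hsum, Finset.mul_sum]
        refine Finset.sum_congr rfl fun χ _ => ?_
        rw [hz χ]
      exact_mod_cast h1
    have hq0 : ∀ χ : IrrCharacter G, 0 ≤ q χ := by
      intro χ
      have h1 := hz χ
      rw [contr_self_eq] at h1
      have h2 : ((32 * ∑ η : b, ‖wt 2 u (χ : G → ℂ) ((η : IrrCharacter H) : H → ℂ)‖ ^ 2 : ℝ) : ℂ) =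
          ((q χ : ℝ) : ℂ) := by
        push_cast
        push_cast at h1
        rw [h1, hq]
        push_cast
        rfl
      have h3 : (32 * ∑ η : b, ‖wt 2 u (χ : G → ℂ) ((η : IrrCharacter H) : H → ℂ)‖ ^ 2 : ℝ) =
          (q χ : ℝ) := by exact_mod_cast h2
      have h4 : (0 : ℝ) ≤ (q χ : ℝ) := by
        rw [← h3]
        positivity
      exact_mod_cast h4
    have hq5 : ∀ χ : B, blockHeight 2 B ((χ : IrrCharacter G) : G → ℂ) = 0 → 5 ≤ q χ := by
      intro χ h0
      have h1 := (hlocal (z χ) (hodd χ χ.2 h0)).2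
      have h2 := hq0 χ
      change q χ % 8 = 5 at h1
      omega
    have hcount : (5 : ℤ) * Nat.card {χ : IrrCharacter G // χ ∈ B ∧
        blockHeight 2 B (χ : G → ℂ) = 0} ≤ ∑ χ : B, q χ := by
      have h1 : Nat.card {χ : IrrCharacter G // χ ∈ B ∧ blockHeight 2 B (χ : G → ℂ) = 0} =
          (Finset.univ.filter fun ψ : B =>
            blockHeight 2 B ((ψ : IrrCharacter G) : G → ℂ) = 0).card := by
        rw [← Fintype.card_subtype, ← Nat.card_eq_fintype_card]
        exact Nat.card_congr (Equiv.subtypeSubtypeEquivSubtypeInter _ _).symm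
      rw [h1]
      refine le_trans ?_ (Finset.sum_le_sum_of_subset_of_nonneg (Finset.filter_subset
        (fun ψ : B => blockHeight 2 B ((ψ : IrrCharacter G) : G → ℂ) = 0) Finset.univ)
        fun ψ _ _ => hq0 ψ)
      rw [mul_comm, ← nsmul_eq_mul]
      refine Finset.card_nsmul_le_sum _ _ _ fun ψ hψ => ?_
      exact hq5 ψ (Finset.mem_filter.1 hψ).2
    rw [hqsum] at hcount
    omega
  · have h1 : IsEmpty {χ : IrrCharacter G // χ ∈ B ∧ blockHeight 2 B (χ : G → ℂ) = 0} :=
      ⟨fun χ => hex ⟨χ.1, χ.2⟩⟩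
    rw [Nat.card_of_isEmpty]
    omega

end Cfsg.Agent.H617.BoundFive
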