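import Mathlib
import Cfsg.Agent.H617.SmallRank
import Cfsg.Agent.H617.FusMain

/-!
# Olsson's bound in the first case
-/

set_option autoImplicit false

namespace Cfsg.Agent.H617.KindABlock

open Cfsg Cfsg.FusionSystem Cfsg.Agent.H617.SmallRank Cfsg.Agent.H617.FusMain
open Cfsg.Agent.H617.FusTwo Cfsg.Agent.H617.FusFour

universe u
variable {G : Type u} [Group G] [Finite G] {M : Ideal AlgInt}

theorem C_eq_inf (D : Subgroup G) (v : G) :
    C D v = D ⊓ Subgroup.centralizer ({v} : Set G) := by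
  ext y
  rw [mem_C, Subgroup.mem_inf, Subgroup.mem_centralizer_singleton_iff]
  exact ⟨fun h => ⟨h.1, h.2.symm⟩, fun h => ⟨h.1, h.2.symm⟩⟩

/-- The subsections of `exists_subsection`, with the numerical data. -/
theorem exists_subsection' (hM : IsPModular 2 M)
    {B : Set (IrrCharacter G)} (hB : IsPBlock M B) {D : Subgroup G} (hD : IsDefectGroup 2 M B D) :
    ∃ F : FusionSystem D, F.IsSaturated 2 ∧ ∀ u ∈ D, ∃ v ∈ D, F.IsConjElt u v ∧
      ∃ b : Set (IrrCharacter (Subgroup.centralizer ({v} : Set G))),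
        IsInducedBlock M (Subgroup.centralizer ({v} : Set G)) b B ∧
        2 ^ blockDefect 2 b = Nat.card (C D v) ∧ ∃ t : ℕ, orderOf v = 2 ^ t := by
  have hp : Fact (Nat.Prime 2) := ⟨Nat.prime_two⟩
  have := Fintype.ofFinite G
  have hDp : IsPGroup 2 D := Cfsg.Agent.Blocks.Basic.isPGroup_of_isDefectGroup hD
  obtain ⟨F, hsat, hF⟩ := exists_subsection hM hB hD
  refine ⟨F, hsat, fun u hu => ?_⟩
  obtain ⟨v, hv, huv, b, hind, hdef⟩ := hF u hu
  refine ⟨v, hv, huv, b, hind, ?_, ?_⟩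
  · have h1 := Cfsg.Agent.S0908.result 2 M hM b hind.1 _ hdef
    rw [Nat.card_congr (Subgroup.subgroupOfEquivOfLe inf_le_right).toEquiv] at h1
    rw [C_eq_inf, h1]
  · obtain ⟨k, hk⟩ := hDp ⟨v, hv⟩
    have hk' : v ^ 2 ^ k = 1 := congrArg Subtype.val hk
    obtain ⟨m, -, hm⟩ := (Nat.dvd_prime_pow Nat.prime_two).1 (orderOf_dvd_of_pow_eq_one hk')
    exact ⟨m, hm⟩

theorem card_height_zero_le (hM : IsPModular 2 M)
    {B : Set (IrrCharacter G)} {v : G} {t : ℕ} (hv : orderOf v = 2 ^ t)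
    {b : Set (IrrCharacter (Subgroup.centralizer ({v} : Set G)))}
    (hind : IsInducedBlock M (Subgroup.centralizer ({v} : Set G)) b B)
    (hd : 2 ^ blockDefect 2 b ≤ 4 * orderOf v) :
    Nat.card {χ : IrrCharacter G // χ ∈ B ∧ blockHeight 2 B (χ : G → ℂ) = 0} ≤
      2 ^ blockDefect 2 b := by
  refine (Cfsg.Agent.S4541.result M hM B hind.2.1 v ⟨t, hv⟩ b hind).2.2 ?_
  refine blockRank_le_three_of_central hM hind.1 hv ?_
  rw [hv, show 4 * 2 ^ t = 2 ^ (t + 2) by rw [pow_add]; ring] at hd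
  exact (Nat.pow_le_pow_iff_right (by norm_num)).1 hd

theorem bound_of_kindA (hM : IsPModular 2 M)
    {B : Set (IrrCharacter G)} {D : Subgroup G}
    {F : FusionSystem D} (hF : ∀ u ∈ D, ∃ v ∈ D, F.IsConjElt u v ∧
      ∃ b : Set (IrrCharacter (Subgroup.centralizer ({v} : Set G))),
        IsInducedBlock M (Subgroup.centralizer ({v} : Set G)) b B ∧
        2 ^ blockDefect 2 b = Nat.card (C D v) ∧ ∃ t : ℕ, orderOf v = 2 ^ t)
    (hA : KindA D F) :
    Nat.card {χ : IrrCharacter G // χ ∈ B ∧ blockHeight 2 B (χ : G → ℂ) = 0} ≤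
      (commutator D).index := by
  obtain ⟨u, hu, hcl⟩ := hA
  obtain ⟨v, hv, huv, b, hind, hdef, t, ht⟩ := hF u hu
  obtain ⟨-, h1, h2⟩ := hcl v huv
  have h3 := card_height_zero_le hM ht hind (by rw [hdef]; exact h2)
  rw [hdef] at h3
  refine h3.trans ?_
  rw [← card_E_mul (S := D), mul_comm] at h1
  have hpos : 0 < Nat.card (E D) := by
    have : Finite (E D) := inferInstance
    exact Nat.card_pos
  exact Nat.le_of_mul_le_mul_left h1 hpos

end Cfsg.Agent.H617.KindABlock
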