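import Mathlib
import Cfsg.Agent.H617.SmallRank
import Cfsg.Agent.H617.FusMain
import Cfsg.Agent.H617.RankOneCol
import Cfsg.Agent.H617.KindABlock
import Cfsg.Agent.H649.FusBlock

/-!
# Olsson's bound in the second case
-/

set_option autoImplicit false
set_option linter.unusedSectionVars false

namespace Cfsg.Agent.H617.KindBBlock

open Cfsg Cfsg.FusionSystem Cfsg.Agent.H617.SmallRank Cfsg.Agent.H617.FusMain
open Cfsg.Agent.H617.FusTwo Cfsg.Agent.H617.FusFour Cfsg.Agent.H617.KindABlock Cfsg.Agent.H802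

universe u
variable {G : Type u} [Group G] [Finite G] {M : Ideal AlgInt}

theorem centralizer_zpowers (u : G) :
    Subgroup.centralizer ((Subgroup.zpowers u : Subgroup G) : Set G) =
      Subgroup.centralizer ({u} : Set G) := by
  ext y
  rw [Subgroup.mem_centralizer_singleton_iff, Subgroup.mem_centralizer_iff]
  constructor
  · intro h
    exact (h u (Subgroup.mem_zpowers u)).symm
  · rintro h _ ⟨n, rfl⟩
    exact ((show Commute u y from h.symm).zpow_left n).eq

/-- `Aut_F(⟨u⟩)` for `⟨u⟩` normal in `D`, `|D : C_D(u)| = 2`. -/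
theorem aut_cyclic {D : Subgroup G} (hDp : IsPGroup 2 D) {F : FusionSystem D}
    (hsat : F.IsSaturated 2) {u : G} (hu : u ∈ D) {k : ℕ} (hou : orderOf u = 2 ^ k)
    (hn : D ≤ Subgroup.normalizer ((Subgroup.zpowers u : Subgroup G) : Set G))
    (hidx : (C D u).relIndex D = 2) {s : G} (hs : s ∈ D) (hsu : s * u ≠ u * s)
    {α : MulAut (Subgroup.zpowers u)} (hα : α ∈ F.autGroup (Subgroup.zpowers u)) :
    ((α ⟨u, Subgroup.mem_zpowers u⟩ : Subgroup.zpowers u) : G) = u ∨
      ((α ⟨u, Subgroup.mem_zpowers u⟩ : Subgroup.zpowers u) : G) = s * u * s⁻¹ := by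
  have hp : Fact (Nat.Prime 2) := ⟨Nat.prime_two⟩
  have hQD : (Subgroup.zpowers u) ≤ D := Subgroup.zpowers_le.2 hu
  have hfn := isFullyNormalized_of_le_normalizer F hQD hn
  have hfa := isFullyAutomized_of_isFullyNormalized hDp hsat hfn
  have hcard := (isFullyAutomized_iff_card hDp hQD).1 hfa
  have hle := autInducedBy_le_autGroup F hQD
  -- the automorphism group is a `2`-group
  have h2 : IsPGroup 2 (MulAut (Subgroup.zpowers u)) := by
    have hc : Nat.card (Subgroup.zpowers u) = 2 ^ k := by rw [Nat.card_zpowers, hou]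
    have h3 := IsCyclic.card_mulAut (Subgroup.zpowers u)
    rw [hc] at h3
    rcases Nat.eq_zero_or_pos k with rfl | hk
    · rw [pow_zero, Nat.totient_one] at h3
      exact IsPGroup.of_card (n := 0) (by rw [h3, pow_zero])
    · rw [Nat.totient_prime_pow Nat.prime_two hk] at h3
      exact IsPGroup.of_card (n := k - 1) (by rw [h3]; simp)
  have heq : autInducedBy D (Subgroup.zpowers u) = F.autGroup (Subgroup.zpowers u) := by
    refine Subgroup.eq_of_le_of_card_ge hle (le_of_eq ?_)
    rw [hcard]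
    obtain ⟨m, hm⟩ := IsPGroup.iff_card.1 (h2.to_subgroup (F.autGroup (Subgroup.zpowers u)))
    rw [hm, Nat.Prime.factorization_pow Nat.prime_two]
    simp
  -- order two
  have hmul := card_autInducedBy_mul D (Subgroup.zpowers u)
  have h1 : normalizerIn D (Subgroup.zpowers u) = D := inf_eq_left.2 hn
  have h3 : Nat.card (C D u) * (C D u).relIndex D = Nat.card D := (card_eq_mul_relIndex (C_le u)).symm
  rw [h1, ← h3, hidx, mul_comm] at hmul
  have h4 : Nat.card (autInducedBy D (Subgroup.zpowers u)) = 2 := by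
    have hpos : 0 < Nat.card (C D u) := Nat.card_pos
    exact Nat.eq_of_mul_eq_mul_left hpos hmul
  obtain ⟨τ, hτ, hτi, hτs⟩ := exists_conjAut_mem (F := F) hQD hs (hn hs)
  have hτ1 : τ ≠ 1 := by
    intro h
    have h5 := hτs ⟨u, Subgroup.mem_zpowers u⟩
    rw [h] at h5
    apply hsu
    have h5' : u = s * u * s⁻¹ := h5
    calc s * u = s * u * s⁻¹ * s := by group
      _ = u * s := by rw [← h5']
  rw [← heq] at hα
  have h6 : Nat.card (autInducedBy D (Subgroup.zpowers u)) = 2 := h4
  rw [Nat.card_eq_two_iff' (1 : autInducedBy D (Subgroup.zpowers u))] at h6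
  obtain ⟨x, hx, hxu⟩ := h6
  have hxτ : (⟨τ, hτi⟩ : autInducedBy D (Subgroup.zpowers u)) = x := hxu _ (fun h => hτ1 (congrArg Subtype.val h))
  by_cases hα1 : α = 1
  · left
    rw [hα1]
    rfl
  · right
    have h7 : (⟨α, hα⟩ : autInducedBy D (Subgroup.zpowers u)) = x := hxu _ (fun h => hα1 (congrArg Subtype.val h))
    have h8 : α = τ := congrArg Subtype.val (h7.trans hxτ.symm)
    rw [h8]
    exact hτs _

theorem bound_of_kindB (hM : IsPModular 2 M)
    {B : Set (IrrCharacter G)} (hB : IsPBlock M B) {D : Subgroup G}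
    {e : Set (IrrCharacter (Subgroup.centralizer (D : Set G)))}
    (hmax : IsMaximalBrauerPair 2 M B D e) {F : FusionSystem D}
    (hF : IsBlockFusionSystemOn 2 M B D e F) (hsat : F.IsSaturated 2) (hK : KindB D) :
    Nat.card {χ : IrrCharacter G // χ ∈ B ∧ blockHeight 2 B (χ : G → ℂ) = 0} ≤
      (commutator D).index := by
  have hp : Fact (Nat.Prime 2) := ⟨Nat.prime_two⟩
  have := Fintype.ofFinite G
  have hMp := Cfsg.Agent.Blocks.Local.isPrime_of_isPModular hM
  obtain ⟨u, hu, k, hk, hou, hcu, hidx, ⟨s, hs, hsu⟩, hbd⟩ := hK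
  have hDp : IsPGroup 2 D := hmax.1.1.1
  obtain ⟨j, rfl⟩ : ∃ j, k = j + 1 := ⟨k - 1, by omega⟩
  rw [Nat.add_sub_cancel] at hsu
  set Q := Subgroup.zpowers u with hQdef
  have hQD : Q ≤ D := Subgroup.zpowers_le.2 hu
  -- the power
  obtain ⟨t, ht, hst⟩ : ∃ t : ℕ, (t = 2 ^ (j + 1) - 1 ∨ t = 2 ^ j - 1) ∧ s * u * s⁻¹ = u ^ t := by
    rcases hsu with h | h
    · refine ⟨2 ^ (j + 1) - 1, Or.inl rfl, ?_⟩
      rw [h, inv_eq_iff_mul_eq_one, ← pow_succ', Nat.sub_add_cancel Nat.one_le_two_pow, ← hou,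
        pow_orderOf_eq_one]
    · exact ⟨2 ^ j - 1, Or.inr rfl, h⟩
  have h2j : 4 ≤ 2 ^ j := by
    calc 4 = 2 ^ 2 := by norm_num
      _ ≤ 2 ^ j := Nat.pow_le_pow_right (by norm_num) (by omega)
  have hsne : s * u ≠ u * s := by
    intro h
    have h1 : s * u * s⁻¹ = u := by rw [h]; group
    rw [h1] at hst
    have h2 : u ^ 1 = u ^ t := by rw [pow_one]; exact hst
    rw [pow_inj_mod, hou] at h2
    rw [pow_succ] at h2 ht
    rw [Nat.mod_eq_of_lt (by omega), Nat.mod_eq_of_lt (by omega)] at h2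
    omega
  -- `⟨u⟩` is normal in `D`
  have hcomm : ∀ c ∈ C D u, c ∈ Subgroup.normalizer (Q : Set G) := by
    intro c hc
    rw [Subgroup.mem_normalizer_iff]
    intro y
    have h1 : c ∈ Subgroup.centralizer (Q : Set G) := hc.2
    constructor
    · intro hy
      have h2 := Subgroup.mem_centralizer_iff.1 h1 y hy
      have h3 : c * y * c⁻¹ = y := by rw [← h2]; group
      rw [h3]; exact hy
    · intro hy
      have h2 := Subgroup.mem_centralizer_iff.1 h1 _ hy
      have h3 : c * y * c⁻¹ = y := by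
        have h4 : c * (c * y * c⁻¹) * c⁻¹ = c * y * c⁻¹ := by rw [← h2]; group
        exact mul_left_cancel (mul_right_cancel h4)
      rwa [h3] at hy
  have hsn : s ∈ Subgroup.normalizer (Q : Set G) := by
    have hle : ∀ y ∈ Q, s * y * s⁻¹ ∈ Q := by
      rintro _ ⟨i, rfl⟩
      change s * u ^ i * s⁻¹ ∈ Q
      rw [← conj_zpow, hst]
      exact Subgroup.zpow_mem _ (Subgroup.pow_mem _ (Subgroup.mem_zpowers u) _) _
    rw [Subgroup.mem_normalizer_iff]
    intro y
    refine ⟨hle y, fun hy => ?_⟩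
    -- the map is surjective on the finite group
    have hmap : Q.map (MulAut.conj s).toMonoidHom ≤ Q := by
      rintro _ ⟨z, hz, rfl⟩
      exact hle z hz
    have hcard : Nat.card (Q.map (MulAut.conj s).toMonoidHom) = Nat.card Q :=
      Nat.card_congr (Q.equivMapOfInjective _ (MulAut.conj s).injective).symm.toEquiv
    have heq := Subgroup.eq_of_le_of_card_ge hmap (le_of_eq hcard.symm)
    rw [← heq] at hy
    obtain ⟨z, hz, hzy⟩ := hy
    have h5 : s * z * s⁻¹ = s * y * s⁻¹ := hzy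
    rw [← mul_left_cancel (mul_right_cancel h5)]
    exact hz
  have hn : D ≤ Subgroup.normalizer (Q : Set G) := by
    intro d hd
    by_cases hdc : d ∈ C D u
    · exact hcomm d hdc
    · have hsc : s ∉ C D u := fun h => hsne (mem_C.1 h).2.symm
      have h1 := inv_mul_mem_of_relIndex_two hidx hs hd hsc hdc
      have h2 : d = s * (s⁻¹ * d) := by group
      rw [h2]
      exact Subgroup.mul_mem _ hsn (hcomm _ h1)
  -- the block of the centralizer
  have hfn := isFullyNormalized_of_le_normalizer F hQD hn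
  have hfc := isFullyCentralized_of_isFullyNormalized hDp hsat hfn
  obtain ⟨f, ⟨hf, hfle⟩, -⟩ := Cfsg.Agent.S4655.result 2 M hM D Q e hmax.1.1 hQD
  have hdef := (Cfsg.Agent.S4678.result 2 M hM B D e hmax F hF _ f hQD hf hfle).1 hfc
  have hQp : IsPGroup 2 Q := hDp.to_le hQD
  have hpair := (Cfsg.Agent.S4658.result 2 M hM D Q e f hmax.1.1 ⟨hQp, hf⟩ hfle B hB).1 hmax.1
  have hind := (Cfsg.Agent.H649.isBrauerPairOf_iff_isInducedBlock hM hB hQp hf).1 hpair
  have := Fintype.ofFinite (Subgroup.centralizer (Q : Set G))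
  have hq : 2 ^ blockDefect 2 f = Nat.card (C D u) := by
    have h1 := Cfsg.Agent.S0908.result 2 M hM f hf _ hdef
    rw [Nat.card_congr (Subgroup.subgroupOfEquivOfLe inf_le_right).toEquiv] at h1
    exact h1.symm
  have hle : blockDefect 2 f ≤ (j + 1) + 1 := by
    refine (Nat.pow_le_pow_iff_right (a := 2) (by norm_num)).1 ?_
    rw [hq, pow_succ _ (j + 1)]
    omega
  have hrank1 : ∀ (H : Subgroup G) (_ : H = Subgroup.centralizer ({u} : Set G))
      (b : Set (IrrCharacter H)), IsPBlock M b → blockDefect 2 b ≤ (j + 1) + 1 →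
      blockRank 2 b ≤ 1 := by
    rintro H rfl b hb hdb
    exact blockRank_le_one_of_central hM hb hou hdb
  have hH := centralizer_zpowers u
  have hr := hrank1 _ hH f hf hle
  have hrpos := Cfsg.Agent.H632.TwoChars.blockRank_pos hM hf
  have hl : blockRank 2 f = 1 := by omega
  have hW : ∀ (g : G) (w : ℕ), g * u * g⁻¹ = u ^ w →
      StabilizesBlock (Subgroup.centralizer (Q : Set G)) f g → u ^ w = u ∨ u ^ w = u ^ t := by
    intro g w hgw hst'
    have hgn : g ∈ Subgroup.normalizer (Q : Set G) := by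
      have hle : ∀ y ∈ Q, g * y * g⁻¹ ∈ Q := by
        rintro _ ⟨i, rfl⟩
        change g * u ^ i * g⁻¹ ∈ Q
        rw [← conj_zpow, hgw]
        exact Subgroup.zpow_mem _ (Subgroup.pow_mem _ (Subgroup.mem_zpowers u) _) _
      rw [Subgroup.mem_normalizer_iff]
      intro y
      refine ⟨hle y, fun hy => ?_⟩
      have hmap : Q.map (MulAut.conj g).toMonoidHom ≤ Q := by
        rintro _ ⟨z, hz, rfl⟩
        exact hle z hz
      have hcard : Nat.card (Q.map (MulAut.conj g).toMonoidHom) = Nat.card Q :=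
        Nat.card_congr (Q.equivMapOfInjective _ (MulAut.conj g).injective).symm.toEquiv
      have heq := Subgroup.eq_of_le_of_card_ge hmap (le_of_eq hcard.symm)
      rw [← heq] at hy
      obtain ⟨z, hz, hzy⟩ := hy
      have h5 : g * z * g⁻¹ = g * y * g⁻¹ := hzy
      rw [← mul_left_cancel (mul_right_cancel h5)]
      exact hz
    have hidxeq := (Cfsg.Agent.H649.conjIdx_eq_iff hf g).2 ⟨hgn, hst'⟩
    have hle2 : Cfsg.Agent.H649.LEIdx 2 M (Cfsg.Agent.H649.conjIdx g ⟨Q, f⟩) ⟨D, e⟩ := by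
      rw [hidxeq]; exact hfle
    have hle3 : SubpairLE 2 M (Q.map (MulAut.conj g).toMonoidHom) (conjBlock Q g f) D e := by
      rw [Cfsg.Agent.H649.conjBlock_eq]
      exact hle2
    have hhom : conjHom Q g ∈ F.Hom Q := (hF.2 Q _).2 ⟨hQD, g, fun x => rfl,
      Cfsg.Agent.H649.SubpairLE.le hle3, f, hfle, hle3⟩
    obtain ⟨τ, hτ⟩ := exists_conjAut (P := Q) hgn
    have hτF : τ ∈ F.autGroup Q := by
      refine Subgroup.subset_closure ?_
      change Q.subtype.comp τ.toMonoidHom ∈ F.Hom Q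
      have : Q.subtype.comp τ.toMonoidHom = conjHom Q g := by
        ext x
        exact hτ x
      rw [this]
      exact hhom
    have h1 := aut_cyclic hDp hsat hu hou hn hidx hs hsne hτF
    rw [hτ, hst] at h1
    rw [← hgw]
    exact h1
  have hmain := Cfsg.Agent.H617.RankOneCol.card_height_zero_le hM (by omega) hou hH hind hl ht hst
    (Cfsg.Agent.H649.stabilizes_of_mem hM hmax.1.1 hfle hs hsn) hW
  rw [pow_succ, hq] at hmain
  -- numerics
  have hE := card_E_mul (S := D)
  have hEpos : 0 < Nat.card (E D) := Nat.card_pos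
  rw [← hE] at hbd
  have h3 : 4 * Nat.card (C D u) ≤ (commutator D).index * 2 ^ (j + 1) := by
    have h4 : Nat.card (E D) * (4 * Nat.card (C D u)) ≤
        Nat.card (E D) * ((commutator D).index * 2 ^ (j + 1)) := by
      calc Nat.card (E D) * (4 * Nat.card (C D u)) = 4 * Nat.card (C D u) * Nat.card (E D) := by ring
        _ ≤ _ := hbd
        _ = _ := by ring
    exact Nat.le_of_mul_le_mul_left h4 hEpos
  rw [pow_succ] at h3
  have hpos : 0 < 2 ^ j := by positivity
  have h5 : (commutator D).index * (2 ^ j * 2) = 2 * (2 ^ j * (commutator D).index) := by ring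
  have h6 : 2 ^ j * Nat.card {χ : IrrCharacter G // χ ∈ B ∧ blockHeight 2 B (χ : G → ℂ) = 0} ≤
      2 ^ j * (commutator D).index := by
    refine hmain.trans ?_
    omega
  exact Nat.le_of_mul_le_mul_left h6 hpos

end Cfsg.Agent.H617.KindBBlock
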