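import Mathlib
import Cfsg.Agent.H617.BoundFive
import Cfsg.Agent.H617.KindBBlock

/-!
# Olsson's bound for `2`-blocks of defect at most five
-/

set_option autoImplicit false
set_option linter.unusedSectionVars false

namespace Cfsg.Agent.H617.OlssonMain

open Cfsg Cfsg.FusionSystem Cfsg.Agent.H617.SmallRank Cfsg.Agent.H617.FusMain
open Cfsg.Agent.H617.FusTwo Cfsg.Agent.H617.FusFour Cfsg.Agent.H617.KindABlock
open Cfsg.Agent.H617.KindBBlock
open Cfsg.Agent.H652.DoubleCount Cfsg.Agent.H645.FusCount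
open Cfsg.Agent.H617.AbelRank Cfsg.Agent.H617.StarAut

universe u

variable {G : Type u} [Group G] [Finite G] {M : Ideal AlgInt}

/-- The subsections for the fusion system of a maximal pair. -/
theorem subsection_of_fusion (hM : IsPModular 2 M)
    {B : Set (IrrCharacter G)} (hB : IsPBlock M B) {D : Subgroup G}
    {e : Set (IrrCharacter (Subgroup.centralizer (D : Set G)))}
    (hmax : IsMaximalBrauerPair 2 M B D e) {F : FusionSystem D}
    (hF : IsBlockFusionSystemOn 2 M B D e F) (hsat : F.IsSaturated 2) :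
    ∀ u ∈ D, ∃ v ∈ D, F.IsConjElt u v ∧
      ∃ b : Set (IrrCharacter (Subgroup.centralizer ({v} : Set G))),
        IsInducedBlock M (Subgroup.centralizer ({v} : Set G)) b B ∧
        2 ^ blockDefect 2 b = Nat.card (C D v) ∧ ∃ t : ℕ, orderOf v = 2 ^ t := by
  have hp2 : Fact (Nat.Prime 2) := ⟨Nat.prime_two⟩
  have := Fintype.ofFinite G
  have := Cfsg.Agent.Blocks.Local.isPrime_of_isPModular hM
  have hDp : IsPGroup 2 D := hmax.1.1.1
  have he := hmax.1
  intro u hu
  have huD : Subgroup.zpowers u ≤ D := Subgroup.zpowers_le.2 hu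
  obtain ⟨Q, hQ, hQn⟩ := Cfsg.Agent.H802.exists_isFullyNormalized hDp hsat huD
  have hQc := Cfsg.Agent.H802.isFullyCentralized_of_isFullyNormalized hDp hsat hQn
  obtain ⟨φ, hφ, hφQ⟩ := hQ
  obtain ⟨v, hv⟩ : ∃ v, v = φ ⟨u, Subgroup.mem_zpowers u⟩ := ⟨_, rfl⟩
  have hQv : Q = Subgroup.zpowers v := by
    rw [← hφQ]
    ext y
    constructor
    · rintro ⟨⟨_, n, rfl⟩, rfl⟩
      refine ⟨n, ?_⟩
      change v ^ n = _
      rw [hv, ← map_zpow]
      rfl
    · rintro ⟨n, rfl⟩
      refine ⟨⟨u, Subgroup.mem_zpowers u⟩ ^ n, ?_⟩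
      rw [map_zpow, ← hv]
  have hvD : v ∈ D := by
    rw [hv]
    exact Cfsg.Agent.H802.hom_apply_mem hφ _
  refine ⟨v, hvD, ⟨φ, hφ, hv.symm⟩, ?_⟩
  have hvD' : Subgroup.zpowers v ≤ D := Subgroup.zpowers_le.2 hvD
  obtain ⟨f, ⟨hf, hfle⟩, -⟩ := Cfsg.Agent.S4655.result 2 M hM D (Subgroup.zpowers v) e he.1 hvD'
  have hfc : F.IsFullyCentralized (Subgroup.zpowers v) := hQv ▸ hQc
  have hdef := (Cfsg.Agent.S4678.result 2 M hM B D e hmax F hF _ f hvD' hf hfle).1 hfc
  have hvp : IsPGroup 2 (Subgroup.zpowers v) := hDp.to_le hvD'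
  have hpair := (Cfsg.Agent.S4658.result 2 M hM D (Subgroup.zpowers v) e f he.1 ⟨hvp, hf⟩ hfle B
    hB).1 he
  have hind := (Cfsg.Agent.H649.isBrauerPairOf_iff_isInducedBlock hM hB hvp hf).1 hpair
  have key : ∀ H : Subgroup G,
      H = Subgroup.centralizer ((Subgroup.zpowers v : Subgroup G) : Set G) →
      ∃ b : Set (IrrCharacter H), IsInducedBlock M H b B ∧
        IsDefectGroup 2 M b ((D ⊓ H).subgroupOf H) := by
    rintro H rfl
    exact ⟨f, hind, hdef⟩
  obtain ⟨b, hb1, hb2⟩ := key _ (centralizer_zpowers v).symm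
  refine ⟨b, hb1, ?_, ?_⟩
  · have h1 := Cfsg.Agent.S0908.result 2 M hM b hb1.1 _ hb2
    rw [← h1, C_eq_inf]
    exact Nat.card_congr (Subgroup.subgroupOfEquivOfLe inf_le_right).toEquiv
  · obtain ⟨k, hk⟩ := (IsPGroup.iff_orderOf.1 hDp) ⟨v, hvD⟩
    exact ⟨k, by rw [← hk, Subgroup.orderOf_mk]⟩

/-- Nonabelian defect groups. -/
theorem bound_nonabelian (hM : IsPModular 2 M) {B : Set (IrrCharacter G)} (hB : IsPBlock M B)
    {D : Subgroup G} (hD : IsDefectGroup 2 M B D) (hna : Z D ≠ D) (hcard : Nat.card D ≤ 32) :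
    Nat.card {χ : IrrCharacter G // χ ∈ B ∧ blockHeight 2 B (χ : G → ℂ) = 0} ≤
      (commutator D).index := by
  have hp2 : Fact (Nat.Prime 2) := ⟨Nat.prime_two⟩
  have := Fintype.ofFinite G
  have := Cfsg.Agent.Blocks.Local.isPrime_of_isPModular hM
  have hDp : IsPGroup 2 D := Cfsg.Agent.Blocks.Basic.isPGroup_of_isDefectGroup hD
  obtain ⟨e, he⟩ := Cfsg.Agent.H649.exists_pair_of_isDefectGroup hM hB hD
  have hmax := Cfsg.Agent.H644.isMaximalBrauerPair_of_isDefectGroup hM he hD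
  obtain ⟨F, hF, hsat⟩ := Cfsg.Agent.S4677.result 2 M hM B D e hmax
  rcases kind hDp hna hcard hsat with h | h
  · exact bound_of_kindA hM (subsection_of_fusion hM hB hmax hF hsat) h
  · exact bound_of_kindB hM hB hmax hF hsat h

/-- The statement on odd order groups of automorphisms. -/
def OddAct : Prop :=
  ∀ (V : Type u) [CommGroup V] [Finite V], IsPGroup 2 V → Nat.card V ≤ 32 →
    ∀ A : Subgroup (MulAut V), Odd (Nat.card A) →
    ∃ u : V, ∃ S : Subgroup (MulAut V), (∀ s, s ∈ S ↔ s ∈ A ∧ s u = u) ∧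
      (Nat.card S = 1 ∨
        (Nat.card S = 3 ∧ 4 * Nat.card {x : V // ∀ s ∈ S, s x = x} = Nat.card V) ∨
        (Nat.card S = 5 ∧ Nat.card V = 32 ∧ (∀ x : V, x * x = 1) ∧ u ≠ 1 ∧
          ∀ x : V, (∀ s ∈ S, s x = x) → x = 1 ∨ x = u))

theorem oddAct_group (hodd : OddAct.{u}) {V : Type u} [Group V] [Finite V]
    (hab : ∀ x y : V, x * y = y * x) (hV : IsPGroup 2 V) (hcard : Nat.card V ≤ 32)
    (A : Subgroup (MulAut V)) (hA : Odd (Nat.card A)) :
    ∃ u : V, ∃ S : Subgroup (MulAut V), (∀ s, s ∈ S ↔ s ∈ A ∧ s u = u) ∧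
      (Nat.card S = 1 ∨
        (Nat.card S = 3 ∧ 4 * Nat.card {x : V // ∀ s ∈ S, s x = x} = Nat.card V) ∨
        (Nat.card S = 5 ∧ Nat.card V = 32 ∧ (∀ x : V, x * x = 1) ∧ u ≠ 1 ∧
          ∀ x : V, (∀ s ∈ S, s x = x) → x = 1 ∨ x = u)) :=
  letI : CommGroup V := { ‹Group V› with mul_comm := hab }
  hodd V hV hcard A hA

/-- Local inertial quotient of order three. -/
theorem rank_le_three (hM : IsPModular 2 M) {B : Set (IrrCharacter G)}
    {a : BrauerPairIdx G} (hmax : IsMaximalBrauerPair 2 M B a.1 a.2)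
    (hab : ∀ x ∈ a.1, ∀ y ∈ a.1, x * y = y * x) {u : G} (hu : u ∈ a.1)
    (hidx : (Subgroup.centralizer (a.1 : Set G)).relIndex
      (stab a ⊓ Subgroup.centralizer ({u} : Set G)) = 3)
    (hW : 4 * Nat.card {w : G // w ∈ a.1 ∧ ∀ t ∈ stab a, t * u * t⁻¹ = u → t * w * t⁻¹ = w} =
      Nat.card a.1) : blockRank 2 (bP 2 M a u).2 ≤ 3 := by
  classical
  have hp2 : Fact (Nat.Prime 2) := ⟨Nat.prime_two⟩
  have := Fintype.ofFinite G
  have hMp := Cfsg.Agent.Blocks.Local.isPrime_of_isPModular hM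
  obtain ⟨b, a', hind, hrank, ha', hmax', hab', hstab⟩ := exists_local hM hmax hab hu
  rw [← hrank]
  clear hrank
  obtain ⟨H, hH⟩ : ∃ H, H = Subgroup.centralizer ({u} : Set G) := ⟨_, rfl⟩
  rw [← hH] at hidx
  revert b a'
  rw [← hH]
  intro b a' hind ha' hmax' hab' hstab
  have := Fintype.ofFinite H
  have haH : a.1 ≤ H := by
    intro x hx
    rw [hH, Subgroup.mem_centralizer_singleton_iff]
    exact hab x hx u hu
  have hC' : Subgroup.centralizer (a'.1 : Set H) =
      (Subgroup.centralizer (a.1 : Set G)).subgroupOf H := by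
    ext x
    rw [Subgroup.mem_subgroupOf, Subgroup.mem_centralizer_iff, Subgroup.mem_centralizer_iff]
    constructor
    · intro h y hy
      have h1 : (⟨y, haH hy⟩ : H) ∈ a'.1 := by
        rw [ha', Subgroup.mem_subgroupOf]
        exact hy
      exact congrArg Subtype.val (h _ h1)
    · intro h y hy
      rw [SetLike.mem_coe, ha', Subgroup.mem_subgroupOf] at hy
      exact Subtype.ext (h y hy)
  have hS' : stab a' = (stab a ⊓ H).subgroupOf H := by
    ext x
    rw [hstab, Subgroup.mem_subgroupOf, Subgroup.mem_inf]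
    exact ⟨fun h => ⟨h, x.2⟩, fun h => h.1⟩
  have hidx' : (Subgroup.centralizer (a'.1 : Set H)).relIndex (stab a') = 3 := by
    rw [hC', hS', Subgroup.relIndex_subgroupOf inf_le_right, hidx]
  refine rank_le_three_of_three hM hmax' hab' hidx' ?_
  have hcard' : Nat.card a'.1 = Nat.card a.1 := by
    rw [ha']
    exact Nat.card_congr (Subgroup.subgroupOfEquivOfLe haH).toEquiv
  rw [hcard', ← hW]
  congr 1
  have htH : ∀ t : G, t * u * t⁻¹ = u → t ∈ H := by
    intro t htu
    rw [hH, Subgroup.mem_centralizer_singleton_iff]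
    calc t * u = t * u * t⁻¹ * t := by group
      _ = u * t := by rw [htu]
  have hHt : ∀ t : H, (t : G) * u * (t : G)⁻¹ = u := by
    intro t
    have h1 : (t : G) ∈ Subgroup.centralizer ({u} : Set G) := hH.le t.2
    rw [Subgroup.mem_centralizer_singleton_iff] at h1
    rw [h1]
    group
  refine Nat.card_congr
    { toFun := fun w => ⟨(w.1 : G), ?_, fun t ht htu => ?_⟩
      invFun := fun w => ⟨⟨w.1, haH w.2.1⟩, ?_, fun t ht => ?_⟩
      left_inv := fun _ => rfl
      right_inv := fun _ => rfl }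
  · exact Subgroup.mem_subgroupOf.1 (ha'.le w.2.1)
  · exact congrArg Subtype.val (w.2.2 ⟨t, htH t htu⟩ ((hstab _).2 ht))
  · rw [ha', Subgroup.mem_subgroupOf]
    exact w.2.1
  · exact Subtype.ext (w.2.2 t ((hstab t).1 ht) (hHt t))

/-- Abelian defect groups. -/
theorem bound_abelian (hodd : OddAct.{u}) (hM : IsPModular 2 M) {B : Set (IrrCharacter G)}
    {a : BrauerPairIdx G} (hmax : IsMaximalBrauerPair 2 M B a.1 a.2)
    (hab : ∀ x ∈ a.1, ∀ y ∈ a.1, x * y = y * x) (hcard : Nat.card a.1 ≤ 32) :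
    Nat.card {χ : IrrCharacter G // χ ∈ B ∧ blockHeight 2 B (χ : G → ℂ) = 0} ≤
      Nat.card a.1 := by
  have hp2 : Fact (Nat.Prime 2) := ⟨Nat.prime_two⟩
  have := Fintype.ofFinite G
  have := Cfsg.Agent.Blocks.Local.isPrime_of_isPModular hM
  have hfin := Cfsg.Agent.Characters.Core.finite_irr (G := G)
  have hle : Nat.card {χ : IrrCharacter G // χ ∈ B ∧ blockHeight 2 B (χ : G → ℂ) = 0} ≤
      Nat.card B :=
    Nat.card_le_card_of_injective (fun χ => (⟨χ.1, χ.2.1⟩ : B)) fun χ ψ h =>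
      Subtype.ext (congrArg (fun x : B => (x : IrrCharacter G)) h)
  have hA : Odd (Nat.card (autG a)) := by
    have h1 := not_dvd_card_autG hM hmax hab
    rw [← Nat.not_even_iff_odd, even_iff_two_dvd]
    exact h1
  obtain ⟨u, S, hS, hc⟩ := oddAct_group hodd (fun x y => Subtype.ext (hab x x.2 y y.2))
    hmax.1.1.1 hcard (autG a) hA
  have hrel := relIndex_inf hM hmax hab u.2 S hS
  rcases hc with h1 | ⟨h3, hW⟩ | ⟨h5, h32, hel, hu1, hfix⟩
  · -- regular orbit
    rw [h1, Subgroup.relIndex_eq_one] at hrel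
    refine hle.trans (card_le_of_rank hM hmax hab u.2 ?_)
    rw [rank_one_at hM hmax hab u.2 ?_]
    · norm_num
    · intro t ht htu x hx
      have h2 : t ∈ stab a ⊓ Subgroup.centralizer ({(u : G)} : Set G) := by
        refine Subgroup.mem_inf.2 ⟨ht, Subgroup.mem_centralizer_singleton_iff.2 ?_⟩
        calc t * (u : G) = t * u * t⁻¹ * t := by group
          _ = u * t := by rw [htu]
      have h3 := Subgroup.mem_centralizer_iff.1 (hrel h2) x hx
      rw [← h3]
      group
  · -- order three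
    refine hle.trans (card_le_of_rank hM hmax hab u.2 ?_)
    refine rank_le_three hM hmax hab u.2 (hrel.trans h3) ?_
    rw [← hW]
    congr 1
    refine Nat.card_congr
      { toFun := fun w => ⟨⟨w.1, w.2.1⟩, fun s hs => ?_⟩
        invFun := fun x => ⟨x.1, x.1.2, fun t ht htu => ?_⟩
        left_inv := fun _ => rfl
        right_inv := fun _ => rfl }
    · obtain ⟨t, ht, hst⟩ := (mem_autG hM hmax hab).1 ((hS s).1 hs).1
      apply Subtype.ext
      rw [hst]
      refine w.2.2 t ht ?_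
      rw [← hst, ((hS s).1 hs).2]
    · obtain ⟨α, hα, h⟩ := exists_autG hM hmax hab ht
      rw [← h, x.2 α ((hS α).2 ⟨hα, Subtype.ext (by rw [h, htu])⟩)]
  · rw [h32]
    refine Cfsg.Agent.H617.BoundFive.bound_five hM hmax
      (fun x hx => congrArg Subtype.val (hel ⟨x, hx⟩)) h32 u.2 (fun h => hu1 (Subtype.ext h))
      (hrel.trans h5) ?_
    intro w hw h
    rcases hfix ⟨w, hw⟩ (fun s hs => by
      obtain ⟨t, ht, hst⟩ := (mem_autG hM hmax hab).1 ((hS s).1 hs).1
      apply Subtype.ext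
      rw [hst]
      refine h t ht ?_
      rw [← hst, ((hS s).1 hs).2]) with h' | h'
    · exact Or.inl (congrArg Subtype.val h')
    · exact Or.inr (congrArg Subtype.val h')

/-- **Olsson's bound** for `2`-blocks of defect at most five. -/
theorem main (hodd : OddAct.{u}) (hM : IsPModular 2 M) {B : Set (IrrCharacter G)}
    (hB : IsPBlock M B) {D : Subgroup G} (hD : IsDefectGroup 2 M B D) (hcard : Nat.card D ≤ 32) :
    Nat.card {χ : IrrCharacter G // χ ∈ B ∧ blockHeight 2 B (χ : G → ℂ) = 0} ≤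
      (commutator D).index := by
  by_cases hna : Z D = D
  · have := Fintype.ofFinite G
    have hMp := Cfsg.Agent.Blocks.Local.isPrime_of_isPModular hM
    obtain ⟨e, he⟩ := Cfsg.Agent.H649.exists_pair_of_isDefectGroup hM hB hD
    have hmax := Cfsg.Agent.H644.isMaximalBrauerPair_of_isDefectGroup hM he hD
    have hab : ∀ x ∈ D, ∀ y ∈ D, x * y = y * x := by
      intro x hx y hy
      have h1 : x ∈ Z D := hna.symm ▸ hx
      exact (Subgroup.mem_centralizer_iff.1 h1.2 y hy).symm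
    have h2 := bound_abelian hodd hM (a := ⟨D, e⟩) hmax hab hcard
    refine h2.trans (le_of_eq ?_)
    have h3 : commutator D = ⊥ := by
      rw [commutator_eq_closure, Subgroup.closure_eq_bot_iff]
      rintro _ ⟨x, y, rfl⟩
      rw [Set.mem_singleton_iff, commutatorElement_eq_one_iff_mul_comm]
      exact Subtype.ext (hab x x.2 y y.2)
    rw [h3, Subgroup.index_bot]
  · exact bound_nonabelian hM hB hD hna hcard

end Cfsg.Agent.H617.OlssonMain
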