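import Mathlib
import Cfsg.Agent.H617.BoundFive
import Cfsg.Agent.H617.StarFiveB

/-!
# `k(B) ≤ |D|` for defect group `2 ^ 5` and local inertial quotients of order five
-/

set_option autoImplicit false
set_option linter.unusedSectionVars false

open Cfsg
open scoped ComplexConjugate

namespace Cfsg.Agent.H617.BoundFive

open Cfsg.Agent.H651 Cfsg.Agent.H649 Cfsg.Agent.Characters
open Cfsg.Agent.H652.DoubleCount Cfsg.Agent.H645.FusCount Cfsg.Agent.H650
open Cfsg.Agent.H645.TraceForm Cfsg.Agent.H645.LocMono Cfsg.Agent.H645.Watanabe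
open Cfsg.Agent.H613.RegGram
open Cfsg.Agent.H613.Contrib Cfsg.Agent.H613.ContribVal Cfsg.Agent.H644.CentralQuot
open Cfsg.Agent.H617.AbelRank Cfsg.Agent.H617.StarCols
open Cfsg.Agent.H617.StarFive

universe u

variable {G : Type u} [Group G] [Fintype G] {M : Ideal AlgInt}

/-- **The bound.** -/
theorem card_le_five (hM : IsPModular 2 M) {B : Set (IrrCharacter G)} {a : BrauerPairIdx G}
    (hmax : IsMaximalBrauerPair 2 M B a.1 a.2) (hel : ∀ x ∈ a.1, x * x = 1)
    (hcard : Nat.card a.1 = 32) {u : G} (hu : u ∈ a.1) (hu1 : u ≠ 1)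
    (hidx : (Subgroup.centralizer (a.1 : Set G)).relIndex
      (stab a ⊓ Subgroup.centralizer ({u} : Set G)) = 5)
    (hfix : ∀ w ∈ a.1, (∀ t ∈ stab a, t * u * t⁻¹ = u → t * w * t⁻¹ = w) → w = 1 ∨ w = u) :
    Nat.card B ≤ 32 := by
  classical
  have hp2 : Fact (Nat.Prime 2) := ⟨Nat.prime_two⟩
  have hMp := Cfsg.Agent.Blocks.Local.isPrime_of_isPModular hM
  have huu := hel u hu
  have hab : ∀ x ∈ a.1, ∀ y ∈ a.1, x * y = y * x := by
    intro x hx y hy
    have h1 := hel (x * y) (a.1.mul_mem hx hy)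
    have h2 : (x * y) * (y * x) = 1 := by
      calc (x * y) * (y * x) = x * (y * y) * x := by group
        _ = 1 := by rw [hel y hy, mul_one, hel x hx]
    exact mul_left_cancel (h1.trans h2.symm)
  obtain ⟨b, a', hind, -, ha', hmax', hab', hstab⟩ := exists_local hM hmax hab hu
  obtain ⟨H, hH⟩ : ∃ H, H = Subgroup.centralizer ({u} : Set G) := ⟨_, rfl⟩
  rw [← hH] at hidx
  revert b a'
  rw [← hH]
  intro b a' hind ha' hmax' hab' hstab
  have := Fintype.ofFinite H
  have hfinH := Core.finite_irr (G := H)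
  have := Fintype.ofFinite (IrrCharacter H)
  have hfinG := Core.finite_irr (G := G)
  have := Fintype.ofFinite (IrrCharacter G)
  have : Fintype b := Fintype.ofFinite b
  have : Fintype B := Fintype.ofFinite B
  have haH : a.1 ≤ H := by
    intro x hx
    rw [hH, Subgroup.mem_centralizer_singleton_iff]
    exact hab x hx u hu
  obtain ⟨u', hu'⟩ : ∃ u' : H, (u' : G) = u := ⟨⟨u, haH hu⟩, rfl⟩
  have hu'a : u' ∈ a'.1 := by
    rw [ha', Subgroup.mem_subgroupOf, hu']
    exact hu
  have hu'1 : u' ≠ 1 := by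
    rintro rfl
    exact hu1 hu'.symm
  have hu'c : ∀ g : H, u' * g = g * u' := by
    intro g
    apply Subtype.ext
    change (u' : G) * g = g * u'
    rw [hu']
    have h1 : (g : G) ∈ Subgroup.centralizer ({u} : Set G) := hH.le g.2
    exact (Subgroup.mem_centralizer_singleton_iff.1 h1).symm
  have hel' : ∀ x ∈ a'.1, x * x = 1 := by
    intro x hx
    rw [ha', Subgroup.mem_subgroupOf] at hx
    exact Subtype.ext (hel x hx)
  have hcard' : Nat.card a'.1 = 32 := by
    rw [ha', ← hcard]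
    exact Nat.card_congr (Subgroup.subgroupOfEquivOfLe haH).toEquiv
  have hU : (Subgroup.zpowers u').Normal := by
    refine ⟨fun x hx g => ?_⟩
    have h1 : Subgroup.zpowers u' ≤ Subgroup.center H := by
      rw [Subgroup.zpowers_le, Subgroup.mem_center_iff]
      exact fun g => (hu'c g).symm
    rw [Subgroup.mem_center_iff.1 (h1 hx) g, mul_inv_cancel_right]
    exact hx
  have : Fintype (defl (Subgroup.zpowers u') b) := by
    have := Core.finite_irr (G := H ⧸ Subgroup.zpowers u')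
    exact Fintype.ofFinite _
  have hCH : Subgroup.centralizer (a.1 : Set G) ≤ H := by
    intro x hx
    rw [hH, Subgroup.mem_centralizer_singleton_iff]
    exact (Subgroup.mem_centralizer_iff.1 hx u hu).symm
  have hC' : Subgroup.centralizer (a'.1 : Set H) =
      (Subgroup.centralizer (a.1 : Set G)).subgroupOf H := by
    ext x
    rw [Subgroup.mem_subgroupOf, Subgroup.mem_centralizer_iff, Subgroup.mem_centralizer_iff]
    constructor
    · intro h y hy
      have h1 : (⟨y, haH hy⟩ : H) ∈ a'.1 := by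
        rw [ha', Subgroup.mem_subgroupOf]
        exact hy
      exact congrArg Subtype.val (h _ h1)
    · intro h y hy
      rw [SetLike.mem_coe, ha', Subgroup.mem_subgroupOf] at hy
      exact Subtype.ext (h y hy)
  have hS' : stab a' = (stab a ⊓ H).subgroupOf H := by
    ext x
    rw [hstab, Subgroup.mem_subgroupOf, Subgroup.mem_inf]
    exact ⟨fun h => ⟨h, x.2⟩, fun h => h.1⟩
  have hidx' : (Subgroup.centralizer (a'.1 : Set H)).relIndex (stab a') = 5 := by
    rw [hC', hS', Subgroup.relIndex_subgroupOf inf_le_right, hidx]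
  have hfix' : ∀ w ∈ a'.1, (∀ t ∈ stab a', t * w * t⁻¹ = w) → w = 1 ∨ w = u' := by
    intro w hw h
    have hw' : (w : G) ∈ a.1 := by
      rw [ha', Subgroup.mem_subgroupOf] at hw
      exact hw
    rcases hfix w hw' (fun t ht htu => by
      have htH : t ∈ H := by
        rw [hH, Subgroup.mem_centralizer_singleton_iff]
        calc t * u = t * u * t⁻¹ * t := by group
          _ = u * t := by rw [htu]
      exact congrArg Subtype.val (h ⟨t, htH⟩ ((hstab _).2 ht))) with h1 | h1
    · exact Or.inl (Subtype.ext h1)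
    · exact Or.inr (Subtype.ext (h1.trans hu'.symm))
  obtain ⟨r, hr, hlocal⟩ := five_local_all hM hmax' hel' hcard' hidx' hu'a hu'1 hu'c hfix' hU
  -- the forms
  have hform := fun χ => exists_form hM hH hu' huu hU hind.1 hr χ
  choose z hz using hform
  have hdb : ((2 : ℕ) : ℂ) ^ blockDefect 2 b = 32 := by
    have h1 := pow_blockDefect' hM hmax' hab'
    rw [hcard'] at h1
    exact_mod_cast h1
  have hodd : ∀ χ : IrrCharacter G, χ ∈ B → blockHeight 2 B (χ : G → ℂ) = 0 →
      Odd (∑ θ, ∑ θ', z χ θ * z χ θ' * r θ θ') := by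
    intro χ hχ h0
    obtain ⟨n, e, hE⟩ := exists_exp (u := u) hH (q := 2 ^ 1) (by rw [pow_one, pow_two, huu])
    have h1 := not_memLocalIdeal_contr hM hE hind hχ hχ h0 h0 (k := 1) (by rw [pow_one]; exact hH)
    rw [pow_one, hdb, hz, Cfsg.Agent.Blocks.Local.memLocalIdeal_intCast_iff hM] at h1
    rw [← Int.not_even_iff_odd]
    intro h2
    exact h1 (by exact_mod_cast h2.two_dvd)
  obtain ⟨χ₀, hχ₀, hχ₀0⟩ := Cfsg.Agent.Blocks.Blau.exists_blockHeight_eq_zero 2
    (Cfsg.Agent.Blocks.Blau.isPBlock_nonempty hM hmax.1.2.1)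
  obtain ⟨hrank, hval⟩ := hlocal (z χ₀) (hodd χ₀ hχ₀ hχ₀0)
  have hord : ∃ i : ℕ, orderOf u = 2 ^ i := ⟨1, by
    rw [pow_one]
    exact orderOf_eq_prime (by rw [pow_two, huu]) hu1⟩
  have hsum := sum_contr_self hM hord hH hind
  set q : IrrCharacter G → ℤ := fun χ => ∑ θ, ∑ θ', z χ θ * z χ θ' * r θ θ' with hq
  have hqsum : ∑ χ : B, q χ = 32 * blockRank 2 b := by
    have h1 : ((∑ χ : B, q χ : ℤ) : ℂ) = ((32 * (blockRank 2 b : ℤ) : ℤ) : ℂ) := by
      push_cast
      rw [← hsum, Finset.mul_sum]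
      refine Finset.sum_congr rfl fun χ _ => ?_
      rw [hz χ]
    exact_mod_cast h1
  have hq0 : ∀ χ : IrrCharacter G, 0 ≤ q χ := by
    intro χ
    have h1 := hz χ
    rw [contr_self_eq] at h1
    have h2 : ((32 * ∑ η : b, ‖wt 2 u (χ : G → ℂ) ((η : IrrCharacter H) : H → ℂ)‖ ^ 2 : ℝ) : ℂ) =
        ((q χ : ℝ) : ℂ) := by
      push_cast
      push_cast at h1
      rw [h1, hq]
      push_cast
      rfl
    have h3 : (32 * ∑ η : b, ‖wt 2 u (χ : G → ℂ) ((η : IrrCharacter H) : H → ℂ)‖ ^ 2 : ℝ) =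
        (q χ : ℝ) := by exact_mod_cast h2
    have h4 : (0 : ℝ) ≤ (q χ : ℝ) := by
      rw [← h3]
      positivity
    exact_mod_cast h4
  have hdB : blockDefect 2 b = blockDefect 2 B := by
    have h1 := pow_blockDefect' hM hmax' hab'
    have h2 := pow_blockDefect' hM hmax hab
    rw [hcard'] at h1
    rw [hcard] at h2
    exact Nat.pow_right_injective le_rfl (h1.trans h2.symm)
  have hqpos : ∀ χ : B, 0 < q χ := by
    intro χ
    refine lt_of_le_of_ne (hq0 χ) fun h0 => ?_
    have h1 := Cfsg.Agent.H658.contr_self_ne_zero hM hord hH hind hdB χ.2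
    have h2 := hz χ
    change _ = ((q χ : ℤ) : ℂ) at h2
    rw [← h0, Int.cast_zero] at h2
    rcases mul_eq_zero.1 h2 with h3 | h3
    · norm_num at h3
    · exact h1 h3
  have hcount : ∀ m : ℤ, (∀ χ : B, m ≤ q χ) → m * (Nat.card B : ℤ) ≤ ∑ χ : B, q χ := by
    intro m hm
    rw [Nat.card_eq_fintype_card, ← Finset.card_univ, mul_comm, ← nsmul_eq_mul]
    exact Finset.card_nsmul_le_sum _ _ _ fun χ _ => hm χ
  by_cases h5 : blockRank 2 b = 5
  · have h1 := hcount 5 fun χ => (hval (z χ) (hqpos χ)).2 h5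
    rw [hqsum, h5] at h1
    push_cast at h1
    omega
  · have h1 := hcount 4 fun χ => (hval (z χ) (hqpos χ)).1
    rw [hqsum] at h1
    omega

end Cfsg.Agent.H617.BoundFive
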