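import Mathlib
import Cfsg.Agent.H617.OlssonMain
import Cfsg.Agent.H617.BoundFiveB
import Cfsg.Agent.H617.OddActRank

/-!
# `k(B) ≤ |D|` for `2`-blocks with abelian defect groups of rank at most five
-/

set_option autoImplicit false
set_option linter.unusedSectionVars false

namespace Cfsg.Agent.H617.BrauerAbTwo

open Cfsg Cfsg.Agent.H617.AbelRank Cfsg.Agent.H617.StarAut Cfsg.Agent.H617.OlssonMain
open Cfsg.Agent.H652.DoubleCount Cfsg.Agent.H645.FusCount

universe u

variable {G : Type u} [Group G] [Finite G] {M : Ideal AlgInt}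

theorem exists_good_group {V : Type u} [inst : Group V] [Finite V]
    (hab : ∀ x y : V, x * y = y * x) (hV : IsPGroup 2 V)
    (hcard : Nat.card {x : V // x * x = 1} ≤ 32)
    (A : Subgroup (MulAut V)) (hA : Odd (Nat.card A)) :
    ∃ u : V, ∃ S : Subgroup (MulAut V), (∀ s, s ∈ S ↔ s ∈ A ∧ s u = u) ∧
      (Nat.card S = 1 ∨
        (Nat.card S = 3 ∧ 4 * Nat.card {x : V // ∀ s ∈ S, s x = x} = Nat.card V) ∨
        (Nat.card S = 5 ∧ Nat.card V = 32 ∧ (∀ x : V, x * x = 1) ∧ u ≠ 1 ∧
          ∀ x : V, (∀ s ∈ S, s x = x) → x = 1 ∨ x = u)) := by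
  obtain ⟨C, hC⟩ : ∃ C : CommGroup V, C.toGroup = inst :=
    ⟨{ inst with mul_comm := hab }, rfl⟩
  subst hC
  exact Cfsg.Agent.H617.OddActRank.exists_good_rank hV hcard A hA

/-- **Brauer's bound** for abelian defect groups of rank at most five. -/
theorem card_le_of_rank_five (hM : IsPModular 2 M) {B : Set (IrrCharacter G)}
    {a : BrauerPairIdx G} (hmax : IsMaximalBrauerPair 2 M B a.1 a.2)
    (hab : ∀ x ∈ a.1, ∀ y ∈ a.1, x * y = y * x)
    (hcard : Nat.card {x : a.1 // x * x = 1} ≤ 32) :
    Nat.card B ≤ Nat.card a.1 := by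
  have hp2 : Fact (Nat.Prime 2) := ⟨Nat.prime_two⟩
  have := Fintype.ofFinite G
  have := Cfsg.Agent.Blocks.Local.isPrime_of_isPModular hM
  have hA : Odd (Nat.card (autG a)) := by
    have h1 := not_dvd_card_autG hM hmax hab
    rw [← Nat.not_even_iff_odd, even_iff_two_dvd]
    exact h1
  obtain ⟨u, S, hS, hc⟩ := exists_good_group (fun x y => Subtype.ext (hab x x.2 y y.2))
    hmax.1.1.1 hcard (autG a) hA
  have hrel := relIndex_inf hM hmax hab u.2 S hS
  rcases hc with h1 | ⟨h3, hW⟩ | ⟨h5, h32, hel, hu1, hfix⟩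
  · -- regular orbit
    rw [h1, Subgroup.relIndex_eq_one] at hrel
    refine card_le_of_rank hM hmax hab u.2 ?_
    rw [rank_one_at hM hmax hab u.2 ?_]
    · norm_num
    · intro t ht htu x hx
      have h2 : t ∈ stab a ⊓ Subgroup.centralizer ({(u : G)} : Set G) := by
        refine Subgroup.mem_inf.2 ⟨ht, Subgroup.mem_centralizer_singleton_iff.2 ?_⟩
        calc t * (u : G) = t * u * t⁻¹ * t := by group
          _ = u * t := by rw [htu]
      have h3 := Subgroup.mem_centralizer_iff.1 (hrel h2) x hx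
      rw [← h3]
      group
  · -- order three
    refine card_le_of_rank hM hmax hab u.2 ?_
    refine rank_le_three hM hmax hab u.2 (hrel.trans h3) ?_
    rw [← hW]
    congr 1
    refine Nat.card_congr
      { toFun := fun w => ⟨⟨w.1, w.2.1⟩, fun s hs => ?_⟩
        invFun := fun x => ⟨x.1, x.1.2, fun t ht htu => ?_⟩
        left_inv := fun _ => rfl
        right_inv := fun _ => rfl }
    · obtain ⟨t, ht, hst⟩ := (mem_autG hM hmax hab).1 ((hS s).1 hs).1
      apply Subtype.ext
      rw [hst]
      refine w.2.2 t ht ?_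
      rw [← hst, ((hS s).1 hs).2]
    · obtain ⟨α, hα, h⟩ := exists_autG hM hmax hab ht
      rw [← h, x.2 α ((hS α).2 ⟨hα, Subtype.ext (by rw [h, htu])⟩)]
  · rw [h32]
    refine Cfsg.Agent.H617.BoundFive.card_le_five hM hmax
      (fun x hx => congrArg Subtype.val (hel ⟨x, hx⟩)) h32 u.2 (fun h => hu1 (Subtype.ext h))
      (hrel.trans h5) ?_
    intro w hw h
    rcases hfix ⟨w, hw⟩ (fun s hs => by
      obtain ⟨t, ht, hst⟩ := (mem_autG hM hmax hab).1 ((hS s).1 hs).1
      apply Subtype.ext
      rw [hst]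
      refine h t ht ?_
      rw [← hst, ((hS s).1 hs).2]) with h' | h'
    · exact Or.inl (congrArg Subtype.val h')
    · exact Or.inr (congrArg Subtype.val h')

/-- The elements of order at most two, for a cyclic subgroup of small index. -/
theorem card_sq_le {D : Subgroup G} (hab : ∀ x ∈ D, ∀ y ∈ D, x * y = y * x) {Z : Subgroup G}
    (hZD : Z ≤ D) (hcyc : IsCyclic Z) {n : ℕ} (hidx : Z.relIndex D ≤ n) :
    Nat.card {x : D // x * x = 1} ≤ 2 * n := by
  classical
  let C : CommGroup D := { (inferInstance : Group D) with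
    mul_comm := fun x y => Subtype.ext (hab x x.2 y y.2) }
  let Om : Subgroup D :=
    { carrier := {x | x * x = 1}
      one_mem' := mul_one 1
      mul_mem' := by
        rintro a b (ha : a * a = 1) (hb : b * b = 1)
        change a * b * (a * b) = 1
        have hc : ∀ x y : D, x * y = y * x := fun x y => Subtype.ext (hab x x.2 y y.2)
        calc a * b * (a * b) = a * (b * a) * b := by group
          _ = a * (a * b) * b := by rw [hc b a]
          _ = (a * a) * (b * b) := by group
          _ = 1 := by rw [ha, hb, mul_one]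
      inv_mem' := by
        rintro a (ha : a * a = 1)
        change a⁻¹ * a⁻¹ = 1
        rw [← mul_inv_rev, ha, inv_one] }
  have hOm : Nat.card {x : D // x * x = 1} = Nat.card Om := rfl
  rw [hOm]
  have h1 : Nat.card (Z.subgroupOf D ⊓ Om : Subgroup D) * (Z.subgroupOf D).relIndex Om =
      Nat.card Om := by
    have h2 := Subgroup.card_mul_index ((Z.subgroupOf D).subgroupOf Om)
    have h3 : Nat.card ((Z.subgroupOf D).subgroupOf Om) =
        Nat.card (Z.subgroupOf D ⊓ Om : Subgroup D) := by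
      rw [← Subgroup.inf_subgroupOf_right]
      exact Nat.card_congr (Subgroup.subgroupOfEquivOfLe inf_le_right).toEquiv
    rw [h3] at h2
    exact h2
  have h2 : (Z.subgroupOf D).relIndex Om ≤ n := by
    refine le_trans ?_ hidx
    have h3 : Z.relIndex D = (Z.subgroupOf D).relIndex ⊤ := by
      rw [Subgroup.relIndex_top_right]
      rfl
    rw [h3]
    refine Subgroup.relIndex_le_of_le_right le_top ?_
    rw [Subgroup.relIndex_top_right]
    exact Subgroup.index_ne_zero_of_finite
  have h3 : Nat.card (Z.subgroupOf D ⊓ Om : Subgroup D) ≤ 2 := by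
    have hcyc' : IsCyclic (Z.subgroupOf D) :=
      isCyclic_of_surjective (Subgroup.subgroupOfEquivOfLe hZD).symm.toMonoidHom
        (Subgroup.subgroupOfEquivOfLe hZD).symm.surjective
    have := Fintype.ofFinite (Z.subgroupOf D)
    have h4 := IsCyclic.card_pow_eq_one_le (α := Z.subgroupOf D) (n := 2) (by norm_num)
    refine le_trans ?_ h4
    rw [← Fintype.card_subtype, ← Nat.card_eq_fintype_card]
    refine Nat.card_le_card_of_injective
      (fun x : (Z.subgroupOf D ⊓ Om : Subgroup D) =>
        (⟨⟨x.1, x.2.1⟩, Subtype.ext (by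
          have : (x : D) * x = 1 := x.2.2
          rw [pow_two]
          exact this)⟩ : {y : Z.subgroupOf D // y ^ 2 = 1})) ?_
    intro x y h
    exact Subtype.ext (congrArg (fun z => ((z.1 : Z.subgroupOf D) : D)) h)
  rw [← h1]
  exact Nat.mul_le_mul h3 h2

/-- **Package G**. -/
theorem card_le_abelian_two (hM : IsPModular 2 M) {B : Set (IrrCharacter G)}
    {a : BrauerPairIdx G} (hmax : IsMaximalBrauerPair 2 M B a.1 a.2)
    (hab : ∀ x ∈ a.1, ∀ y ∈ a.1, x * y = y * x) {Z : Subgroup G} (hZ : Z ≤ a.1)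
    (hcyc : IsCyclic Z) (hidx : Z.relIndex a.1 ≤ 16) : Nat.card B ≤ Nat.card a.1 :=
  card_le_of_rank_five hM hmax hab (card_sq_le hab hZ hcyc hidx)

end Cfsg.Agent.H617.BrauerAbTwo
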